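import Cfsg.Agent.DIM5.Small
import Cfsg.Agent.DIM5.Rk
import Cfsg.Agent.G2Q.SLa
import Cfsg.Agent.G2Q.Base
import Cfsg.Agent.H9.SLBasic
import Cfsg.Agent.S2086
import Cfsg.Agent.S2116
import Cfsg.Agent.S0252
import Cfsg.Agent.S0253
import Cfsg.Agent.S0254
import Cfsg.Agent.S0496

set_option autoImplicit false
set_option linter.unusedSectionVars false

open Matrix
open scoped MatrixGroups

namespace Cfsg.Agent.D5

variable {K : Type*} [Field K] {Γ X : Type*} [Group Γ] [Group X] {ρ : Γ →* M5 K} {π : Γ →* X}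

namespace L2

open H90 G2Q

variable {F : Type*} [Field F]

theorem conj_of_trace {x y : SL(2, F)} (h1 : y.1.trace = 0) (h2 : (y * x).1.trace = 0) : IsConj x x⁻¹ := by
  refine isConj_iff.2 ⟨y, ?_⟩
  have e1 := sq_neg_iff.2 h1
  have e2 := sq_neg_iff.2 h2
  rw [← e1, mul_assoc, mul_right_inj] at e2
  rw [mul_inv_eq_iff_eq_mul, eq_inv_mul_iff_mul_eq, e2]

theorem conj_of_abc {x : SL(2, F)} {a b c : F} (h1 : a * a + b * c = -1)
    (h2 : a * (x.1 0 0 - x.1 1 1) + b * x.1 1 0 + c * x.1 0 1 = 0) : IsConj x x⁻¹ := by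
  obtain ⟨y, y0, y1, y2, y3⟩ : ∃ y : SL(2, F), y.1 0 0 = a ∧ y.1 0 1 = b ∧ y.1 1 0 = c ∧ y.1 1 1 = -a :=
    ⟨⟨!![a, b; c, -a], by rw [det_fin_two_of]; linear_combination -h1⟩, rfl, rfl, rfl, rfl⟩
  refine conj_of_trace (y := y) (by rw [trace_fin_two, y0, y3, add_neg_cancel]) ?_
  rw [trace_fin_two, sl2_mul_apply, sl2_mul_apply, y0, y1, y2, y3]
  linear_combination h2

/-- If `-1` is a square, all elements of `SL₂(F)` are real. -/
theorem real_sq {i : F} (hi : i * i = -1) (x : SL(2, F)) : IsConj x x⁻¹ := by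
  by_cases hq : x.1 0 1 = 0
  · by_cases hr : x.1 1 0 = 0
    · exact conj_of_abc (a := 0) (b := 1) (c := -1) (by simp) (by simp [hq, hr])
    · exact conj_of_abc (a := i) (b := i * (x.1 1 1 - x.1 0 0) / x.1 1 0) (c := 0) (by simp [hi])
        (by field_simp; ring)
  · exact conj_of_abc (a := i) (b := 0) (c := i * (x.1 1 1 - x.1 0 0) / x.1 0 1) (by simp [hi])
      (by field_simp; ring)

/-- Elements with the same trace different from `± 2` are conjugate. -/
theorem conj_of_trace_eq [Finite F] (h2 : (2 : F) ≠ 0) {x y : SL(2, F)} (e : x.1.trace = y.1.trace)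
    (h1 : x.1.trace ≠ 2) (h1' : x.1.trace ≠ -2) : IsConj x y := by
  have dx := sl2_det x
  have dy := sl2_det y
  rw [trace_fin_two] at h1 h1'
  rw [trace_fin_two, trace_fin_two] at e
  obtain ⟨z, hz⟩ := exists_sl_conj h2 (A := (2 : F) • x.1 - (x.1 0 0 + x.1 1 1) • 1)
    (B := (2 : F) • y.1 - (x.1 0 0 + x.1 1 1) • 1) (by simp [trace_fin_two]; ring)
    (by simp [trace_fin_two]; linear_combination -2 * e)
    (fun k => mul_ne_zero (sub_ne_zero.2 h1) (sub_ne_zero.2 h1') (by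
      simp [det_fin_two] at k
      linear_combination -k + 4 * dx))
    (by
      simp [det_fin_two]
      linear_combination 4 * dx - 4 * dy - 2 * (x.1 0 0 + x.1 1 1) * e)
  refine isConj_iff.2 ⟨z, mul_inv_eq_iff_eq_mul.2 (Subtype.ext ?_)⟩
  rw [mul_sub, sub_mul, mul_smul_comm, mul_smul_comm, smul_mul_assoc, smul_mul_assoc, mul_one, one_mul,
    sub_left_inj] at hz
  exact smul_right_injective _ h2 hz

theorem trace_inv (x : SL(2, F)) : (x⁻¹).1.trace = x.1.trace := by
  simp [trace_fin_two, adjugate_fin_two, add_comm]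

theorem exists_xu {x : SL(2, F)} (h : x.1.trace = 2) : ∃ y a, x = y * xu a * y⁻¹ := by
  have d := sl2_det x
  rw [trace_fin_two] at h
  by_cases hc : x.1 1 0 = 0
  · have e : x.1 0 0 = 1 := by
      have : (x.1 0 0 - 1) ^ 2 = 0 := by linear_combination x.1 0 0 * h - d - x.1 0 1 * hc
      exact sub_eq_zero.1 (pow_eq_zero_iff two_ne_zero |>.1 this)
    refine ⟨1, x.1 0 1, ?_⟩
    rw [one_mul, inv_one, mul_one]
    apply sl2_ext <;> simp [e, hc]
    linear_combination h - e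
  · refine ⟨xu ((x.1 0 0 - 1) / x.1 1 0) * ww, -x.1 1 0, ?_⟩
    rw [show ∀ a b c : SL(2, F), a * b * c * (a * b)⁻¹ = a * (b * c * b⁻¹) * a⁻¹ from fun a b c => by group,
      ww_xu, neg_neg, ← xu_neg]
    apply sl2_ext <;> simp [sl2_mul_apply, -SpecialLinearGroup.coe_mul] <;> field_simp
    · ring
    · linear_combination x.1 0 0 * h - d
    · linear_combination h

theorem xu_pow (t : F) (n : ℕ) : xu t ^ n = xu (n * t) := by
  induction n with
  | zero => simp [xu_zero]
  | succ n ih => rw [pow_succ, ih, ← xu_add]; push_cast; ring_nf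

theorem hh_xu (s : Fˣ) (t : F) : hh s * xu t * (hh s)⁻¹ = xu (s * s * t) := by rw [hh_conj, dc_xu, Units.val_mul]

/-- The projection to `PSL₂`. -/
abbrev pr (F : Type*) [Field F] : SL(2, F) →* PSL(2, F) := QuotientGroup.mk' _

theorem pr_neg (x : SL(2, F)) : pr F (-x) = pr F x := by
  rw [← neg_one_mul, map_mul, show pr F (-1) = 1 from (QuotientGroup.eq_one_iff _).2 neg_one_mem_center, one_mul]

theorem pr_xu {t : F} (h : pr F (xu t) = 1) : t = 0 := by
  rcases sl2_center ((QuotientGroup.eq_one_iff _).1 h) with e | e <;>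
    simpa using congrArg (fun x : SL(2, F) => x.1 0 1) e

theorem isConj_map {G H : Type*} [Group G] [Group H] (f : G →* H) {x : G} (h : IsConj x x⁻¹) :
    IsConj (f x) (f x)⁻¹ := map_inv f x ▸ f.map_isConj h

/-- Elements of `PSL₂(F)` are real or unipotent. -/
theorem real_or [Finite F] (x : PSL(2, F)) : IsConj x x⁻¹ ∨ ∃ y a, x = pr F (y * xu a * y⁻¹) := by
  obtain ⟨x, rfl⟩ := QuotientGroup.mk'_surjective _ x
  by_cases h2 : (2 : F) = 0
  · exact Or.inl (isConj_map _ (real_sq (i := 1) (by linear_combination h2) x))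
  by_cases h1 : x.1.trace = 2
  · obtain ⟨y, a, e⟩ := exists_xu h1
    exact Or.inr ⟨y, a, congrArg _ e⟩
  by_cases h1' : x.1.trace = -2
  · obtain ⟨y, a, e⟩ := exists_xu (x := -x) (by rw [SpecialLinearGroup.coe_neg, trace_neg, h1', neg_neg])
    exact Or.inr ⟨y, a, (pr_neg x).symm.trans (congrArg _ e)⟩
  · exact Or.inl (isConj_map _ (conj_of_trace_eq h2 (trace_inv x).symm h1 h1'))

/-- The weights of the unipotent subgroup. -/
theorem wts [IsAlgClosed K] (hi : Function.Injective ρ) (φ : SL(2, F) →* Γ) (h1 : φ (xu 1) ≠ 1) (l : ℕ) [CharP F l]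
    (hl : (l : K) ≠ 0) : ∃ (B : (M5 K)ˣ) (d : F → Fin 5 → K) (k : Fin 5) (τ : Fˣ → Fin 5),
      (∀ t, cnj ρ B (φ (xu t)) = diagonal (d t)) ∧ (∀ s s', τ s = τ s' → s = s' ∨ s = -s') ∧
      (∀ (s : Fˣ) t, d (s * s * t) (τ s) = d t k) ∧ d 1 k ≠ 1 := by
  obtain ⟨B, d, hd⟩ := exists_diag ρ (fun t : F => φ (xu t))
    (fun s t => by rw [← map_mul, ← map_mul, ← xu_add, ← xu_add, add_comm])
    fun t => ⟨l, hl, by rw [← map_pow, xu_pow, CharP.cast_eq_zero, zero_mul, xu_zero, map_one]⟩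
  obtain ⟨k, hk⟩ : ∃ k, d 1 k ≠ 1 := by
    by_contra e
    push Not at e
    exact h1 (Sm.eq_one_of_diag (Sm.cnj_inj hi B) (hd 1) e)
  choose τ _ hτ using fun s : Fˣ => wt_perm (cnj ρ B) (φ (hh s))
  have key : ∀ (s : Fˣ) t, d (s * s * t) (τ s k) = d t k := fun s t =>
    hτ s _ _ _ (hd t) (by rw [← map_inv, ← map_mul, ← map_mul, hh_xu, hd]) k
  refine ⟨B, d, k, fun s => τ s k, hd, fun s s' e => ?_, key, hk⟩
  by_contra hne
  have h0 : (s : F) * s - s' * s' ≠ 0 := fun e => hne (by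
    rcases mul_self_eq_mul_self_iff.1 (sub_eq_zero.1 e) with e | e
    exacts [Or.inl (Units.ext e), Or.inr (Units.ext e)])
  have add : ∀ a b i, d (a + b) i = d a i * d b i := fun a b i => by
    have := Sm.diag_mul (hd a) (hd b)
    rw [← map_mul, ← xu_add, hd] at this
    exact congrFun (diagonal_injective this) i
  obtain ⟨t, ht⟩ : ∃ t, (s * s - s' * s') * t = s * s * (1 : F) := ⟨_, mul_div_cancel₀ _ h0⟩
  have e1 := add (s' * s' * t) (s * s * 1) (τ s k)
  rw [← ht, ← add_mul, add_sub_cancel, ht, key, key] at e1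
  beta_reduce at e
  rw [e, key, left_eq_mul₀ (Sm.diag_ne (hd t) k)] at e1
  exact hk e1

theorem card_le {τ : Fˣ → Fin 5} [Finite F] (h : ∀ s s', τ s = τ s' → s = s' ∨ s = -s') (S : Finset (Fin 5))
    (hS : ∀ s, τ s ∈ S) : Nat.card F ≤ 2 * S.card + 1 := by
  classical
  have := Fintype.ofFinite F
  have : (Finset.univ : Finset Fˣ).card ≤ 2 * S.card :=
    Finset.card_le_mul_card_image_of_maps_to (f := τ) (fun s _ => hS s) 2 fun b _ => by
      by_cases e : ∃ s, τ s = b
      · obtain ⟨s, rfl⟩ := e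
        refine (Finset.card_le_card (t := {s, -s}) fun s' hs => ?_).trans Finset.card_le_two
        simpa using h _ _ (Finset.mem_filter.1 hs).2
      · rw [Finset.filter_eq_empty_iff.2 fun s _ e' => e ⟨s, e'⟩]; simp
  rw [Finset.card_univ, Fintype.card_units, ← Nat.card_eq_fintype_card] at this
  omega

theorem four_le [Finite Γ] (h : Hyp ρ π) {r : ℕ} (e : IsL2 X r) : 4 ≤ r := by
  obtain ⟨F, _, _, rfl, ⟨e⟩⟩ := e
  have := h.simple
  have := h.finiteX
  by_contra k
  have c := H9.gcd_mul_card_psl_two (F := F)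
  rw [← Nat.card_congr e.toEquiv] at c
  have := Fintype.one_lt_card (α := F)
  have : Fintype.card F = 2 ∨ Fintype.card F = 3 := by omega
  rcases this with a | a <;> rw [a] at c <;> norm_num at c <;> have := S0496.result h.nonab (by omega) <;> omega

theorem zmod_pow {n m : ℕ} (h : n ∣ m) (a : Multiplicative (ZMod n)) : a ^ m = 1 := by
  rw [← ofAdd_toAdd a, ← ofAdd_nsmul, nsmul_eq_mul, (ZMod.natCast_eq_zero_iff m n).2 h, zero_mul, ofAdd_zero]

end L2

open L2 H90 G2Q

variable [IsAlgClosed K] [Finite Γ]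

omit [IsAlgClosed K] in
theorem Hyp.l2_inj' (h : Hyp ρ π) {r : ℕ} (e : IsL2 X r) : Function.Injective π := by
  have h4 := four_le h e
  obtain ⟨F, _, _, rfl, ⟨e⟩⟩ := e
  by_cases a : Fintype.card F = 4
  · have := Fact.mk Nat.prime_five
    obtain ⟨e1⟩ := S0252.result a
    obtain ⟨e2⟩ := S0253.result (ZMod.card 5)
    exact h.ker_of_mult (e.trans (e1.trans e2.symm)) (S2086.result (ZMod.card 5) 2 le_rfl (by simp) (by simp))
      (n := 2) (by norm_num) (zmod_pow (Nat.gcd_dvd_left _ _))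
  by_cases b : Fintype.card F = 9
  · obtain ⟨e1⟩ := S0254.result b
    exact h.ker_of_mult (e.trans e1) (S2116.result 6 (Or.inl rfl)) (n := 6) (by norm_num) (zmod_pow dvd_rfl)
  · exact h.ker_of_mult e (S2086.result rfl 2 le_rfl (fun _ => h4) (by simp [a, b]))
      (n := 2) (by norm_num) (zmod_pow (Nat.gcd_dvd_left _ _))

theorem Hyp.l2_inj (h : Hyp ρ π) {r : ℕ} (e : IsL2 X r) : Function.Injective π := h.l2_inj' e

omit [IsAlgClosed K] [Finite Γ] in
theorem Hyp.exists_phi (h : Hyp ρ π) (hπ : Function.Injective π) {F : Type*} [Field F] (f : PSL(2, F) →* X) :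
    ∃ φ : SL(2, F) →* Γ, ∀ x, π (φ x) = f (pr F x) :=
  ⟨(MulEquiv.ofBijective π ⟨hπ, h.surj⟩).symm.toMonoidHom.comp (f.comp (pr F)),
    fun _ => (MulEquiv.ofBijective π ⟨hπ, h.surj⟩).apply_symm_apply _⟩

theorem Hyp.l2_sub (h : Hyp ρ π) (hπ : Function.Injective π) {F : Type*} [Field F] [Finite F]
    (f : PSL(2, F) →* X) (hf : Function.Injective f) (l : ℕ) [CharP F l] (hl : (l : K) ≠ 0) :
    Nat.card F ≤ 11 := by
  obtain ⟨φ, hφ⟩ := h.exists_phi hπ f
  obtain ⟨-, -, -, τ, -, hτ, -⟩ := wts h.inj φ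
    (fun e => one_ne_zero (pr_xu (hf (by rw [← hφ, e, map_one, map_one])))) l hl
  simpa using card_le hτ Finset.univ fun _ => Finset.mem_univ _

theorem Hyp.l2 (h : Hyp ρ π) (n : NoRf ρ) {r : ℕ} (e : IsL2 X r) :
    Real ρ ∨ (r = 11 ∧ (11 : K) ≠ 0) := by
  have h4 := four_le h e
  have hπ := h.l2_inj e
  obtain ⟨F, _, _, rfl, ⟨e⟩⟩ := e
  obtain ⟨l, hl⟩ := CharP.exists F
  have lp := CharP.char_is_prime F l
  by_cases hK : (l : K) = 0
  · have := Fact.mk lp
    have : CharP K l := (CharP.charP_iff_prime_eq_zero lp).2 hK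
    refine Or.inl (h.real_of hπ l fun x => ?_)
    obtain ⟨x, rfl⟩ := e.symm.surjective x
    refine (real_or x).imp (isConj_map e.symm.toMonoidHom) ?_
    rintro ⟨y, a, rfl⟩
    exact ⟨1, by rw [pow_one, ← map_pow, ← map_pow, conj_pow, xu_pow, CharP.cast_eq_zero, zero_mul, xu_zero,
      mul_one, mul_inv_cancel, map_one, map_one]⟩
  have h11 := h.l2_sub hπ e.symm.toMonoidHom e.symm.injective l hK
  rw [Nat.card_eq_fintype_card] at h11
  obtain ⟨φ, hφ⟩ := h.exists_phi hπ e.symm.toMonoidHom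
  have φs : Function.Surjective φ := fun g => by
    obtain ⟨x, hx⟩ := QuotientGroup.mk'_surjective _ (e (π g))
    exact ⟨x, hπ (by rw [hφ, hx]; exact e.symm_apply_apply _)⟩
  by_cases h3 : Fintype.card F % 4 = 3
  swap
  · obtain ⟨i, hi⟩ := FiniteField.isSquare_neg_one_iff.2 h3
    refine Or.inl fun g => ?_
    obtain ⟨x, rfl⟩ := φs g
    exact h.trace_isConj hπ (π.map_isConj (isConj_map φ (real_sq hi.symm x)))
  have lq : ∀ q : ℕ, q.Prime → Fintype.card F = q → l = q := fun q hq e =>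
    (Nat.prime_dvd_prime_iff_eq lp hq).1 ((CharP.cast_eq_zero_iff F l q).1 (e ▸ FiniteField.cast_card_eq_zero F))
  by_cases h7 : Fintype.card F = 7
  swap
  · have a : Fintype.card F = 11 := by omega
    obtain rfl := lq 11 (by norm_num) a
    exact Or.inr ⟨a, by exact_mod_cast hK⟩
  exfalso
  obtain rfl := lq 7 (by norm_num) h7
  have c7 : (7 : F) = 0 := by exact_mod_cast CharP.cast_eq_zero F 7
  have c2 : (2 : F) ≠ 0 := fun e => one_ne_zero (by linear_combination c7 - 3 * e : (1 : F) = 0)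
  have c3 : (3 : F) ≠ 0 := fun e => one_ne_zero (by linear_combination c7 - 2 * e : (1 : F) = 0)
  have φ1 : φ (-1) = 1 := hπ (by rw [hφ, pr_neg, map_one, map_one, map_one])
  have s := h.scott (a := φ ww) (b := φ (ww⁻¹ * (xu 1)⁻¹)) (c := φ (xu 1))
    (by rw [← map_mul, ← map_mul]; simp) fun H ha hb => by
      have hc : φ (xu 1) ∈ H := by
        have := inv_mem (mul_mem ha hb)
        rwa [← map_mul, mul_inv_cancel_left, map_inv, inv_inv] at this
      have hu : ∀ t, xu t ∈ H.comap φ := fun t => by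
        obtain ⟨z, rfl⟩ := (ZMod.ringEquivOfPrime F (by norm_num) h7).surjective t
        obtain ⟨m, rfl⟩ := ZMod.natCast_zmod_surjective z
        rw [map_natCast, ← mul_one (m : F), ← xu_pow]
        exact pow_mem (show xu 1 ∈ H.comap φ from hc) m
      have := sl2_eq_top hu fun t => by
        rw [← neg_neg t, ← ww_xu]
        exact mul_mem (mul_mem ha (hu _)) (inv_mem ha)
      refine eq_top_iff.2 fun g _ => ?_
      obtain ⟨x, rfl⟩ := φs g
      exact (this ▸ Subgroup.mem_top x : x ∈ H.comap φ)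
  have r1 := h.rank_inv n (g := φ ww) (by rw [← map_mul, ww_sq, φ1])
  have tb : (ww⁻¹ * (xu 1)⁻¹ : SL(2, F)).1.trace = -1 := by
    rw [← _root_.mul_inv_rev, trace_inv]; rw [trace_fin_two, sl2_mul_apply, sl2_mul_apply]; simp
  have r2 := h.rank_real (isConj_map φ (conj_of_trace_eq c2 (trace_inv (ww⁻¹ * (xu 1)⁻¹)).symm
    (by rw [tb]; exact fun e => c3 (by linear_combination -e))
    (by rw [tb]; exact fun e => one_ne_zero (by linear_combination e : (1 : F) = 0))))
  have r3 := rank_three (ρ := ρ) (g := φ (xu 1)) (Or.inl ⟨rfl, rfl⟩) hK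
    (by rw [← map_pow, xu_pow, CharP.cast_eq_zero, zero_mul, xu_zero, map_one]) (by
      rw [← map_pow]
      refine φ.map_isConj (isConj_iff.2 ⟨hh (Units.mk0 3 c3), ?_⟩)
      rw [hh_xu, xu_pow]
      congr 1
      simp only [Units.val_mk0]
      push_cast
      linear_combination c7)
  omega

end Cfsg.Agent.D5
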