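import Cfsg.Agent.DIM5.L2
import Cfsg.Agent.H29.Transport

set_option autoImplicit false
set_option linter.unusedSectionVars false

open Matrix
open scoped MatrixGroups

namespace Cfsg.Agent.D5

variable {K : Type*} [Field K] {Γ X : Type*} [Group Γ] [Group X] {ρ : Γ →* M5 K} {π : Γ →* X}
variable [IsAlgClosed K] [Finite Γ] (p : ℕ) [Fact p.Prime] [CharP K p]

namespace L11

open H90 G2Q L2

instance factEleven : Fact (Nat.Prime 11) := ⟨by norm_num⟩

theorem trace_of_conj {a b : Γ} (e : IsConj a b) : (ρ b).trace = (ρ a).trace := by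
  obtain ⟨k, rfl⟩ := isConj_iff.1 e
  exact trace_conj ρ a k

/-- Real elements of order dividing six have traces in the prime field. -/
theorem six {g : Γ} (h6 : g ^ 6 = 1) (hr : IsConj g g⁻¹) : (ρ g).trace ^ p = (ρ g).trace := by
  have hp : p.Prime := Fact.out
  have key : ∀ (g : Γ) (n : ℕ), IsConj g g⁻¹ → g ^ n = 1 → p % n = 1 ∨ p % n + 1 = n →
      (ρ (g ^ p)).trace = (ρ g).trace := fun g n hr hn e => by
    have : g ^ p = g ^ (p % n) := by
      conv_lhs => rw [← Nat.div_add_mod p n, pow_add, pow_mul, hn, one_pow, one_mul]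
    rcases e with e | e
    · rw [this, e, pow_one]
    · rw [this, eq_inv_of_mul_eq_one_left (show g ^ (p % n) * g = 1 by rw [← pow_succ, e, hn]), trace_of_conj hr]
  have hr' : IsConj (g ^ p) (g ^ p)⁻¹ := inv_pow g p ▸ hr.pow p
  by_cases h2 : p = 2
  · refine frobenius_inj K p ?_
    rw [frobenius_def, frobenius_def, trace_pow_p, trace_pow_p]
    exact key _ 3 hr' (by rw [← pow_mul, h2, h6]) (by omega)
  by_cases h3 : p = 3
  · refine frobenius_inj K p ?_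
    rw [frobenius_def, frobenius_def, trace_pow_p, trace_pow_p]
    exact key _ 2 hr' (by rw [← pow_mul, h3, h6]) (by omega)
  rw [trace_pow_p]
  refine key g 6 hr h6 ?_
  have a : ¬ 2 ∣ p := fun e => h2 ((Nat.prime_dvd_prime_iff_eq Nat.prime_two hp).1 e).symm
  have b : ¬ 3 ∣ p := fun e => h3 ((Nat.prime_dvd_prime_iff_eq Nat.prime_three hp).1 e).symm
  omega

theorem pow_six {F : Type*} [Field F] (x : SL(2, F)) (h : x.1.trace ^ 5 - 4 * x.1.trace ^ 3 + 3 * x.1.trace = 0) :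
    ∃ c : F, (x ^ 6).1 = c • 1 := by
  have e := m2_sq x.1
  rw [x.2, one_smul] at e
  generalize x.1.trace = t at e h
  have e3 : x.1 ^ 3 = (t ^ 2 - 1) • x.1 - t • 1 := by
    rw [pow_three', e, sub_mul, smul_mul_assoc, e, one_mul]; module
  refine ⟨-(t ^ 2 - 1) ^ 2 + t ^ 2, ?_⟩
  change x.1 ^ 6 = _
  rw [show 6 = 3 + 3 from rfl, pow_add, e3]
  simp only [sub_mul, mul_sub, smul_mul_assoc, mul_smul_comm, e, one_mul, mul_one]
  have : ((t ^ 2 - 1) ^ 2 * t - 2 * t * (t ^ 2 - 1)) • x.1 = 0 := by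
    rw [show (t ^ 2 - 1) ^ 2 * t - 2 * t * (t ^ 2 - 1) = 0 by linear_combination h, zero_smul]
  linear_combination (norm := module) this

theorem cases_trace : ∀ t : ZMod 11, t = 2 ∨ t = -2 ∨ t ^ 5 - 4 * t ^ 3 + 3 * t = 0 ∨
    ∃ s : (ZMod 11)ˣ, (s : ZMod 11) * s ≠ 1 ∧ t = s + (s⁻¹ : (ZMod 11)ˣ) := by decide +kernel

/-- Split elements have trace zero. -/
theorem split (hi : Function.Injective ρ) (φ : SL(2, ZMod 11) →* Γ) (h1 : φ (xu 1) ≠ 1) (hK : ((11 : ℕ) : K) ≠ 0)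
    (s : (ZMod 11)ˣ) (hs : (s : ZMod 11) * s ≠ 1) : (ρ (φ (hh s))).trace = 0 := by
  classical
  obtain ⟨B, d, k, τ, hd, hτ, key, hk⟩ := wts hi φ h1 11 hK
  have surj : ∀ i, ∃ s, τ s = i := fun i => by
    by_contra e
    have := card_le hτ (Finset.univ.erase i) fun s => by simpa using fun e' => e ⟨s, e'⟩
    simp at this
  rw [← trace_cnj B]
  refine Finset.sum_eq_zero fun i _ => by_contra fun e => hk ?_
  obtain ⟨u, rfl⟩ := surj i
  have e1 : ∀ t, d (s * s * t) (τ u) = d t (τ u) := fun t =>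
    Sm.entry (hd t) (by rw [← map_inv, ← map_mul, ← map_mul, hh_xu, hd]) e
  have add : ∀ a b i, d (a + b) i = d a i * d b i := fun a b i => by
    have := Sm.diag_mul (hd a) (hd b)
    rw [← map_mul, ← xu_add, hd] at this
    exact congrFun (diagonal_injective this) i
  obtain ⟨t, ht⟩ : ∃ t, (s * s - 1) * t = u * u * (1 : ZMod 11) := ⟨_, mul_div_cancel₀ _ (sub_ne_zero.2 hs)⟩
  have e2 := add t (u * u * 1) (τ u)
  rw [key, ← ht, show t + (s * s - 1) * t = s * s * t by ring, e1, left_eq_mul₀ (Sm.diag_ne (hd t) _)] at e2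
  exact e2

theorem main (h : Hyp ρ π) (hπ : Function.Injective π) (e : X ≃* PSL(2, ZMod 11)) (hp : p ≠ 11) (g : Γ) :
    ((ρ g).trace ^ p = (ρ g).trace ∧ (ρ g⁻¹).trace = (ρ g).trace) ∨
    ((∀ c : (ZMod 11)ˣ, (p : ZMod 11) = c * c → (ρ g).trace ^ p = (ρ g).trace) ∧
      ∀ c : (ZMod 11)ˣ, (p : ZMod 11) = -(c * c) → (ρ g).trace ^ p = (ρ g⁻¹).trace) := by
  obtain ⟨φ, hφ⟩ := h.exists_phi hπ e.symm.toMonoidHom
  have hK : ((11 : ℕ) : K) ≠ 0 := fun k =>
    hp ((Nat.prime_dvd_prime_iff_eq Fact.out Fact.out).1 ((CharP.cast_eq_zero_iff K p 11).1 k))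
  obtain ⟨x, rfl⟩ : ∃ x, φ x = g := by
    obtain ⟨x, hx⟩ := QuotientGroup.mk'_surjective _ (e (π g))
    exact ⟨x, hπ (by rw [hφ, hx]; exact e.symm_apply_apply _)⟩
  have φn : ∀ x, φ (-x) = φ x := fun x => hπ (by rw [hφ, hφ, pr_neg])
  have c2 : (2 : ZMod 11) ≠ 0 := by decide
  have uni : ∀ y a, φ x = φ (y * xu a * y⁻¹) →
      (∀ c : (ZMod 11)ˣ, (p : ZMod 11) = c * c → (ρ (φ x)).trace ^ p = (ρ (φ x)).trace) ∧
      ∀ c : (ZMod 11)ˣ, (p : ZMod 11) = -(c * c) → (ρ (φ x)).trace ^ p = (ρ (φ x)⁻¹).trace := fun y a e => by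
    have t : ∀ y z, (ρ (φ (y * z * y⁻¹))).trace = (ρ (φ z)).trace := fun y z => by
      rw [map_mul φ, map_mul φ, map_inv, trace_conj]
    rw [e, trace_pow_p, ← map_pow, conj_pow, xu_pow, ← map_inv, conj_inv, ← xu_neg, t, t, t]
    exact ⟨fun c hc => by rw [hc, ← hh_xu, t], fun c hc => by rw [hc, neg_mul, ← mul_neg, ← hh_xu, t]⟩
  by_cases h1 : x.1.trace = 2
  · obtain ⟨y, a, e⟩ := L2.exists_xu h1
    exact Or.inr (uni y a (congrArg φ e))
  by_cases h1' : x.1.trace = -2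
  · obtain ⟨y, a, e⟩ := L2.exists_xu (x := -x) (by rw [SpecialLinearGroup.coe_neg, trace_neg, h1', neg_neg])
    exact Or.inr (uni y a ((φn x).symm.trans (congrArg φ e)))
  have hr := isConj_map φ (conj_of_trace_eq c2 (trace_inv x).symm h1 h1')
  refine Or.inl ⟨?_, trace_of_conj hr⟩
  rcases cases_trace x.1.trace with a | a | a | ⟨s, hs, a⟩
  · exact (h1 a).elim
  · exact (h1' a).elim
  · obtain ⟨c, hc⟩ := pow_six x a
    refine six p ?_ hr
    rw [← map_pow]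
    rcases sl2_center (g := x ^ 6) (Subgroup.mem_center_iff.2 fun y => Subtype.ext (by
      change y.1 * (x ^ 6).1 = (x ^ 6).1 * y.1
      rw [hc, mul_smul_comm, smul_mul_assoc, mul_one, one_mul])) with k | k <;> rw [k]
    · exact map_one φ
    · rw [φn, map_one]
  · have := trace_of_conj (ρ := ρ) (φ.map_isConj (conj_of_trace_eq c2 (y := hh s)
      (by rw [a, trace_fin_two, Units.val_inv_eq_inv_val]; rfl) h1 h1'))
    rw [← this, split h.inj φ (fun k => one_ne_zero (pr_xu (e.symm.injective (by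
      change e.symm.toMonoidHom _ = _
      rw [← hφ, k, map_one, map_one])))) hK s hs, zero_pow (Fact.out : p.Prime).ne_zero]

end L11

open L11

theorem IsL2.eleven (e : IsL2 X 11) : Nonempty (X ≃* PSL(2, ZMod 11)) := by
  obtain ⟨F, _, _, hF, ⟨e⟩⟩ := e
  exact ⟨e.trans (H29.pslEquiv _ (ZMod.ringEquivOfPrime F (by norm_num) hF).symm)⟩

theorem Hyp.l11 (h : Hyp ρ π) (e : IsL2 X 11) (hp : p ≠ 11) :
    ((p % 11 = 1 ∨ p % 11 = 3 ∨ p % 11 = 4 ∨ p % 11 = 5 ∨ p % 11 = 9) ∧ FrobFix ρ p) ∨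
    ((p % 11 = 2 ∨ p % 11 = 6 ∨ p % 11 = 7 ∨ p % 11 = 8 ∨ p % 11 = 10) ∧ FrobInv ρ p) := by
  obtain ⟨e'⟩ := e.eleven
  have key := main p h (h.l2_inj e) e' hp
  have h0 : p % 11 ≠ 0 := fun k => hp ((Nat.prime_dvd_prime_iff_eq (by norm_num) Fact.out).1
    (Nat.dvd_of_mod_eq_zero k)).symm
  have hc : ((p % 11 : ℕ) : ZMod 11) = p := ZMod.natCast_mod p 11
  by_cases a : p % 11 = 1 ∨ p % 11 = 3 ∨ p % 11 = 4 ∨ p % 11 = 5 ∨ p % 11 = 9
  · obtain ⟨c, e⟩ : ∃ c : (ZMod 11)ˣ, (p : ZMod 11) = c * c := by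
      rw [← hc]
      rcases a with a | a | a | a | a <;> rw [a] <;> decide +kernel
    exact Or.inl ⟨a, fun g => (key g).elim (·.1) fun k => k.1 c e⟩
  · have b : p % 11 = 2 ∨ p % 11 = 6 ∨ p % 11 = 7 ∨ p % 11 = 8 ∨ p % 11 = 10 := by omega
    obtain ⟨c, e⟩ : ∃ c : (ZMod 11)ˣ, (p : ZMod 11) = -(c * c) := by
      rw [← hc]
      rcases b with a | a | a | a | a <;> rw [a] <;> decide +kernel
    exact Or.inr ⟨b, fun g => (key g).elim (fun k => k.1.trans k.2.symm) fun k => k.2 c e⟩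

end Cfsg.Agent.D5
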