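import Cfsg.Agent.DIM5.NE1a

/-! Characteristic two without transvections: existence of the adapted Sylow subgroup. -/

set_option autoImplicit false
set_option linter.unusedSectionVars false
set_option linter.unusedVariables false
set_option linter.unusedSimpArgs false

open Matrix
open scoped MatrixGroups

namespace Cfsg.Agent.D5

variable {K : Type*} [Field K] {Γ X : Type*} [Group Γ] [Group X] {ρ : Γ →* M5 K} {π : Γ →* X}

theorem Sy.ne_dual {S : Sylow 2 Γ} {z : Γ} (H : Sy ρ S z) (z2 : z * z = 1)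
    (k : ∀ s ∈ H.A, ρ s 2 3 = 0 ∧ ρ s 2 4 = 0) : ∃ A B, NE (dual ρ) S z A B := by
  have H' : Sy (cnj (dual ρ) (rv K)) S z :=
    ⟨fun a b e => inv_injective (H.hi (transpose_injective (by
      rwa [cnj_apply, cnj_apply, Units.mul_left_inj, Units.mul_right_inj] at e))), H.h2,
      NoTv.cnj (fun v φ a => H.n _ _ (Fl.dual_iff.1 a)) _,
      rv_um (by rw [inv_eq_of_mul_eq_one_right z2, H.hz]), H.zS, fun s hs => by
      obtain ⟨x, a, a', b, b', c, d, e, f, k⟩ := H.sh _ (inv_mem hs)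
      exact ⟨_, _, _, _, _, _, _, _, _, rv_um k⟩⟩
  refine ⟨_, _, (H'.ne fun s hs => ?_).of_cnj⟩
  obtain ⟨x, a, a', b, b', c, d, e, f, k'⟩ := H.sh _ (inv_mem hs.1)
  have k1 := hs.2
  rw [rv_um k'] at k1 ⊢
  replace k1 : x = 0 := k1
  have := k s⁻¹ ⟨inv_mem hs.1, by rw [k']; exact k1⟩
  rw [k'] at this
  replace this : b = 0 ∧ b' = 0 := this
  exact this.symm

theorem Hyp.exists_cen [Finite Γ] (h : Hyp ρ π) (S : Sylow 2 Γ) :
    ∃ z ∈ S, z ≠ 1 ∧ z * z = 1 ∧ ∀ s ∈ S.1, s * z = z * s := by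
  haveI := h.simple
  haveI := h.finiteX
  have d : 2 ∣ Nat.card S := S.dvd_card_of_dvd_card (.trans (by
    by_contra h3
    have := S0205.result (G := X) (Nat.odd_iff.2 (by omega))
    exact h.nonab ⟨⟨IsSimpleGroup.comm_iff_isSolvable.2 this⟩⟩)
    (Subgroup.card_dvd_of_surjective π h.surj))
  haveI : Nontrivial S := Finite.one_lt_card_iff_nontrivial.1 (Nat.le_of_dvd Nat.card_pos d)
  haveI := S.isPGroup'.center_nontrivial
  obtain ⟨z, hz⟩ := exists_prime_orderOf_dvd_card' (G := Subgroup.center S) 2 (by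
    obtain ⟨k, k0, e⟩ := (S.isPGroup'.to_subgroup (Subgroup.center S)).nontrivial_iff_card.1
      inferInstance
    rw [e]; exact dvd_pow_self 2 k0.ne')
  refine ⟨z, z.1.2, fun e => ?_, ?_,
    fun s hs => congrArg Subtype.val (Subgroup.mem_center_iff.1 z.2 ⟨s, hs⟩)⟩
  · rw [show z = 1 from Subtype.ext (Subtype.ext e)] at hz
    simp at hz
  · have := pow_orderOf_eq_one z
    rw [hz, sq] at this
    exact congrArg (fun a : Subgroup.center S => (a : Γ)) this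

theorem Hyp.exists_ne [Finite Γ] (h : Hyp ρ π) (h2 : (2 : K) = 0) (n : NoTv ρ) :
    ∃ (S : Sylow 2 Γ) (z : Γ) (A B : Subgroup Γ), NE ρ S z A B ∨ NE (D5.dual ρ) S z A B := by
  obtain ⟨S⟩ : Nonempty (Sylow 2 Γ) := inferInstance
  obtain ⟨z, zS, z1, z2, c⟩ := h.exists_cen S
  obtain ⟨C, h1, h3⟩ := exists_basis h2 n S.isPGroup'
    (fun e => z1 (h.inj (e.trans (map_one ρ).symm))) z2 c
  have H : Sy (D5.cnj ρ C) S z :=
    ⟨(h.cnj C).inj, h2, n.cnj C, h1, zS, fun s => sh_of h2 S.isPGroup' h1 c h3⟩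
  rcases H.dich' with k | k
  · exact ⟨S, z, _, _, Or.inl (H.ne k).of_cnj⟩
  obtain ⟨A, B, N⟩ := H.ne_dual z2 k
  obtain ⟨C', e⟩ := dual_cnj' (ρ := ρ) C
  rw [e] at N
  exact ⟨S, z, A, B, Or.inr N.of_cnj⟩

end Cfsg.Agent.D5
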