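import Cfsg.Agent.DIM5.Defs2
import Cfsg.Agent.H68.PLift
import Cfsg.Agent.S0205

/-! Characteristic two without transvections: the Sylow `2`-subgroup. -/

set_option autoImplicit false
set_option linter.unusedSectionVars false
set_option linter.unusedVariables false
set_option linter.unusedSimpArgs false

open Matrix
open scoped MatrixGroups

namespace Cfsg.Agent.D5

variable {K : Type*} [Field K] {Γ X : Type*} [Group Γ] [Group X] {ρ : Γ →* M5 K} {π : Γ →* X}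

/-- Unitriangular matrices commuting with `1 + E₀₃ + E₁₄`. -/
def um (x a a' b b' c d e f : K) : M5 K :=
  !![1, x, a, c, d; 0, 1, a', e, f; 0, 0, 1, b, b'; 0, 0, 0, 1, x; 0, 0, 0, 0, 1]

theorem um_mul (x a a' b b' c d e f y p p' q q' r s t u : K) :
    um x a a' b b' c d e f * um y p p' q q' r s t u = um (x + y) (a + p + x * p') (a' + p') (b + q)
      (b' + q' + b * y) (c + r + x * t + a * q) (d + s + x * u + a * q' + c * y) (e + t + a' * q)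
      (f + u + a' * q' + e * y) := by
  ext i j
  fin_cases i <;> fin_cases j <;> simp [um, mul_apply, Fin.sum_univ_five] <;> ring

theorem um_one : (1 : M5 K) = um 0 0 0 0 0 0 0 0 0 := by
  ext i j
  fin_cases i <;> fin_cases j <;> rfl

theorem um_inj {x a a' b b' c d e f y p p' q q' r s t u : K}
    (h : um x a a' b b' c d e f = um y p p' q q' r s t u) :
    x = y ∧ a = p ∧ a' = p' ∧ b = q ∧ b' = q' ∧ c = r ∧ d = s ∧ e = t ∧ f = u :=
  ⟨congrFun₂ h 0 1, congrFun₂ h 0 2, congrFun₂ h 1 2, congrFun₂ h 2 3, congrFun₂ h 2 4,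
    congrFun₂ h 0 3, congrFun₂ h 0 4, congrFun₂ h 1 3, congrFun₂ h 1 4⟩

theorem um_fix {x a a' b b' c d e f : K} {v : V5 K} : um x a a' b b' c d e f *ᵥ v = v ↔
    x * v 1 + a * v 2 + c * v 3 + d * v 4 = 0 ∧ a' * v 2 + e * v 3 + f * v 4 = 0 ∧
      b * v 3 + b' * v 4 = 0 ∧ x * v 4 = 0 := by
  simp [funext_iff, Fin.forall_fin_succ, um, mulVec, dotProduct, Fin.sum_univ_five, add_assoc]

/-- The shape of the elements of the Sylow subgroup. -/
def Sh (M : M5 K) : Prop := ∃ x a a' b b' c d e f, M = um x a a' b b' c d e f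

theorem NoTv.um (n : NoTv ρ) {g : Γ} {b b' c d e f : K} (h : ρ g = um 0 0 0 b b' c d e f)
    (α β y y' y'' : K) (h1 : c = α * y ∧ d = β * y ∧ e = α * y' ∧ f = β * y' ∧ b = α * y'' ∧
      b' = β * y'') : ρ g = 1 := by
  obtain ⟨rfl, rfl, rfl, rfl, rfl, rfl⟩ := h1
  have e : ρ g = 1 + vecMulVec ![y, y', y'', 0, 0] ![0, 0, 0, α, β] := by
    rw [h]
    ext i j
    fin_cases i <;> fin_cases j <;> simp [D5.um, vecMulVec, mul_comm]
  by_contra h0
  exact n _ _ ⟨⟨by simp [dotProduct, Fin.sum_univ_five], g, e⟩, fun k => h0 (by rw [e, k]; simp),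
    fun k => h0 (by rw [e, k]; simp)⟩

variable (ρ) in
/-- The standing hypotheses in the adapted basis. -/
structure Sy (S : Sylow 2 Γ) (z : Γ) : Prop where
  hi : Function.Injective ρ
  h2 : (2 : K) = 0
  n : NoTv ρ
  hz : ρ z = um 0 0 0 0 0 1 0 0 1
  zS : z ∈ S
  sh : ∀ s ∈ S, Sh (ρ s)

namespace Sy
variable {S : Sylow 2 Γ} {z : Γ} (H : Sy ρ S z)
include H

theorem one {g : Γ} (h : ρ g = 1) : g = 1 := H.hi (h.trans (map_one ρ).symm)

theorem iv {s : Γ} (hs : s ∈ S) : ∃ x a a' b b' c d e f y p p' q q' r s' t u,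
    ρ s = um x a a' b b' c d e f ∧
    ρ s⁻¹ = um y p p' q q' r s' t u ∧ x + y = 0 ∧ a + p + x * p' = 0 ∧ a' + p' = 0 ∧ b + q = 0 ∧
    b' + q' + b * y = 0 ∧ c + r + x * t + a * q = 0 ∧ d + s' + x * u + a * q' + c * y = 0 ∧
    e + t + a' * q = 0 ∧ f + u + a' * q' + e * y = 0 := by
  obtain ⟨x, a, a', b, b', c, d, e, f, h⟩ := H.sh s hs
  obtain ⟨y, p, p', q, q', r, s', t, u, h'⟩ := H.sh _ (inv_mem hs)
  exact ⟨_, _, _, _, _, _, _, _, _, _, _, _, _, _, _, _, _, _, h, h',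
    um_inj (by rw [← um_mul, ← h, ← h', mul_inv_rho, um_one])⟩

/-- The kernel of the top character. -/
def A : Subgroup Γ where
  carrier := {s | s ∈ S ∧ ρ s 0 1 = 0}
  one_mem' := ⟨one_mem _, by simp⟩
  mul_mem' := fun {s t} ⟨hs, k⟩ ⟨ht, k'⟩ => ⟨mul_mem hs ht, by
    obtain ⟨x, a, a', b, b', c, d, e, f, h⟩ := H.sh s hs
    obtain ⟨y, p, p', q, q', r, s', t, u, h'⟩ := H.sh t ht
    rw [h] at k; rw [h'] at k'
    rw [map_mul, h, h', um_mul]
    exact (congrArg₂ (· + ·) k k').trans (add_zero 0)⟩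
  inv_mem' := fun {s} ⟨hs, k⟩ => ⟨inv_mem hs, by
    obtain ⟨x, a, a', b, b', c, d, e, f, y, p, p', q, q', r, s', t, u, h, h', k1, -⟩ := H.iv hs
    rw [h] at k; rw [h']
    change x = 0 at k; change y = 0
    linear_combination k1 - k⟩

/-- The Heisenberg part. -/
def B : Subgroup Γ where
  carrier := {s | s ∈ S ∧ ρ s 1 2 = 0 ∧ ρ s 2 3 = 0 ∧ ρ s 1 3 = 0}
  one_mem' := ⟨one_mem _, by simp⟩
  mul_mem' := fun {s t} ⟨hs, k⟩ ⟨ht, k'⟩ => ⟨mul_mem hs ht, by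
    obtain ⟨x, a, a', b, b', c, d, e, f, h⟩ := H.sh s hs
    obtain ⟨y, p, p', q, q', r, s', t, u, h'⟩ := H.sh t ht
    rw [h] at k; rw [h'] at k'
    rw [map_mul, h, h', um_mul]
    obtain ⟨rfl, rfl, rfl⟩ : a' = 0 ∧ b = 0 ∧ e = 0 := k
    obtain ⟨rfl, rfl, rfl⟩ : p' = 0 ∧ q = 0 ∧ t = 0 := k'
    change 0 + 0 = (0 : K) ∧ 0 + 0 = (0 : K) ∧ 0 + 0 + 0 * 0 = (0 : K)
    simp⟩
  inv_mem' := fun {s} ⟨hs, k⟩ => ⟨inv_mem hs, by
    obtain ⟨x, a, a', b, b', c, d, e, f, y, p, p', q, q', r, s', t, u, h, h', -, -, k1, k2, -, -, -,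
      k3, -⟩ := H.iv hs
    rw [h] at k; rw [h']
    obtain ⟨rfl, rfl, rfl⟩ : a' = 0 ∧ b = 0 ∧ e = 0 := k
    change p' = 0 ∧ q = 0 ∧ t = 0
    exact ⟨by simpa using k1, by simpa using k2, by simpa using k3⟩⟩

theorem eB {s : Γ} (hs : s ∈ H.B) : ∃ x a b' c d f, ρ s = um x a 0 0 b' c d 0 f := by
  obtain ⟨x, a, a', b, b', c, d, e, f, h⟩ := H.sh s hs.1
  have k := hs.2
  rw [h] at k
  obtain ⟨rfl, rfl, rfl⟩ : a' = 0 ∧ b = 0 ∧ e = 0 := k
  exact ⟨_, _, _, _, _, _, h⟩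

theorem sB {s : Γ} (hs : s ∈ H.B) : s * s = 1 := by
  obtain ⟨x, a, b', c, d, f, h⟩ := H.eB hs
  refine H.one (H.n.um (b := 0) (b' := 0) (c := 0) (d := x * f + a * b' + c * x) (e := 0) (f := 0)
    ?_ 0 1 (x * f + a * b' + c * x) 0 0 (by simp))
  have h2 := H.h2
  rw [map_mul, h, um_mul]
  clear * - h2
  congr 1 <;> grind

theorem inv {s : Γ} (hs : s ∈ S) (h : s * s = 1) : s ∈ H.A ∨ s ∈ H.B := by
  obtain ⟨x, a, a', b, b', c, d, e, f, k⟩ := H.sh s hs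
  have k' := congrArg ρ h
  rw [map_mul, k, um_mul, map_one, um_one] at k'
  have := um_inj k'
  have h2 := H.h2
  by_cases hx : x = 0
  · exact Or.inl ⟨hs, by rw [k]; exact hx⟩
  · refine Or.inr ⟨hs, ?_⟩
    rw [k]
    change a' = 0 ∧ b = 0 ∧ e = 0
    clear * - this hx h2
    grind

theorem cB {t s : Γ} (tB : t ∈ H.B) (tA : t ∉ H.A) (hs : s ∈ S) (h : s * t = t * s) : s ∈ H.B := by
  obtain ⟨x, a, b', c, d, f, k⟩ := H.eB tB
  obtain ⟨y, p, p', q, q', r, s', t', u, k'⟩ := H.sh s hs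
  have hx : x ≠ 0 := fun e => tA ⟨tB.1, by rw [k]; exact e⟩
  have k1 := congrArg ρ h
  rw [map_mul, map_mul, k, k', um_mul, um_mul] at k1
  have := um_inj k1
  refine ⟨hs, ?_⟩
  rw [k']
  change p' = 0 ∧ q = 0 ∧ t' = 0
  clear * - this hx
  grind

theorem nB {t s : Γ} (tB : t ∈ H.B) (hs : s ∈ S) :
    s * t * s⁻¹ ∈ H.B ∧ s * t * s⁻¹ * t ∈ H.A := by
  obtain ⟨x', a'', b'', c', d', f', h⟩ := H.eB tB
  obtain ⟨x, a, a', b, b', c, d, e, f, y, p, p', q, q', r, s', t', u, k, k', k1, -, k2, k3, -, -, -,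
    k4, -⟩ := H.iv hs
  have m := mul_mem (mul_mem hs tB.1) (inv_mem hs)
  refine ⟨⟨m, ?_⟩, mul_mem m tB.1, ?_⟩
  · rw [map_mul, map_mul, h, k, k', um_mul, um_mul]
    change a' + 0 + p' = 0 ∧ b + 0 + q = 0 ∧ e + 0 + a' * 0 + t' + (a' + 0) * q = 0
    exact ⟨by simpa using k2, by simpa using k3, by simpa using k4⟩
  · rw [map_mul, map_mul, map_mul, h, k, k', um_mul, um_mul, um_mul]
    change x + x' + y + x' = 0
    linear_combination k1 + x' * H.h2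

theorem dich {s : Γ} (hs : s ∈ H.A) : (ρ s 0 2 = 0 ∧ ρ s 1 2 = 0) ∨ (ρ s 2 3 = 0 ∧ ρ s 2 4 = 0) := by
  obtain ⟨x, a, a', b, b', c, d, e, f, h⟩ := H.sh s hs.1
  have k := hs.2
  rw [h] at k
  obtain rfl : x = 0 := k
  have h2 := H.h2
  have e : ρ (s * s) = um 0 0 0 0 0 (b * a) (b' * a) (b * a') (b' * a') := by
    rw [map_mul, h, um_mul]
    clear * - h2
    congr 1 <;> grind
  have := um_inj (e.symm.trans ((H.n.um e b b' a a' 0 (by simp)).trans um_one))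
  rw [h]
  change (a = 0 ∧ a' = 0) ∨ (b = 0 ∧ b' = 0)
  clear * - this
  grind

theorem dich' : (∀ s ∈ H.A, ρ s 0 2 = 0 ∧ ρ s 1 2 = 0) ∨ ∀ s ∈ H.A, ρ s 2 3 = 0 ∧ ρ s 2 4 = 0 := by
  refine or_iff_not_imp_left.2 fun h t ht => by_contra fun n => h fun s hs => by_contra fun n' => ?_
  have h1 := (H.dich hs).resolve_left n'
  have h2 := (H.dich ht).resolve_right n
  have h3 := H.dich (mul_mem hs ht)
  obtain ⟨x, a, a', b, b', c, d, e, f, k⟩ := H.sh s hs.1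
  obtain ⟨y, p, p', q, q', r, s', t', u, k'⟩ := H.sh t ht.1
  rw [map_mul, k, k', um_mul] at h3
  rw [k] at h1 n'
  rw [k'] at h2 n
  obtain ⟨rfl, rfl⟩ : b = 0 ∧ b' = 0 := h1
  obtain ⟨rfl, rfl⟩ : p = 0 ∧ p' = 0 := h2
  change (a + 0 + x * 0 = 0 ∧ a' + 0 = 0) ∨ (0 + q = 0 ∧ 0 + q' + 0 * y = 0) at h3
  exact h3.elim (fun e => n' (show a = 0 ∧ a' = 0 by simpa using e))
    fun e => n (show q = 0 ∧ q' = 0 by simpa using e)

variable (hQ : ∀ s ∈ H.A, ρ s 0 2 = 0 ∧ ρ s 1 2 = 0)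
include hQ

theorem eA {s : Γ} (hs : s ∈ H.A) : ∃ b b' c d e f, ρ s = um 0 0 0 b b' c d e f := by
  have k' := hQ s hs
  have k := hs.2
  obtain ⟨x, a, a', b, b', c, d, e, f, h⟩ := H.sh s hs.1
  rw [h] at k k'
  obtain rfl : x = 0 := k
  obtain ⟨rfl, rfl⟩ : a = 0 ∧ a' = 0 := k'
  exact ⟨_, _, _, _, _, _, h⟩

theorem sA {s : Γ} (hs : s ∈ H.A) : s * s = 1 := by
  obtain ⟨b, b', c, d, e, f, h⟩ := H.eA hQ hs
  have h2 := H.h2
  refine H.one ?_
  rw [map_mul, h, um_mul, um_one]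
  clear * - h2
  congr 1 <;> grind

theorem cen {t s : Γ} (tA : t ∈ H.A) (tB : t ∈ H.B) (hs : s ∈ S) : s * t = t * s := by
  obtain ⟨b, b', c, d, e, f, h⟩ := H.eA hQ tA
  have := tB.2
  rw [h] at this
  obtain ⟨-, rfl, rfl⟩ : (0 : K) = 0 ∧ b = 0 ∧ e = 0 := this
  obtain ⟨x, a, a', b, b'', c', d', e, f', y, p, p', q, q', r, s', t', u, k, k', k1⟩ := H.iv hs
  refine mul_inv_eq_iff_eq_mul.1 (mul_right_cancel (b := t) ?_)
  have h2 := H.h2
  rw [H.sA hQ tA]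
  refine H.one (H.n.um (b := 0) (b' := 0) (c := 0) (d := c * x + f * x + b' * a) (e := 0)
    (f := b' * a') ?_ 0 1 (c * x + f * x + b' * a) (b' * a') 0 (by simp))
  rw [map_mul, map_mul, map_mul, h, k, k', um_mul, um_mul, um_mul]
  clear * - k1 h2
  congr 1 <;> grind

theorem fix {t : Γ} (ht : t ∈ S) (t1 : t ≠ 1) :
    t ∈ H.A ↔ ∀ v, ρ t *ᵥ v = v ↔ ρ z *ᵥ v = v := by
  refine ⟨fun tA v => ?_, fun h => ⟨ht, ?_⟩⟩
  · obtain ⟨b, b', c, d, e, f, h⟩ := H.eA hQ tA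
    have h2 := H.h2
    rw [H.hz, h, um_fix, um_fix]
    refine ⟨fun k => by_contra fun k' => t1 (H.one ?_), fun k => by clear * - k; grind⟩
    by_cases h4 : v 4 = 0
    · exact H.n.um h 0 1 d f b' (by clear * - k k' h4; grind)
    · exact H.n.um h 1 (v 3 / v 4) c e b (by clear * - k h4 h2; grind)
  · obtain ⟨x, a, a', b, b', c, d, e, f, k⟩ := H.sh t ht
    have := (h (Pi.single 1 1)).2 (by rw [H.hz, um_fix]; simp)
    rw [k, um_fix] at this
    rw [k]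
    exact show x = 0 by simpa using this.1

theorem ne : NE ρ S z H.A H.B := by
  have zA : z ∈ H.A := ⟨H.zS, by rw [H.hz]; rfl⟩
  refine ⟨fun e => ?_, zA, ⟨H.zS, by rw [H.hz]; exact ⟨rfl, rfl, rfl⟩⟩, fun _ h => h.1,
    fun _ h => h.1, fun _ => H.sA hQ, fun _ => H.sB, fun _ => H.inv,
    fun t tA tB s => H.cen hQ tA tB, fun t tB tA s => H.cB tB tA, fun t tB s => H.nB tB,
    fun t => H.fix hQ, fun v => ?_⟩
  · have := H.hz
    rw [e, map_one, um_one] at this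
    exact zero_ne_one (um_inj this).2.2.2.2.2.1
  · rw [mulVec_sub, mulVec_mulVec, ← map_mul, H.sA hQ zA, map_one, one_mulVec,
      ← neg_sub, neg_eq_iff_add_eq_zero, ← two_smul K, H.h2, zero_smul]

end Sy

theorem NE.of_cnj {S : Sylow 2 Γ} {z : Γ} {A B : Subgroup Γ} {C : (M5 K)ˣ}
    (N : NE (cnj ρ C) S z A B) : NE ρ S z A B := by
  have k : ∀ g v, cnj ρ C g *ᵥ (C⁻¹.val *ᵥ v) = C⁻¹.val *ᵥ (ρ g *ᵥ v) := fun g v => by
    simp [cnj_apply, mul_assoc]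
  have k' : ∀ g v, cnj ρ C g *ᵥ (C⁻¹.val *ᵥ v) = C⁻¹.val *ᵥ v ↔ ρ g *ᵥ v = v := fun g v => by
    rw [k]; exact ⟨units_mulVec_inj C⁻¹, fun e => by rw [e]⟩
  refine { N with fix := fun t ht t1 => (N.fix t ht t1).trans ⟨fun h v => by rw [← k', h, k'],
    fun h v => ?_⟩, img := fun v => ?_ }
  · rw [show v = C⁻¹.val *ᵥ (C.val *ᵥ v) by simp, k', k', h]
  · rw [← k', mulVec_sub, ← k]; exact N.img _

theorem NoTv.cnj (n : NoTv ρ) (C : (M5 K)ˣ) : NoTv (cnj ρ C) := fun v φ h =>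
  n (C.val *ᵥ v) (φ ᵥ* C⁻¹.val) ⟨by simpa [cnj_cnj_inv] using h.1.cnj C⁻¹,
    fun e => h.2.1 (units_mulVec_inj C (by simpa using e)),
    fun e => h.2.2 (vecMul_units_inj C⁻¹ (by simpa using e))⟩

theorem sh_of (h2 : (2 : K) = 0) {S : Subgroup Γ} (hS : IsPGroup 2 S) {z : Γ}
    (hz : ρ z = um 0 0 0 0 0 1 0 0 1) (c : ∀ s ∈ S, s * z = z * s)
    (e : ∀ s ∈ S, ρ s *ᵥ Pi.single 0 1 = Pi.single 0 1) {s : Γ} (hs : s ∈ S) : Sh (ρ s) := by
  haveI := CharTwo.of_one_ne_zero_of_two_eq_zero (one_ne_zero (α := K)) h2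
  have w : ∀ s ∈ S, ρ s = !![1, ρ s 0 1, ρ s 0 2, ρ s 0 3, ρ s 0 4; 0, ρ s 1 1, ρ s 1 2, ρ s 1 3,
      ρ s 1 4; 0, 0, ρ s 2 2, ρ s 2 3, ρ s 2 4; 0, 0, 0, 1, ρ s 0 1; 0, 0, 0, 0, ρ s 1 1] :=
    fun s hs => by
      have c1 := congrArg ρ (c s hs)
      have e1 := e s hs
      rw [map_mul, map_mul, hz] at c1
      generalize ρ s = M at c1 e1
      simp [← Matrix.ext_iff, Fin.forall_fin_succ, um, mul_apply, Fin.sum_univ_five, vecMul,
        dotProduct] at c1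
      simp [funext_iff, Fin.forall_fin_succ] at e1
      ext i j
      fin_cases i <;> fin_cases j <;> simp <;> grind
  have p : ∀ m : ℕ, ρ (s ^ m) 1 1 = ρ s 1 1 ^ m ∧ ρ (s ^ m) 2 2 = ρ s 2 2 ^ m := fun m => by
    induction m with
    | zero => simp
    | succ m ih =>
      rw [pow_succ, map_mul, pow_succ, pow_succ, ← ih.1, ← ih.2]
      have a := w _ (pow_mem hs m)
      have b := w s hs
      generalize ρ (s ^ m) = M at a
      generalize ρ s = M' at b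
      rw [a, b]
      simp [mul_apply, Fin.sum_univ_five]
  obtain ⟨k, hk⟩ := hS ⟨s, hs⟩
  have p1 := p (2 ^ k)
  have q : ∀ x : K, 1 = x ^ 2 ^ k → x = 1 := fun x h =>
    sub_eq_zero.1 (pow_eq_zero_iff (pow_ne_zero k two_ne_zero) |>.1 (by rw [sub_pow_char_pow x 1 k, ← h]; simp))
  rw [show s ^ 2 ^ k = 1 from congrArg Subtype.val hk, map_one] at p1
  have a := w s hs
  rw [q _ p1.1, q _ p1.2] at a
  exact ⟨_, _, _, _, _, _, _, _, _, a⟩

theorem exists_basis (h2 : (2 : K) = 0) (n : NoTv ρ) [Finite Γ] {S : Subgroup Γ} (hS : IsPGroup 2 S)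
    {z : Γ} (z1 : ρ z ≠ 1) (z2 : z * z = 1) (c : ∀ s ∈ S, s * z = z * s) : ∃ C : (M5 K)ˣ,
    cnj ρ C z = um 0 0 0 0 0 1 0 0 1 ∧ ∀ s ∈ S, cnj ρ C s *ᵥ Pi.single 0 1 = Pi.single 0 1 := by
  haveI := CharTwo.of_one_ne_zero_of_two_eq_zero (one_ne_zero (α := K)) h2
  obtain ⟨N, hN⟩ : ∃ N, ρ z = 1 + N := ⟨ρ z - 1, by simp⟩
  have N2 : ∀ v, N *ᵥ (N *ᵥ v) = 0 := fun v => by
    have := congrArg ρ z2
    rw [map_mul, hN, map_one, add_mul, mul_add, mul_add, one_mul, one_mul, mul_one, add_assoc,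
      add_eq_left, ← add_assoc, ← two_smul K, h2, zero_smul, zero_add] at this
    rw [mulVec_mulVec, this, zero_mulVec]
  obtain ⟨_, ⟨e3, rfl⟩, n0, f0⟩ := H68.exists_fixed (p := 2) (F := K)
    ((toLinAlgEquiv' : M5 K ≃ₐ[K] _).toMulEquiv.toMonoidHom.comp ρ) hS
    (LinearMap.range (toLin' N)) (by
      rintro g hg _ ⟨v, rfl⟩
      have := congrArg ρ (c g hg)
      rw [map_mul, map_mul, hN, mul_add, add_mul, mul_one, one_mul, add_right_inj] at this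
      exact ⟨ρ g *ᵥ v, by simp [toLinAlgEquiv'_apply, this]⟩) (fun h => z1 (by
      rw [LinearMap.range_eq_bot, map_eq_zero_iff _ toLin'.injective] at h
      rw [hN, h, add_zero]))
  rw [toLin'_apply] at n0 f0
  obtain ⟨e4, h4⟩ : ∃ e4, ∀ a : K, N *ᵥ e4 ≠ a • N *ᵥ e3 := by
    by_contra h
    push Not at h
    choose a ha using h
    have e : N = vecMulVec (N *ᵥ e3) fun j => a (Pi.single j 1) := by
      ext i j
      simpa [vecMulVec, mul_comm] using congrFun (ha (Pi.single j 1)) i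
    have := N2 e3
    rw [congrArg (· *ᵥ (N *ᵥ e3)) e, vv_mulVec, smul_eq_zero] at this
    exact n _ _ ⟨⟨this.resolve_right n0, z, by rw [← e, hN]⟩, n0, fun k => n0 (by
      rw [e, k]; simp)⟩
  have li : ∀ a b : K, a • N *ᵥ e3 + b • N *ᵥ e4 = 0 → a = 0 ∧ b = 0 := fun a b h => by
    have hb : b = 0 := by_contra fun hb => h4 (-(a / b)) (by
      rw [← smul_right_inj hb, smul_smul, eq_neg_of_add_eq_zero_right h, ← neg_smul]
      congr 1; field_simp)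
    exact ⟨by simpa [hb, n0] using h, hb⟩
  obtain ⟨w, hw⟩ : ∃ w, w ∉ Submodule.span K (Set.range ![N *ᵥ e3, N *ᵥ e4, e3, e4]) := by
    by_contra h
    push Not at h
    have := finrank_range_le_card (R := K) ![N *ᵥ e3, N *ᵥ e4, e3, e4]
    rw [Set.finrank, Submodule.eq_top_iff'.2 h] at this
    simp at this
  obtain ⟨a, b, e⟩ : ∃ a b : K, a • N *ᵥ e3 + b • N *ᵥ e4 = N *ᵥ w := by
    have r := (toLin' N).finrank_range_add_finrank_ker
    have r1 := Submodule.finrank_mono (show LinearMap.range (toLin' N) ≤ LinearMap.ker (toLin' N) by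
      rintro _ ⟨v, rfl⟩; exact N2 v)
    have r2 := finrank_span_eq_card (LinearIndependent.pair_iff.2 li)
    rw [← Submodule.mem_span_pair, ← Matrix.range_cons_cons_empty _ _ ![],
      Submodule.eq_of_le_of_finrank_le (S₂ := LinearMap.range (toLin' N)) (Submodule.span_le.2 (by
      rintro _ ⟨i, rfl⟩
      fin_cases i
      exacts [⟨e3, rfl⟩, ⟨e4, rfl⟩])) (by rw [r2]; simp at r ⊢; omega)]
    exact ⟨w, rfl⟩
  have k2 : N *ᵥ (w - a • e3 - b • e4) = 0 := by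
    rw [mulVec_sub, mulVec_sub, mulVec_smul, mulVec_smul, ← e]; abel
  let E : Fin 5 → V5 K := ![N *ᵥ e3, N *ᵥ e4, w - a • e3 - b • e4, e3, e4]
  have hE : ∀ v, (of E)ᵀ *ᵥ v = v 0 • N *ᵥ e3 + v 1 • N *ᵥ e4 + v 2 • (w - a • e3 - b • e4) +
      v 3 • e3 + v 4 • e4 := fun v => by
    rw [mulVec_transpose, vecMul_eq_sum, Fin.sum_univ_five]; rfl
  have u : IsUnit (of E)ᵀ := mulVec_injective_iff_isUnit.1 ((injective_iff_map_eq_zero
    (toLin' (of E)ᵀ)).2 fun v hv => by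
      rw [toLin'_apply, hE] at hv
      have a1 := congrArg (N *ᵥ ·) hv
      simp only [mulVec_add, mulVec_smul, N2, k2, smul_zero, zero_add, mulVec_zero] at a1
      obtain ⟨v3, v4⟩ := li _ _ a1
      have v2 : v 2 = 0 := by_contra fun v2 => hw ((Submodule.mem_span_range_iff_exists_fun K).2
        ⟨![-(v 0 / v 2), -(v 1 / v 2), a, b], by
          rw [← smul_right_inj v2, Fin.sum_univ_four]
          simp only [v3, v4, zero_smul, add_zero] at hv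
          simp [smul_smul, mul_div_cancel₀ _ v2]
          linear_combination (norm := module) -hv⟩)
      obtain ⟨v0, v1⟩ := li (v 0) (v 1) (by simpa [v2, v3, v4] using hv)
      ext i
      fin_cases i <;> assumption)
  obtain ⟨C, hC⟩ := u
  rw [← hC] at hE
  have k : ∀ g v w, ρ g *ᵥ (C.val *ᵥ v) = C.val *ᵥ w → cnj ρ C g *ᵥ v = w := fun g v w h =>
    units_mulVec_inj C (by
      rw [← h, cnj_apply, mulVec_mulVec, mulVec_mulVec, ← mul_assoc, ← mul_assoc, C.mul_inv, one_mul])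
  refine ⟨C, (ext_iff_mulVec).2 fun v => k _ _ _ ?_, fun s hs => k _ _ _ ?_⟩
  · rw [hN, add_mulVec, one_mulVec, hE, hE]
    simp [mulVec_add, mulVec_smul, N2, k2, um, mulVec, dotProduct, Fin.sum_univ_five]
    module
  · rw [hE]
    simpa [toLinAlgEquiv'_apply] using f0 s hs

/-- Reversal of the coordinates. -/
def rv (K : Type*) [Field K] : (M5 K)ˣ where
  val := !![0, 0, 0, 0, 1; 0, 0, 0, 1, 0; 0, 0, 1, 0, 0; 0, 1, 0, 0, 0; 1, 0, 0, 0, 0]
  inv := !![0, 0, 0, 0, 1; 0, 0, 0, 1, 0; 0, 0, 1, 0, 0; 0, 1, 0, 0, 0; 1, 0, 0, 0, 0]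
  val_inv := by ext i j; fin_cases i <;> fin_cases j <;> simp [mul_apply, Fin.sum_univ_five]
  inv_val := by ext i j; fin_cases i <;> fin_cases j <;> simp [mul_apply, Fin.sum_univ_five]

theorem rv_um {g : Γ} {x a a' b b' c d e f : K} (h : ρ g⁻¹ = um x a a' b b' c d e f) :
    cnj (dual ρ) (rv K) g = um x b' b a' a f d e c := by
  rw [cnj_apply, dual_apply, h]
  ext i j
  fin_cases i <;> fin_cases j <;> simp [rv, um, mul_apply, Fin.sum_univ_five, vecMul, dotProduct]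

theorem dual_cnj' (C : (M5 K)ˣ) : ∃ C', dual (cnj ρ C) = cnj (dual ρ) C' :=
  ⟨⟨C⁻¹.valᵀ, C.valᵀ, by rw [← transpose_mul, C.mul_inv, transpose_one],
    by rw [← transpose_mul, C.inv_mul, transpose_one]⟩, MonoidHom.ext fun g => by
    rw [dual_apply, cnj_apply, cnj_apply, dual_apply, transpose_mul, transpose_mul, ← mul_assoc]
    rfl⟩

end Cfsg.Agent.D5
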