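import Cfsg.Agent.DIM5.Calc
import Cfsg.Agent.H10.P3SU

/-!
Full root subgroups whose centres opposite to a centre `z` span generate `SU₅(q)`, `q ≠ 2`.
The centres opposite to `z`, normalised and taken modulo `z`, form an affine space over `𝔽_q`;
an anisotropic direction makes it an affine space over `𝔽_{q²}`.
-/

set_option autoImplicit false

open Matrix
open scoped MatrixGroups

namespace Cfsg.Agent.D5

variable {K : Type*} [Field K] {Γ X : Type*} [Group Γ] [Group X] {ρ : Γ →* M5 K} {π : Γ →* X}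

/-- All transvections with centre `z` lie in `S`. -/
def Cen5 {F : Type*} [Field F] [Fintype F] {q : ℕ} [Fact (Fintype.card F = q ^ 2)]
    (S : Subgroup (Cfsg.SU 5 F q)) (z : V5 F) : Prop :=
  z ≠ 0 ∧ hermForm 5 F q z z = 0 ∧ ∀ c : F, H10.cj F q c = -c →
    ∃ a ∈ S, H10.sm a = unitaryTransvection 5 q z c

section

open H10

variable {F : Type*} [Field F] [Fintype F] {q : ℕ} [hF : Fact (Fintype.card F = q ^ 2)]
  {S : Subgroup (Cfsg.SU 5 F q)} {x y z v w w' : V5 F}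

local notation "σ" => cj F q
local notation "𝐡" => hermForm 5 F q

theorem Cen5.smul (h : Cen5 S z) {a : F} (ha : a ≠ 0) : Cen5 S (a • z) :=
  ⟨smul_ne_zero ha h.1, by rw [herm_smul_left, herm_smul_right, h.2.1]; simp, fun c hc => by
    rw [ut_smul]; exact h.2.2 _ (by rw [map_mul, cj_norm, hc]; ring)⟩

theorem Cen5.act (h : Cen5 S z) (h' : Cen5 S y) {c : F} (hc : σ c = -c) :
    Cen5 S (y + (c * 𝐡 y z) • z) := by
  obtain ⟨g, hg, e⟩ := h.2.2 c hc
  rw [← ut_mulVec, ← e]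
  refine ⟨(sm_isIsom g).mulVec_ne_zero h'.1, by rw [sm_isIsom g, h'.2.1], fun d hd => ?_⟩
  obtain ⟨k, hk, e'⟩ := h'.2.2 d hd
  refine ⟨g * k * g⁻¹, S.mul_mem (S.mul_mem hg hk) (S.inv_mem hg), ?_⟩
  rw [sm_mul, sm_mul, e', (sm_isIsom g).mul_ut, mul_assoc, sm_mul_inv, mul_one]

theorem Cen5.line (h : Cen5 S z) (h' : Cen5 S y) (h1 : 𝐡 y z ≠ 0) {a : F}
    (hx : 𝐡 (y + a • z) (y + a • z) = 0) : Cen5 S (y + a • z) := by
  have h2 : 𝐡 z y ≠ 0 := fun e => h1 (herm_swap_zero e)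
  have := h.act h' (c := a / 𝐡 y z) (by
    simp only [herm_add_left, herm_add_right, herm_smul_left, herm_smul_right, h.2.1,
      h'.2.1] at hx
    rw [map_div₀, cj_herm]
    field_simp
    linear_combination hx)
  rwa [div_mul_cancel₀ _ h1] at this

/-- `v` is normalised against `z` and congruent to a centre modulo `z`. -/
def Yz (S : Subgroup (Cfsg.SU 5 F q)) (z v : V5 F) : Prop :=
  𝐡 v z = 1 ∧ ∃ a : F, Cen5 S (v + a • z)

theorem Yz.of_cen (h : Cen5 S v) (h1 : 𝐡 v z = 1) : Yz S z v := ⟨h1, 0, by simpa using h⟩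

theorem Yz.cen (hz : Cen5 S z) (h : Yz S z v) (hv : 𝐡 v v = 0) : Cen5 S v := by
  obtain ⟨h1, a, ha⟩ := h
  have e : v + a • z + (-a) • z = v := by module
  have := hz.line ha (a := -a) (by simp [herm_add_left, herm_smul_left, h1, hz.2.1])
    (by rw [e, hv])
  rwa [e] at this

theorem Yz.add_z (hz : Cen5 S z) (h : Yz S z v) (b : F) : Yz S z (v + b • z) := by
  obtain ⟨h1, a, ha⟩ := h
  exact ⟨by simp [herm_add_left, herm_smul_left, h1, hz.2.1], a - b, by convert ha using 1; module⟩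

theorem Yz.aff (hz : Cen5 S z) (hx : Yz S z x) (hy : Yz S z y) {μ : F} (hμ : σ μ = μ) :
    Yz S z (x + μ • (y - x)) := by
  by_cases h0 : μ = 0
  · simpa [h0] using hx
  obtain ⟨x1, a, ha⟩ := hx
  obtain ⟨y1, b, hb⟩ := hy
  obtain ⟨s, s0, hs⟩ := exists_skew F q
  have x2 : 𝐡 (x + a • z) z = 1 := by simp [herm_add_left, herm_smul_left, x1, hz.2.1]
  have y2 : 𝐡 (y + b • z) z = 1 := by simp [herm_add_left, herm_smul_left, y1, hz.2.1]
  obtain ⟨X, hX⟩ : ∃ X, X = x + a • z := ⟨_, rfl⟩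
  obtain ⟨Y, hY⟩ : ∃ Y, Y = y + b • z := ⟨_, rfl⟩
  rw [← hX] at ha x2
  rw [← hY] at hb y2
  have k1 := ha.act hb (c := -s * μ) (by rw [map_mul, map_neg, hs, hμ]; ring)
  have k2 := hz.act k1 (c := (μ⁻¹ - 1) / s) (by
    rw [map_div₀, map_sub, map_inv₀, hs, hμ, map_one, div_neg])
  have k3 := (ha.act k2 hs).smul h0
  refine ⟨by simp [herm_add_left, herm_smul_left, herm_sub_left, x1, y1],
    (1 - μ) * a + μ * b + μ * ((μ⁻¹ - 1) / s * (1 - s * μ * 𝐡 Y X)), ?_⟩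
  convert k3 using 1
  simp only [herm_add_left, herm_smul_left, ha.2.1, x2, y2, herm_swap_one x2]
  generalize 𝐡 Y X = α
  subst hX hY
  match_scalars <;> field_simp <;> ring

/-- The directions of the affine space `Yz` at `x`. -/
def Wz (S : Subgroup (Cfsg.SU 5 F q)) (z x w : V5 F) : Prop := Yz S z (x + w)

theorem Wz.orth (h1 : 𝐡 x z = 1) (h : Wz S z x w) : 𝐡 w z = 0 := by
  have := h.1
  rw [herm_add_left, h1] at this
  linear_combination this

theorem Wz.add_z (hz : Cen5 S z) (h : Wz S z x w) (b : F) : Wz S z x (w + b • z) := by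
  have := Yz.add_z hz h b
  rwa [add_assoc] at this

theorem Wz.smul (hz : Cen5 S z) (hx : Yz S z x) (h : Wz S z x w) {μ : F} (hμ : σ μ = μ) :
    Wz S z x (μ • w) := by
  have := Yz.aff hz hx h hμ
  rwa [add_sub_cancel_left] at this

theorem Wz.add (hq : q ≠ 2) (hz : Cen5 S z) (hx : Yz S z x) (h : Wz S z x w)
    (h' : Wz S z x w') : Wz S z x (w + w') := by
  obtain ⟨t, ht, t0, t1⟩ := exists_fixed_ne F hq
  have t2 : 1 - t ≠ 0 := sub_ne_zero.2 t1.symm
  have := Yz.aff hz (h.smul hz hx (μ := (1 - t)⁻¹) (by simp [ht]))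
    (h'.smul hz hx (μ := t⁻¹) (by simp [ht])) ht
  unfold Wz
  convert this using 1
  match_scalars <;> field_simp <;> ring

theorem Wz.smul_of_ne (hq : q ≠ 2) (hz : Cen5 S z) (hx : Cen5 S x) (h1 : 𝐡 x z = 1)
    (h : Wz S z x w) (hw : 𝐡 w w ≠ 0) (l : F) : Wz S z x (l • w) := by
  have hx' := Yz.of_cen hx h1
  have o := h.orth h1
  obtain ⟨-, a, ha⟩ := id h
  obtain ⟨s, s0, hs⟩ := exists_skew F q
  have i := ha.2.1
  have k1 := ha.act hx hs
  set k := s * 𝐡 x (x + w + a • z) with hk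
  have k2 : σ k ≠ k := fun e => by
    rw [hk, map_mul, hs, cj_herm] at e
    simp only [herm_add_left, herm_add_right, herm_smul_left, herm_smul_right, hx.2.1, hz.2.1, h1,
      herm_swap_one h1, o, herm_swap_zero o] at i e
    exact hw (mul_left_cancel₀ s0 (by linear_combination s * i + e))
  have k3 : 1 + k ≠ 0 := fun e => k2 (by rw [show k = -1 by linear_combination e]; simp)
  have k4 : σ (1 + k) ≠ 0 := cj_ne_zero.2 k3
  have θw : Wz S z x ((k / (1 + k)) • w) :=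
    ⟨by simp [herm_add_left, herm_smul_left, h1, o], k / (1 + k) * a, by
      convert k1.smul (inv_ne_zero k3) using 1
      match_scalars <;> field_simp⟩
  set θ := k / (1 + k) with hθ
  have θ1 : θ - σ θ ≠ 0 := fun e => k2 (by
    rw [hθ, map_div₀, div_sub_div _ _ k3 k4, div_eq_zero_iff] at e
    rcases e with e | e
    · rw [map_add, map_one] at e
      linear_combination -e
    · exact absurd e (mul_ne_zero k3 k4))
  have b1 : σ ((l - σ l) / (θ - σ θ)) = (l - σ l) / (θ - σ θ) := by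
    rw [map_div₀, map_sub, map_sub, cj_cj, cj_cj, ← neg_sub l, ← neg_sub θ, neg_div_neg_eq]
  have := (h.smul hz hx' (μ := l - (l - σ l) / (θ - σ θ) * θ) (by
    rw [map_sub, map_mul, b1]; field_simp; ring)).add hq hz hx' (θw.smul hz hx' b1)
  convert this using 1
  module

theorem six_false {a1 b1 a2 b2 a3 b3 : V5 F} (h1 : 𝐡 a1 a1 = 0) (h2 : 𝐡 a2 a2 = 0)
    (h3 : 𝐡 a3 a3 = 0) (k1 : 𝐡 b1 a1 ≠ 0) (k2 : 𝐡 b2 a2 ≠ 0) (k3 : 𝐡 b3 a3 ≠ 0)
    (o1 : ∀ u ∈ ({a2, b2, a3, b3} : Set (V5 F)), 𝐡 u a1 = 0 ∧ 𝐡 u b1 = 0)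
    (o2 : ∀ u ∈ ({a3, b3} : Set (V5 F)), 𝐡 u a2 = 0 ∧ 𝐡 u b2 = 0) : False := by
  have : LinearIndependent F ![a1, b1, a2, b2, a3, b3] := by
    rw [Fintype.linearIndependent_iff]
    intro g hg
    simp only [Fin.sum_univ_succ, cons_val_zero, cons_val_succ, Finset.univ_eq_empty,
      Finset.sum_empty, add_zero] at hg
    have p : ∀ u, g 0 * 𝐡 a1 u + (g 1 * 𝐡 b1 u + (g 2 * 𝐡 a2 u + (g 3 * 𝐡 b2 u +
        (g 4 * 𝐡 a3 u + g 5 * 𝐡 b3 u)))) = 0 := fun u => by
      simpa [herm_add_left, herm_smul_left, herm_zero_left] using congrArg (𝐡 · u) hg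
    simp only [Set.mem_insert_iff, Set.mem_singleton_iff, forall_eq_or_imp, forall_eq] at o1 o2
    obtain ⟨⟨c1, c2⟩, ⟨c3, c4⟩, ⟨c5, c6⟩, c7, c8⟩ := o1
    obtain ⟨⟨d1, d2⟩, d3, d4⟩ := o2
    have n1 : 𝐡 a1 b1 ≠ 0 := fun e => k1 (herm_swap_zero e)
    have n2 : 𝐡 a2 b2 ≠ 0 := fun e => k2 (herm_swap_zero e)
    have n3 : 𝐡 a3 b3 ≠ 0 := fun e => k3 (herm_swap_zero e)
    have g1 : g 1 = 0 := by simpa [h1, c1, c3, c5, c7, k1] using p a1
    have g0 : g 0 = 0 := by simpa [g1, c2, c4, c6, c8, n1] using p b1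
    have g3 : g 3 = 0 := by simpa [g0, g1, h2, d1, d3, k2] using p a2
    have g2 : g 2 = 0 := by simpa [g0, g1, g3, d2, d4, n2] using p b2
    have g5 : g 5 = 0 := by simpa [g0, g1, g2, g3, h3, k3] using p a3
    have g4 : g 4 = 0 := by simpa [g0, g1, g2, g3, g5, n3] using p b3
    intro i
    fin_cases i <;> assumption
  have := this.fintype_card_le_finrank
  simp at this

theorem exists_aniso (hq : q ≠ 2) (hz : Cen5 S z) (hx : Cen5 S x) (h1 : 𝐡 x z = 1)
    (hs : ∀ y, 𝐡 x y = 0 → (∀ w, Wz S z x w → 𝐡 w y = 0) → y = 0) :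
    ∃ w, Wz S z x w ∧ 𝐡 w w ≠ 0 := by
  by_contra hn
  push Not at hn
  have hx' := Yz.of_cen hx h1
  have sk : ∀ w w', Wz S z x w → Wz S z x w' → σ (𝐡 w w') = -𝐡 w w' := fun w w' a b => by
    have := hn _ (a.add hq hz hx' b)
    rw [herm_add_left, herm_add_right, herm_add_right, hn _ a, hn _ b] at this
    rw [cj_herm]
    linear_combination this
  have N : ∀ y, y ≠ 0 → 𝐡 y z = 0 → 𝐡 y x = 0 →
      ∃ w, Wz S z x w ∧ 𝐡 w x = 0 ∧ 𝐡 w y ≠ 0 := fun y y0 y1 y2 => by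
    by_contra hc
    push Not at hc
    refine y0 (hs y (herm_swap_zero y2) fun w hw => ?_)
    simpa [herm_add_left, herm_smul_left, herm_neg_left, herm_swap_zero y1] using
      hc _ (hw.add_z hz (-𝐡 w x))
        (by simp [herm_add_left, herm_smul_left, herm_neg_left, herm_swap_one h1])
  obtain ⟨y, y0, hy⟩ := exists_orth_of_lt (q := q) (show 2 < 5 by norm_num) ![z, x]
  obtain ⟨w1, a1, b1, c1⟩ := N y y0 (hy 0) (hy 1)
  obtain ⟨w2, a2, b2, c2⟩ := N w1 (by rintro rfl; exact c1 (herm_zero_left _)) (a1.orth h1) b1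
  obtain ⟨y, y0, hy⟩ := exists_orth_of_lt (q := q) (show 4 < 5 by norm_num) ![z, x, w1, w2]
  obtain ⟨w, a3, b3, c3⟩ := N y y0 (hy 0) (hy 1)
  have c4 : 𝐡 w1 w2 ≠ 0 := fun e => c2 (herm_swap_zero e)
  have a4 := (a3.add hq hz hx' (a1.smul hz hx' (μ := -𝐡 w w2 / 𝐡 w1 w2) (by
    rw [map_div₀, map_neg, sk _ _ a3 a2, sk _ _ a1 a2, neg_div_neg_eq]))).add
    hq hz hx' (a2.smul hz hx' (μ := -𝐡 w w1 / 𝐡 w2 w1) (by
    rw [map_div₀, map_neg, sk _ _ a3 a1, sk _ _ a2 a1, neg_div_neg_eq]))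
  have y1 : 𝐡 y z = 0 := hy 0
  have y2 : 𝐡 y x = 0 := hy 1
  have y3 : 𝐡 y w1 = 0 := hy 2
  have y4 : 𝐡 y w2 = 0 := hy 3
  refine six_false (b1 := x) (b2 := w2) (b3 := y) hz.2.1 (hn _ a1) (hn _ a4) (by simp [h1]) c2
    (fun e => c3 ?_) ?_ ?_
  · simpa [herm_add_left, herm_smul_left, herm_swap_zero y3, herm_swap_zero y4] using
      herm_swap_zero e
  · simp [herm_add_left, herm_smul_left, a1.orth h1, a2.orth h1, a3.orth h1, b1, b2, b3, y1, y2]
  · simp [herm_add_left, herm_smul_left, hn _ a1, hn _ a2, c2, c4, y3, y4]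

theorem Wz.all (hq : q ≠ 2) (hz : Cen5 S z) (hx : Cen5 S x) (h1 : 𝐡 x z = 1)
    (hs : ∀ y, 𝐡 x y = 0 → (∀ w, Wz S z x w → 𝐡 w y = 0) → y = 0) (hv : 𝐡 v z = 0) :
    Wz S z x v := by
  have hx' := Yz.of_cen hx h1
  obtain ⟨w1, a1, n1⟩ := exists_aniso hq hz hx h1 hs
  obtain ⟨s, s0, hs'⟩ := exists_skew F q
  have sm : ∀ (l : F) w, Wz S z x w → Wz S z x (l • w) := fun l w a => by
    by_cases h0 : 𝐡 w w = 0
    swap
    · exact a.smul_of_ne hq hz hx h1 h0 l
    obtain ⟨m, hm⟩ : ∃ m : F, 𝐡 (w + m • w1) (w + m • w1) ≠ 0 := by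
      by_cases h2 : 𝐡 w1 w = 0
      · exact ⟨1, by simpa [herm_add_left, herm_add_right, h0, h2, herm_swap_zero h2] using n1⟩
      have h3 : 𝐡 w w1 ≠ 0 := fun e => h2 (herm_swap_zero e)
      refine ⟨s / 𝐡 w1 w, ?_⟩
      simp only [herm_add_left, herm_add_right, herm_smul_left, herm_smul_right, h0, map_div₀,
        hs', cj_herm, mul_add, div_mul_cancel₀ _ h2, div_mul_cancel₀ _ h3]
      simp [s0, h2, h3, n1]
    have := ((a.add hq hz hx' (a1.smul_of_ne hq hz hx h1 n1 m)).smul_of_ne hq hz hx h1 hm l).add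
      hq hz hx' (a1.smul_of_ne hq hz hx h1 n1 (-(l * m)))
    convert this using 1
    module
  let U : Submodule F (V5 F) :=
    { carrier := {w | Wz S z x w}
      add_mem' := fun a b => Wz.add hq hz hx' a b
      zero_mem' := by simpa [Wz] using hx'
      smul_mem' := fun l w a => sm l w a }
  have hU : U ⊔ Submodule.span F {x} = ⊤ := by
    by_contra hne
    obtain ⟨φ, φ0, hφ⟩ := Submodule.exists_dual_map_eq_bot_of_lt_top (lt_top_iff_ne_top.2 hne)
      inferInstance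
    have e : ∀ u, 𝐡 u (fun i => σ (φ (Pi.single i 1))) = φ u := fun u => by
      rw [herm_eq, LinearMap.pi_apply_eq_sum_univ φ u]
      refine Finset.sum_congr rfl fun i _ => ?_
      rw [cj_cj, smul_eq_mul]
      congr 2
      ext j
      simp [Pi.single_apply, eq_comm]
    have k : ∀ u ∈ U ⊔ Submodule.span F {x}, φ u = 0 := fun u hu => by
      have := Submodule.mem_map_of_mem (f := φ) hu
      rwa [hφ, Submodule.mem_bot] at this
    have := hs _ ((e x).trans (k _ (Submodule.mem_sup_right (Submodule.mem_span_singleton_self x))))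
      fun w hw => (e w).trans (k _ (Submodule.mem_sup_left hw))
    exact φ0 (LinearMap.ext fun u => by rw [← e, this, herm_zero_right]; rfl)
  obtain ⟨w, hw, u, hu, rfl⟩ := Submodule.mem_sup.1 (hU ▸ Submodule.mem_top : v ∈ _)
  obtain ⟨c, rfl⟩ := Submodule.mem_span_singleton.1 hu
  rw [herm_add_left, herm_smul_left, h1, Wz.orth h1 hw, zero_add, mul_one] at hv
  rw [hv, zero_smul, add_zero]
  exact hw

theorem cen5_all (hq : q ≠ 2) (hz : Cen5 S z)
    (hs : ∀ y : V5 F, (∀ x, Cen5 S x → 𝐡 z x ≠ 0 → 𝐡 x y = 0) → y = 0) (v0 : v ≠ 0)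
    (hv : 𝐡 v v = 0) : Cen5 S v := by
  obtain ⟨x, hx, h1⟩ : ∃ x, Cen5 S x ∧ 𝐡 x z = 1 := by
    by_contra hn
    push Not at hn
    refine hz.1 (hs z fun x hx _ => by_contra fun e => ?_)
    exact hn _ (hx.smul (inv_ne_zero e)) (by rw [herm_smul_left, inv_mul_cancel₀ e])
  have W : ∀ v, 𝐡 v z = 0 → Wz S z x v := fun v hv => Wz.all hq hz hx h1 (fun y y1 y2 =>
    hs y fun u hu e => by
      have e' : 𝐡 u z ≠ 0 := fun e' => e (herm_swap_zero e')
      have := y2 ((𝐡 u z)⁻¹ • u - x) (by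
        unfold Wz
        rw [add_sub_cancel]
        exact Yz.of_cen (hu.smul (inv_ne_zero e')) (by rw [herm_smul_left, inv_mul_cancel₀ e']))
      simpa [herm_sub_left, herm_smul_left, y1, e'] using this) hv
  have Y : ∀ v, 𝐡 v z ≠ 0 → 𝐡 v v = 0 → Cen5 S v := fun v e hv => by
    have := W ((𝐡 v z)⁻¹ • v - x) (by simp [herm_sub_left, herm_smul_left, h1, e])
    unfold Wz at this
    rw [add_sub_cancel] at this
    simpa [e] using (this.cen hz (by simp [herm_smul_left, herm_smul_right, hv])).smul e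
  by_cases e : 𝐡 v z = 0
  swap
  · exact Y v e hv
  by_cases hc : ∃ c : F, v = c • z
  · obtain ⟨c, rfl⟩ := hc
    exact hz.smul (by rintro rfl; simp at v0)
  push Not at hc
  obtain ⟨y, y1, y2⟩ := exists_herm_zero_one (q := q) hc
  obtain ⟨u, u1, u2⟩ : ∃ u, 𝐡 u z = 1 ∧ 𝐡 u v = 1 :=
    ⟨x + (1 - 𝐡 x v) • y, by simp [herm_add_left, herm_smul_left, h1, y1],
      by simp [herm_add_left, herm_smul_left, y2]⟩
  obtain ⟨a, ha⟩ := exists_trace_eq (t := -𝐡 u u) (by rw [map_neg, cj_herm])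
  obtain ⟨s, s0, hs'⟩ := exists_skew F q
  obtain ⟨y, y0, y1, y2⟩ : ∃ y, 𝐡 y y = 0 ∧ 𝐡 y z = 1 ∧ 𝐡 y v = 1 :=
    ⟨u + a • z, by
      simp only [herm_add_left, herm_add_right, herm_smul_left, herm_smul_right, u1,
        herm_swap_one u1, hz.2.1]
      linear_combination ha, by simp [herm_add_left, herm_smul_left, u1, hz.2.1],
      by simp [herm_add_left, herm_smul_left, u2, herm_swap_zero e]⟩
  have c1 := Y y (by simp [y1]) y0
  have c2 := Y (y + s • v) (by simp [herm_add_left, herm_smul_left, y1, e]) (by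
    simp [herm_add_left, herm_add_right, herm_smul_left, herm_smul_right, y0, y2,
      herm_swap_one y2, hv, hs'])
  have e' : y + s • v + (-1 : F) • y = s • v := by module
  have := c1.line c2 (a := -1) (by simp [herm_add_left, herm_smul_left, y0, herm_swap_one y2, s0])
    (by rw [e']; simp [herm_smul_left, herm_smul_right, hv])
  rw [e'] at this
  simpa [s0] using this.smul (inv_ne_zero s0)

end

theorem su5_top {F : Type*} [Field F] [Fintype F] {q : ℕ} [Fact (Fintype.card F = q ^ 2)]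
    (hq : q ≠ 2) (S : Subgroup (Cfsg.SU 5 F q)) {z : V5 F} (hz : Cen5 S z)
    (hs : ∀ y : V5 F, (∀ x, Cen5 S x → hermForm 5 F q z x ≠ 0 → hermForm 5 F q x y = 0) → y = 0) :
    S = ⊤ := by
  rw [eq_top_iff, ← H10.closure_ut_eq_top (n := 5) (fun h => hq h.2), Subgroup.closure_le]
  rintro A ⟨v, c, hv, hA⟩
  by_cases h0 : v = 0
  · rw [h0, H10.ut_zero_left, ← H10.sm_one] at hA
    exact H10.sm_injective hA ▸ S.one_mem
  have hc := (H10.isIsom_ut_iff h0).1 (hA ▸ H10.sm_isIsom A)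
  obtain ⟨g, hg, e⟩ := (cen5_all hq hz hs h0 hv).2.2 c (by
    rw [hv] at hc; linear_combination hc)
  exact H10.sm_injective (e.trans hA.symm) ▸ hg

end Cfsg.Agent.D5
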