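import Cfsg.Agent.DIM5.L2
import Cfsg.Agent.S2111
import Cfsg.Agent.S2112
import Cfsg.Agent.S2113
import Cfsg.Agent.H13.SzConj
import Cfsg.Agent.H13.SzInst
import Cfsg.Agent.H13.ReeInst
import Cfsg.Agent.H13.ReeTwo
import Cfsg.Agent.H6.J1Spec

/-!
The Suzuki groups, the small Ree groups and the first Janko group have no five-dimensional
projective representation in characteristic two.
-/

set_option autoImplicit false
set_option linter.unusedSectionVars false

open Matrix
open scoped MatrixGroups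

namespace Cfsg.Agent.D5

variable {K : Type*} [Field K] {Γ X : Type*} [Group Γ] [Group X] {ρ : Γ →* M5 K} {π : Γ →* X}
variable [IsAlgClosed K] [Finite Γ]

theorem Hyp.sz (h : Hyp ρ π) (h2 : (2 : K) = 0) (e : Lie.IsoSuzuki X) : False := by
  obtain ⟨F, _, _, m, hm, hF, ⟨e⟩⟩ := e
  have hπ : Function.Injective π := by
    rcases hm.eq_or_lt with rfl | hm
    · exact h.ker_of_mult e (S2112.result (F := F) hF) (n := 2) (by decide) (by decide)
    · exact h.ker_of_mult e (S2111.result hm hF) (n := 1) (by decide) fun a => Subsingleton.elim _ _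
  have : CharP K 2 := (CharP.charP_iff_prime_eq_zero Nat.prime_two).2 (by exact_mod_cast h2)
  let _ := H13.titsOfCard hF
  have P := H13.par_of_card hm hF
  let M := (H13.lieModel (H13.titsOfCard_θ hF)).ofEquiv e
  refine h.not_real_two h2 (h.real_of hπ 2 fun x => ?_)
  by_cases hx : M.tr x = 0
  · refine .inr ⟨2, orderOf_dvd_iff_pow_eq_one.1 ?_⟩
    rcases M.order_of_tr_eq_zero P hx with o | o | o <;> simp [o]
  · exact .inl (M.isConj_of_tr_eq P hx (M.tr_inv x).symm)

theorem Hyp.ree (h : Hyp ρ π) (h2 : (2 : K) = 0) (e : Lie.IsoRee X) : False := by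
  obtain ⟨F, _, _, m, hm, hF, ⟨e⟩⟩ := e
  have hπ : Function.Injective π :=
    h.ker_of_mult e (S2113.result hm hF) (n := 1) (by decide) fun a => Subsingleton.elim _ _
  let M := H13.reeModel hF
  obtain ⟨c⟩ := M.centralizer_a_equiv
  have := M.charP
  have := h.l2_sub hπ (F := F) (e.symm.toMonoidHom.comp ((Subgroup.subtype _).comp
    (c.symm.toMonoidHom.comp (MonoidHom.inr _ _))))
    (e.symm.injective.comp (Subtype.val_injective.comp (c.symm.injective.comp
      fun a b e => congrArg Prod.snd e))) 3 (by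
      rw [show ((3 : ℕ) : K) = 2 + 1 by norm_num, h2, zero_add]; exact one_ne_zero)
  rw [Nat.card_eq_fintype_card, hF] at this
  have := Nat.pow_le_pow_right (show 0 < 3 by decide) (show 3 ≤ 2 * m + 1 by omega)
  omega

theorem Hyp.j1 (h : Hyp ρ π) (h2 : (2 : K) = 0) (e : Spor.IsoJ1 X) : False := by
  obtain ⟨e⟩ := e
  obtain ⟨g, hg⟩ := H6.j1_norm7
  have o : orderOf (e.symm H88.J1.jX) = 7 := (e.symm.orderOf_eq _).trans H88.J1.ord_y
  refine h.ord7_false (x := e.symm H88.J1.jX) (by
    rw [show (7 : K) = 2 * 3 + 1 by norm_num, h2, zero_mul, zero_add]; exact one_ne_zero)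
    (fun e => by simp [e] at o) (orderOf_dvd_iff_pow_eq_one.1 o.dvd) (isConj_iff.2 ⟨e.symm g, ?_⟩)
  rw [← map_mul, hg, map_mul, map_pow, mul_inv_cancel_right]

end Cfsg.Agent.D5
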