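import Cfsg.Agent.DIM5.TD2
import Cfsg.Agent.DIM5.Defs2

/-!
Connectivity of the graph of opposite transvections; normalised roots.
-/

set_option autoImplicit false

open Matrix
open scoped MatrixGroups

namespace Cfsg.Agent.D5

variable {K : Type*} [Field K] {Γ X : Type*} [Group Γ] [Group X] {ρ : Γ →* M5 K} {π : Γ →* X}
variable {u v w f g h φ ψ χ : V5 K}

theorem rho_conj_tv {a : Γ} (e : ρ a = 1 + vecMulVec w ψ) (k : Γ) :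
    ρ (k * a * k⁻¹) = 1 + vecMulVec (ρ k *ᵥ w) (ψ ᵥ* ρ k⁻¹) := by
  rw [map_mul, map_mul, e, mul_add, add_mul, mul_one, mul_inv_rho, mul_vecMulVec, vecMulVec_mul]

theorem rho_act_tv {a k : Γ} (h0 : φ ⬝ᵥ v = 0) (ek : ρ k = 1 + vecMulVec v φ)
    (e : ρ a = 1 + vecMulVec w ψ) :
    ρ (k * a * k⁻¹) = 1 + vecMulVec (w + (φ ⬝ᵥ w) • v) (ψ - (ψ ⬝ᵥ v) • φ) := by
  rw [rho_conj_tv e, rho_inv_tv h0 ek, ek, add_mulVec, one_mulVec, vv_mulVec, vecMul_sub,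
    vecMul_one, vecMul_vv]

/-- The group is generated by its transvections. -/
theorem Hyp.tv_ind (h : Hyp ρ π) (hv : Fl ρ v φ) (H : Subgroup Γ)
    (hH : ∀ a w ψ, Fl ρ w ψ → ρ a = 1 + vecMulVec w ψ → a ∈ H) (k : Γ) : k ∈ H := by
  obtain ⟨a, ha⟩ := hv.1.2
  refine h.induction (S := {a | ∃ w ψ, Fl ρ w ψ ∧ ρ a = 1 + vecMulVec w ψ}) ?_ ⟨v, φ, hv, ha⟩ ?_ H
    (fun a ⟨w, ψ, h1, h2⟩ => hH a w ψ h1 h2) k
  · rintro a ⟨w, ψ, h1, h2⟩ k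
    exact ⟨_, _, h1.conj k, rho_conj_tv h2 k⟩
  · intro e
    obtain ⟨c, hc⟩ := (h.ker a).1 e
    exact one_add_vv_ne hv.2.1 hv.2.2 c (ha ▸ hc)

theorem Hyp.tirr (h : Hyp ρ π) (hv : Fl ρ v φ) (W : Submodule K (V5 K))
    (hW : ∀ w ψ, Fl ρ w ψ → ∀ y ∈ W, ψ ⬝ᵥ y ≠ 0 → w ∈ W) : W = ⊥ ∨ W = ⊤ := by
  let H : Subgroup Γ :=
    { carrier := {k | ∀ y ∈ W, ρ k *ᵥ y ∈ W ∧ ρ k⁻¹ *ᵥ y ∈ W}
      one_mem' := fun y hy => by simpa using hy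
      mul_mem' := fun {a b} ha hb y hy => by
        rw [_root_.mul_inv_rev, map_mul, map_mul, ← mulVec_mulVec, ← mulVec_mulVec]
        exact ⟨(ha _ (hb y hy).1).1, (hb _ (ha y hy).2).2⟩
      inv_mem' := fun {a} ha y hy => by
        rw [inv_inv]
        exact (ha y hy).symm }
  refine h.irr W fun k y hy => (h.tv_ind hv H (fun a w ψ h1 h2 y hy => ?_) k y hy).1
  have : (ψ ⬝ᵥ y) • w ∈ W := by
    by_cases e : ψ ⬝ᵥ y = 0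
    · simp [e]
    · exact W.smul_mem _ (hW w ψ h1 y hy e)
  rw [rho_inv_tv h1.1.1 h2, h2, add_mulVec, sub_mulVec, one_mulVec, vv_mulVec]
  exact ⟨W.add_mem hy this, W.sub_mem hy this⟩

theorem dot_span {s : Set (V5 K)} (hs : ∀ x ∈ s, χ ⬝ᵥ x = 0) {y : V5 K}
    (hy : y ∈ Submodule.span K s) : χ ⬝ᵥ y = 0 :=
  (Submodule.span_le.2 (fun x hx => hs x hx) :
    Submodule.span K s ≤ LinearMap.ker (dotProductBilin K K χ)) hy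

theorem exists_of_span {s : Set (V5 K)} {y : V5 K} (hy : y ∈ Submodule.span K s)
    (e : χ ⬝ᵥ y ≠ 0) : ∃ x ∈ s, χ ⬝ᵥ x ≠ 0 := by
  by_contra hc
  push Not at hc
  exact e (dot_span hc hy)

/-- A set of vectors closed under the action of the transvections spans the space. -/
theorem Hyp.span_set (h : Hyp ρ π) (hv : Fl ρ v φ) {s : Set (V5 K)} {x0 : V5 K} (h0 : x0 ∈ s)
    (h1 : x0 ≠ 0) (hs : ∀ w ψ, Fl ρ w ψ → ∀ x ∈ s, ψ ⬝ᵥ x ≠ 0 →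
      w ∈ s ∨ x + (ψ ⬝ᵥ x) • w ∈ s) (e : ∀ x ∈ s, χ ⬝ᵥ x = 0) : χ = 0 := by
  rcases h.tirr hv (Submodule.span K s) (fun w ψ hw y hy ey => by
    obtain ⟨x, hx, ex⟩ := exists_of_span hy ey
    rcases hs w ψ hw x hx ex with a | a
    · exact Submodule.subset_span a
    · have := sub_mem (Submodule.subset_span (R := K) a) (Submodule.subset_span hx)
      rw [add_sub_cancel_left] at this
      exact (Submodule.smul_mem_iff _ ex).1 this) with a | a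
  · exact (h1 ((Submodule.mem_bot K).1 (a ▸ Submodule.subset_span h0))).elim
  · by_contra hc
    obtain ⟨y, hy⟩ := exists_dot_ne_zero' hc
    exact hy (dot_span e (a ▸ Submodule.mem_top))

theorem Hyp.b_span (h : Hyp ρ π) (hv : Fl ρ v φ) (hχ : χ ⬝ᵥ v = 0)
    (e : ∀ w ψ, T ρ w ψ → ψ ⬝ᵥ v ≠ 0 → χ ⬝ᵥ w = 0) : χ = 0 := by
  refine h.span_set hv (s := {x | x = v ∨ ∃ ψ, T ρ x ψ ∧ ψ ⬝ᵥ v ≠ 0}) (Or.inl rfl) hv.2.1 ?_ ?_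
  · intro w ψ hw x hx ex
    by_cases e1 : ψ ⬝ᵥ v = 0
    · rcases hx with rfl | ⟨ξ, h1, h2⟩
      · exact (ex e1).elim
      · exact Or.inr (Or.inr ⟨_, hw.1.act h1, by simpa [e1] using h2⟩)
    · exact Or.inl (Or.inr ⟨ψ, hw.1, e1⟩)
  · rintro x (rfl | ⟨ξ, h1, h2⟩)
    exacts [hχ, e _ _ h1 h2]

theorem Hyp.opp (h : Hyp ρ π) (hv : Fl ρ v φ) :
    ∃ w ψ, T ρ w ψ ∧ φ ⬝ᵥ w ≠ 0 ∧ ψ ⬝ᵥ v ≠ 0 := by
  by_contra hc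
  push Not at hc
  exact hv.2.2 (h.b_span hv hv.1.1 fun w ψ h1 h2 => by_contra fun h3 => h2 (hc w ψ h1 h3))

theorem Hyp.conn (h : Hyp ρ π) (P : V5 K → V5 K → Prop) (hP : ∀ v φ w ψ, T ρ v φ → T ρ w ψ →
    φ ⬝ᵥ w ≠ 0 → ψ ⬝ᵥ v ≠ 0 → P v φ → P w ψ) (hv : Fl ρ v φ) (hw : Fl ρ w ψ) (p : P v φ) :
    P w ψ := by
  have ax : ∀ x x' ξ, Fl ρ x ξ → Fl ρ x' ξ → P x ξ → P x' ξ := fun x x' ξ a b q => by
    obtain ⟨y, η, c1, c2, c3⟩ := h.opp a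
    obtain ⟨y', η', d1, d2, d3⟩ := h.opp b
    have q1 := hP _ _ _ _ a.1 c1 c2 c3 q
    by_cases e1 : η ⬝ᵥ x' = 0
    · refine hP _ _ _ _ d1 b.1 d3 d2 ?_
      by_cases e2 : η' ⬝ᵥ x = 0
      · exact hP _ _ _ _ (a.1.add' b.1) d1 d2 (by simpa [e2] using d3)
          (hP _ _ _ _ c1 (a.1.add' b.1) (by simpa [e1] using c3) c2 q1)
      · exact hP _ _ _ _ a.1 d1 d2 e2 q
    · exact hP _ _ _ _ c1 b.1 e1 c2 q1
  have ct : ∀ x ξ ξ', Fl ρ x ξ → Fl ρ x ξ' → P x ξ → P x ξ' := fun x ξ ξ' a b q => by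
    obtain ⟨y, η, c1, c2, c3⟩ := h.opp a
    obtain ⟨y', η', d1, d2, d3⟩ := h.opp b
    have q1 := hP _ _ _ _ a.1 c1 c2 c3 q
    by_cases e1 : ξ' ⬝ᵥ y = 0
    · refine hP _ _ _ _ d1 b.1 d3 d2 ?_
      by_cases e2 : ξ ⬝ᵥ y' = 0
      · exact hP _ _ _ _ (a.1.add b.1) d1 (by simpa [e2] using d2) d3
          (hP _ _ _ _ c1 (a.1.add b.1) c3 (by simpa [e1] using c2) q1)
      · exact hP _ _ _ _ a.1 d1 e2 d3 q
    · exact hP _ _ _ _ c1 b.1 c3 e1 q1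
  have key : ∀ x ξ y η, Fl ρ x ξ → Fl ρ y η → η ⬝ᵥ x ≠ 0 → P x ξ → P y η :=
    fun x ξ y η a b e q => by
    by_cases e1 : ξ ⬝ᵥ y = 0
    · have t1 : Fl ρ y ((η ⬝ᵥ x) • ξ) := ⟨a.1.comm b.1 e1, b.2.1, smul_ne_zero e a.2.2⟩
      have t2 : Fl ρ ((η ⬝ᵥ x) • y) ξ := ⟨(T.smul_iff _).2 t1.1, smul_ne_zero e b.2.1, a.2.2⟩
      obtain ⟨z, ζ, c1, c2, c3⟩ := h.opp t2
      exact ct _ _ _ t1 b (hP _ _ _ _ c1 t1.1 (fun e' => c3 (by simp [e']))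
        (by simp [e, c2]) (hP _ _ _ _ t2.1 c1 c2 c3 (ax _ _ _ a t2 q)))
    · exact hP _ _ _ _ a.1 b.1 e1 e q
  by_contra hc
  exact hw.2.2 (h.span_set hv (s := {x | ∃ ξ, Fl ρ x ξ ∧ P x ξ}) ⟨φ, hv, p⟩ hv.2.1
    (fun y η b x ⟨ξ, a, q⟩ e => Or.inl ⟨η, b, key _ _ _ _ a b e q⟩)
    fun x ⟨ξ, a, q⟩ => by_contra fun e => hc (key _ _ _ _ a hw e q))

theorem Hyp.one_hyp (h : Hyp ρ π) (hv : Fl ρ v φ) (h1 : ψ ≠ 0) :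
    ∃ w ξ, Fl ρ w ξ ∧ ψ ⬝ᵥ w ≠ 0 := by
  by_contra hc
  push Not at hc
  exact h1 (h.span_set hv (s := {x | ∃ ξ, Fl ρ x ξ}) ⟨φ, hv⟩ hv.2.1
    (fun y η b _ _ _ => Or.inl ⟨η, b⟩) fun x ⟨ξ, a⟩ => hc _ _ a)

theorem Hyp.two_hyp (h : Hyp ρ π) (hv : Fl ρ v φ) (h1 : ψ ≠ 0) (h2 : χ ≠ 0) :
    ∃ w ξ, Fl ρ w ξ ∧ ψ ⬝ᵥ w ≠ 0 ∧ χ ⬝ᵥ w ≠ 0 := by
  by_contra hc
  push Not at hc
  obtain ⟨x0, ξ0, a0, b0⟩ := h.one_hyp hv h1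
  refine h2 (h.span_set hv (s := {x | ∃ ξ, Fl ρ x ξ ∧ ψ ⬝ᵥ x ≠ 0}) ⟨ξ0, a0, b0⟩ a0.2.1
    (fun y η b x ⟨ξ, a, q⟩ _ => ?_) fun x ⟨ξ, a, q⟩ => hc _ _ a q)
  by_cases e : ψ ⬝ᵥ y = 0
  · exact Or.inr ⟨_, Fl.act b.1 a, by simpa [e] using q⟩
  · exact Or.inl ⟨η, b, e⟩

/-- The prime field in characteristic two. -/
def fld2 (h2 : (2 : K) = 0) : Subfield K where
  carrier := {a | a = 0 ∨ a = 1}
  one_mem' := Or.inr rfl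
  zero_mem' := Or.inl rfl
  mul_mem' := by rintro a b (rfl | rfl) (rfl | rfl) <;> simp
  add_mem' := by
    rintro a b (rfl | rfl) (rfl | rfl)
    exacts [Or.inl (by simp), Or.inr (by simp), Or.inr (by simp),
      Or.inl (by linear_combination h2)]
  neg_mem' := by
    rintro a (rfl | rfl)
    exacts [Or.inl (by simp), Or.inr (by linear_combination -h2)]
  inv_mem' := by rintro a (rfl | rfl) <;> simp

/-- The prime field in characteristic three. -/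
def fld3 (h3 : (3 : K) = 0) : Subfield K where
  carrier := {a | a = 0 ∨ a = 1 ∨ a = -1}
  one_mem' := Or.inr (Or.inl rfl)
  zero_mem' := Or.inl rfl
  mul_mem' := by rintro a b (rfl | rfl | rfl) (rfl | rfl | rfl) <;> simp
  add_mem' := by
    rintro a b (rfl | rfl | rfl) (rfl | rfl | rfl)
    exacts [Or.inl (by simp), Or.inr (Or.inl (by simp)), Or.inr (Or.inr (by simp)),
      Or.inr (Or.inl (by simp)), Or.inr (Or.inr (by linear_combination h3)), Or.inl (by simp),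
      Or.inr (Or.inr (by simp)), Or.inl (by simp), Or.inr (Or.inl (by linear_combination -h3))]
  neg_mem' := by rintro a (rfl | rfl | rfl) <;> simp
  inv_mem' := by rintro a (rfl | rfl | rfl) <;> simp

theorem two_lt_card [Finite K] (K0 : Subfield K) (h2 : (2 : K) ≠ 0) : 2 < Nat.card K0 := by
  have := Fintype.ofFinite K0
  rw [Nat.card_eq_fintype_card, Fintype.two_lt_card_iff]
  refine ⟨0, 1, -1, zero_ne_one, by simp, fun e => h2 ?_⟩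
  have := congrArg Subtype.val e
  simp only [OneMemClass.coe_one, NegMemClass.coe_neg] at this
  linear_combination this

theorem not_two_lt_card {K0 : Subfield K} (h : ∀ a ∈ K0, a = 0 ∨ a = 1) : ¬ 2 < Nat.card K0 := by
  have : Nat.card K0 ≤ Nat.card Bool := Nat.card_le_card_of_surjective
    (fun b : Bool => if b then (1 : K0) else 0) fun a => (h a a.2).elim
      (fun e => ⟨false, Subtype.ext e.symm⟩) fun e => ⟨true, Subtype.ext e.symm⟩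
  simpa using this

theorem exists_rt_pair [Finite K] (h : T ρ v φ) (h' : T ρ w ψ) (h3 : φ ⬝ᵥ w ≠ 0)
    (h4 : ψ ⬝ᵥ v ≠ 0) : ∃ K0 : Subfield K, (∀ a, T ρ v (a • φ) ↔ a ∈ K0) ∧
      (∀ b, T ρ w (b • ψ) ↔ b ∈ K0) ∧ (((2 : K) = 0 ∧ ∀ a ∈ K0, a = 0 ∨ a = 1) ∨
      (2 < Nat.card K0 ∧ ((φ ⬝ᵥ w) * (ψ ⬝ᵥ v) ∈ K0 ∨ ((3 : K) = 0 ∧
        (∀ a ∈ K0, a = 0 ∨ a = 1 ∨ a = -1) ∧ ((φ ⬝ᵥ w) * (ψ ⬝ᵥ v)) ^ 2 = -1)))) := by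
  rcases d2T h h' h3 h4 with ⟨K0, a, b, c, d⟩ | ⟨a, b, c, d⟩ | ⟨a, c, d⟩
  · exact ⟨K0, c, d, Or.inr ⟨a, Or.inl b⟩⟩
  · have k : ∀ {v φ : V5 K}, T ρ v φ → ∀ x ∈ fld3 a, T ρ v (x • φ) := by
      rintro v φ t x (rfl | rfl | rfl)
      exacts [by simpa using T.zero ρ v, by simpa using t, by simpa using t.neg]
    exact ⟨fld3 a, fun x => ⟨c x, k h x⟩, fun x => ⟨d x, k h' x⟩, Or.inr ⟨two_lt_card _
      fun e => one_ne_zero (α := K) (by linear_combination a - e), Or.inr ⟨a, fun _ e => e, b⟩⟩⟩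
  · have k : ∀ {v φ : V5 K}, T ρ v φ → ∀ x ∈ fld2 a, T ρ v (x • φ) := by
      rintro v φ t x (rfl | rfl)
      exacts [by simpa using T.zero ρ v, by simpa using t]
    exact ⟨fld2 a, fun x => ⟨c x, k h x⟩, fun x => ⟨d x, k h' x⟩, Or.inl ⟨a, fun _ e => e⟩⟩

theorem Hyp.exists_rt [Finite K] (h : Hyp ρ π) (hv : Fl ρ v φ) : ∃ K0 : Subfield K, Rt ρ K0 ∧
    (((2 : K) = 0 ∧ ∀ a ∈ K0, a = 0 ∨ a = 1) ∨ (2 < Nat.card K0 ∧ ∀ v φ w ψ, T ρ v φ → T ρ w ψ →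
      φ ⬝ᵥ w ≠ 0 → ψ ⬝ᵥ v ≠ 0 → (φ ⬝ᵥ w) * (ψ ⬝ᵥ v) ∈ K0 ∨ ((3 : K) = 0 ∧
        (∀ a ∈ K0, a = 0 ∨ a = 1 ∨ a = -1) ∧ ((φ ⬝ᵥ w) * (ψ ⬝ᵥ v)) ^ 2 = -1))) := by
  obtain ⟨w, ψ, h1, h2, h3⟩ := h.opp hv
  obtain ⟨K0, a, -, c⟩ := exists_rt_pair hv.1 h1 h2 h3
  have hR : Rt ρ K0 := fun x ξ hx => h.conn (fun x ξ => ∀ a : K, T ρ x (a • ξ) ↔ a ∈ K0)
    (fun x ξ y η t1 t2 t3 t4 q b => by
      obtain ⟨K1, a1, b1, -⟩ := exists_rt_pair t1 t2 t3 t4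
      rw [b1, ← a1, q]) hv hx a
  refine ⟨K0, hR, c.imp id fun c => ⟨c.1, fun x ξ y η t1 t2 t3 t4 => ?_⟩⟩
  obtain ⟨K1, a1, -, c1⟩ := exists_rt_pair t1 t2 t3 t4
  obtain rfl : K1 = K0 := Subfield.ext fun b => by rw [← a1, hR _ _ (Fl.of_dot t1 t4 t3)]
  exact (c1.resolve_left fun e => not_two_lt_card e.2 c.1).2

/-- The centres of the roots opposite to a given root span the space. -/
theorem Hyp.opp_span (h : Hyp ρ π) (hv : Fl ρ v φ)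
    (e : ∀ w ψ, T ρ w ψ → φ ⬝ᵥ w ≠ 0 → ψ ⬝ᵥ v ≠ 0 → χ ⬝ᵥ w = 0) : χ = 0 := by
  obtain ⟨u, ξ, h1, h2, h3⟩ := h.opp hv
  have e0 := e _ _ h1 h2 h3
  refine h.b_span hv ?_ fun w ψ t1 t2 => ?_
  · simpa [e0, h2] using e _ _ (hv.1.act h1) (by simpa [hv.1.1] using h2)
      (by simpa [hv.1.1] using h3)
  · by_cases e1 : φ ⬝ᵥ w = 0
    · simpa [e0, h2, t2] using e _ _ ((hv.1.comm t1 e1).act h1) (by simpa [e1] using h2)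
        (by simpa [hv.1.1] using h3)
    · exact e _ _ t1 e1 t2

/-- The axes of the roots opposite to a given root span the dual space. -/
theorem Hyp.opp_span' (h : Hyp ρ π) (hv : Fl ρ v φ)
    (e : ∀ w ψ, T ρ w ψ → φ ⬝ᵥ w ≠ 0 → ψ ⬝ᵥ v ≠ 0 → ψ ⬝ᵥ u = 0) : u = 0 :=
  h.dual.opp_span (Fl.dual_iff.2 hv) fun ψ w t1 t2 t3 => by
    rw [dotProduct_comm] at t2 t3 ⊢
    exact e _ _ (T.dual_iff.1 t1) t3 t2

/-- Normalising an opposite root. -/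
theorem nb_of_opp (t : T ρ w ψ) (h1 : φ ⬝ᵥ w ≠ 0) (h2 : ψ ⬝ᵥ v ≠ 0) :
    Nb ρ v φ ((φ ⬝ᵥ w)⁻¹ • w) ((-(ψ ⬝ᵥ v)⁻¹) • ψ) ∧
      vecMulVec ((φ ⬝ᵥ w)⁻¹ • w) ((-((φ ⬝ᵥ w) * (ψ ⬝ᵥ v))) • (-(ψ ⬝ᵥ v)⁻¹) • ψ) =
        vecMulVec w ψ := by
  have k : (φ ⬝ᵥ w)⁻¹ • (-((φ ⬝ᵥ w) * (ψ ⬝ᵥ v))) • (-(ψ ⬝ᵥ v)⁻¹) • ψ = ψ := by
    rw [smul_smul, smul_smul, show (φ ⬝ᵥ w)⁻¹ * -((φ ⬝ᵥ w) * (ψ ⬝ᵥ v)) * -(ψ ⬝ᵥ v)⁻¹ = 1 by
      field_simp, one_smul]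
  refine ⟨⟨by simp [h1], by simp [h2], -((φ ⬝ᵥ w) * (ψ ⬝ᵥ v)), neg_ne_zero.2 (mul_ne_zero h1 h2),
    ?_⟩, ?_⟩
  · rw [T.smul_iff, k]; exact t
  · rw [smul_vecMulVec, ← vecMulVec_smul, k]

theorem Hyp.nb_span (h : Hyp ρ π) (hv : Fl ρ v φ) :
    (∀ η : V5 K, (∀ x χ, Nb ρ v φ x χ → η ⬝ᵥ x = 0) → η = 0) ∧
      ∀ y : V5 K, (∀ x χ, Nb ρ v φ x χ → χ ⬝ᵥ y = 0) → y = 0 :=
  ⟨fun η e => h.opp_span hv fun w ψ t h1 h2 => by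
    simpa [h1] using e _ _ (nb_of_opp t h1 h2).1,
  fun y e => h.opp_span' hv fun w ψ t h1 h2 => by
    simpa [h2] using e _ _ (nb_of_opp t h1 h2).1⟩

theorem Hyp.nb_gen (h : Hyp ρ π) (hv : Fl ρ v φ) (H : Subgroup Γ)
    (h0 : ∀ (g : Γ) (c : K), ρ g = 1 + vecMulVec v (c • φ) → g ∈ H)
    (h1 : ∀ (g : Γ) (x χ : V5 K) (c : K), Nb ρ v φ x χ → χ ⬝ᵥ x = 0 →
      ρ g = 1 + vecMulVec x (c • χ) → g ∈ H) (g : Γ) : g ∈ H := by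
  let E : V5 K → V5 K → Prop := fun w ψ => ∀ a, ρ a = 1 + vecMulVec w ψ → a ∈ H
  have z := hv.1.1
  have op : ∀ w ψ, T ρ w ψ → φ ⬝ᵥ w ≠ 0 → ψ ⬝ᵥ v ≠ 0 → E w ψ := fun w ψ t e1 e2 a ha =>
    h1 a _ _ _ (nb_of_opp t e1 e2).1 (by simp [t.1]) (by rw [(nb_of_opp t e1 e2).2, ha])
  have cj : ∀ u ξ w ψ, T ρ u ξ → E u ξ → E (w + (ξ ⬝ᵥ w) • u) (ψ - (ψ ⬝ᵥ u) • ξ) → E w ψ :=
    fun u ξ w ψ ⟨t0, k, hk⟩ e1 e2 a ha => by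
    have := H.mul_mem (H.mul_mem (H.inv_mem (e1 k hk)) (e2 _ (rho_act_tv t0 hk ha))) (e1 k hk)
    simpa [mul_assoc] using this
  have ad : ∀ w ψ ψ', ψ ⬝ᵥ w = 0 → T ρ w ψ' → E w ψ' → E w (ψ + ψ') → E w ψ :=
    fun w ψ ψ' t0 ⟨_, k, hk⟩ e1 e2 a ha => by
    have := H.mul_mem (e2 (a * k) (by
      rw [map_mul, ha, hk, mul_add, add_mul, add_mul, vv_mul, t0, vecMulVec_add]
      simp [add_assoc])) (H.inv_mem (e1 k hk))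
    simpa using this
  have ad' : ∀ w w' ψ, T ρ w' ψ → E w' ψ → E (w + w') ψ → E w ψ :=
    fun w w' ψ ⟨t0, k, hk⟩ e1 e2 a ha => by
    have := H.mul_mem (e2 (a * k) (by
      rw [map_mul, ha, hk, mul_add, add_mul, add_mul, vv_mul, t0, add_vecMulVec]
      simp [add_assoc])) (H.inv_mem (e1 k hk))
    simpa using this
  have cv : ∀ η, T ρ v η → E v η := fun η t => by
    obtain ⟨u, ξ, t1, t2, t3⟩ := h.opp hv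
    have k : ∀ η, T ρ v η → η ⬝ᵥ u ≠ 0 → E v η := fun η t e =>
      cj _ _ _ _ t1 (op _ _ t1 t2 t3) (op _ _ (t1.act t) (by simp [z, t2, t3])
        (by simp [t.1, e, t3]))
    by_cases e : η ⬝ᵥ u = 0
    · exact ad _ _ _ t.1 hv.1 (fun a ha => h0 a 1 (by simpa using ha))
        (k _ (t.add hv.1) (by simpa [e] using t2))
    · exact k _ t e
  have b1 : ∀ w ψ, T ρ w ψ → ψ ≠ 0 → φ ⬝ᵥ w ≠ 0 → E w ψ := fun w ψ t n e => by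
    by_cases e1 : ψ ⬝ᵥ v = 0
    swap
    · exact op _ _ t e e1
    obtain ⟨u, ξ, t1, t2, t3, t4⟩ : ∃ u ξ, T ρ u ξ ∧ φ ⬝ᵥ u ≠ 0 ∧ ξ ⬝ᵥ v ≠ 0 ∧ ψ ⬝ᵥ u ≠ 0 := by
      by_contra hc
      push Not at hc
      exact n (h.opp_span hv hc)
    have k : ∀ w, T ρ w ψ → φ ⬝ᵥ w + (ξ ⬝ᵥ w) * (φ ⬝ᵥ u) ≠ 0 → E w ψ := fun w t e =>
      cj _ _ _ _ t1 (op _ _ t1 t2 t3) (op _ _ (t1.act t) (by simpa using e)
        (by simp [e1, t3, t4]))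
    by_cases e2 : φ ⬝ᵥ w + (ξ ⬝ᵥ w) * (φ ⬝ᵥ u) = 0
    · have c := hv.1.comm' t e1
      refine ad' _ _ _ c (fun a ha => cv _ ((T.smul_iff _).1 c) a
        (by rw [ha, smul_vecMulVec, vecMulVec_smul])) (k _ (t.add' c) fun e3 => ?_)
      simp only [dotProduct_add, dotProduct_smul, z, smul_eq_mul] at e3
      exact mul_ne_zero (mul_ne_zero e t3) t2 (by linear_combination e3 - e2)
    · exact k _ t e2
  refine h.tv_ind hv H (fun a w ψ t => ?_ : ∀ a w ψ, Fl ρ w ψ → ρ a = _ → a ∈ H) g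
  by_cases e : φ ⬝ᵥ w = 0
  · obtain ⟨u, ξ, t1, t2, t3, t4⟩ : ∃ u ξ, T ρ u ξ ∧ φ ⬝ᵥ u ≠ 0 ∧ ξ ⬝ᵥ v ≠ 0 ∧ ξ ⬝ᵥ w ≠ 0 := by
      by_contra hc
      push Not at hc
      exact t.2.1 (h.opp_span' hv hc)
    exact cj _ _ _ _ t1 (op _ _ t1 t2 t3) (b1 _ _ (t1.act t.1) (Fl.act t1 t).2.2
      (by simp [e, t2, t4])) a
  · exact b1 _ _ t.1 t.2.2 e a

theorem Hyp.nb_trace (h : Hyp ρ π) (hv : Fl ρ v φ) (K1 : Subfield K)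
    (h0 : ∀ c : K, T ρ v (c • φ) → c ∈ K1)
    (h1 : ∀ (x χ : V5 K) (c : K), Nb ρ v φ x χ → T ρ x (c • χ) → c ∈ K1)
    (h2 : ∀ x χ x' χ' : V5 K, Nb ρ v φ x χ → Nb ρ v φ x' χ' → χ ⬝ᵥ x' ∈ K1) (g : Γ) :
    (ρ g).trace ∈ K1 := by
  let Cn : V5 K → Prop := fun y => y = v ∨ ∃ χ, Nb ρ v φ y χ
  let Ax : V5 K → Prop := fun η => η = φ ∨ ∃ x, Nb ρ v φ x η
  have pr : ∀ y η, Cn y → Ax η → η ⬝ᵥ y ∈ K1 := by
    rintro y η (rfl | ⟨χ, a⟩) (rfl | ⟨x, b⟩)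
    exacts [hv.1.1 ▸ K1.zero_mem, b.2.1 ▸ K1.neg_mem K1.one_mem, a.1 ▸ K1.one_mem, h2 _ _ _ _ b a]
  let S : Submonoid (M5 K) :=
    { carrier := {M | ∃ c ∈ K1, M = c • 1 ∨ ∃ y η, Cn y ∧ Ax η ∧ M = c • vecMulVec y η}
      one_mem' := ⟨1, K1.one_mem, Or.inl (one_smul _ _).symm⟩
      mul_mem' := by
        rintro _ _ ⟨c, hc, rfl | ⟨y, η, a, b, rfl⟩⟩ ⟨d, hd, rfl | ⟨y', η', a', b', rfl⟩⟩
        · exact ⟨c * d, K1.mul_mem hc hd, Or.inl (by simp [smul_smul, mul_comm])⟩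
        · exact ⟨c * d, K1.mul_mem hc hd, Or.inr ⟨_, _, a', b', by simp [smul_smul, mul_comm]⟩⟩
        · exact ⟨c * d, K1.mul_mem hc hd, Or.inr ⟨_, _, a, b, by simp [smul_smul, mul_comm]⟩⟩
        · exact ⟨c * d * (η ⬝ᵥ y'), K1.mul_mem (K1.mul_mem hc hd) (pr _ _ a' b),
            Or.inr ⟨_, _, a, b', by
              rw [smul_mul_assoc, mul_smul_comm, vv_mul, smul_smul, smul_smul]⟩⟩ }
  let A : Subring (M5 K) := Subring.closure S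
  have tr : ∀ M ∈ A, M.trace ∈ K1 := fun M hM => by
    rw [Subring.mem_closure_iff, Submonoid.closure_eq] at hM
    induction hM using AddSubgroup.closure_induction with
    | mem x hx =>
      obtain ⟨c, hc, rfl | ⟨y, η, a, b, rfl⟩⟩ := hx
      · rw [trace_smul, trace_one]
        exact K1.mul_mem hc (natCast_mem K1 _)
      · rw [trace_smul, trace_vv]
        exact K1.mul_mem hc (pr _ _ a b)
    | zero => simp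
    | add a b _ _ ha hb => rw [trace_add]; exact K1.add_mem ha hb
    | neg a _ ha => rw [trace_neg]; exact K1.neg_mem ha
  let H : Subgroup Γ :=
    { carrier := {k | ρ k ∈ A ∧ ρ k⁻¹ ∈ A}
      one_mem' := by simp [A.one_mem]
      mul_mem' := fun {a b} ha hb => by
        simp only [Set.mem_setOf_eq, _root_.mul_inv_rev, map_mul]
        exact ⟨A.mul_mem ha.1 hb.1, A.mul_mem hb.2 ha.2⟩
      inv_mem' := fun {a} ha => by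
        simp only [Set.mem_setOf_eq, inv_inv]
        exact ha.symm }
  have key : ∀ (a : Γ) y η (c : K), Cn y → Ax η → (c • η) ⬝ᵥ y = 0 → c ∈ K1 →
      ρ a = 1 + vecMulVec y (c • η) → a ∈ H := fun a y η c a1 a2 a3 a4 e => by
    have m : vecMulVec y (c • η) ∈ A :=
      Subring.subset_closure ⟨c, a4, Or.inr ⟨_, _, a1, a2, vecMulVec_smul _ _ _⟩⟩
    exact ⟨e ▸ A.add_mem A.one_mem m, rho_inv_tv a3 e ▸ A.sub_mem A.one_mem m⟩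
  refine tr _ (h.nb_gen hv H (fun a c e => ?_) (fun a x χ c n z e => ?_) g).1
  · have z : (c • φ) ⬝ᵥ v = 0 := by simp [hv.1.1]
    exact key a _ _ c (Or.inl rfl) (Or.inl rfl) z (h0 c ⟨z, a, e⟩) e
  · have z' : (c • χ) ⬝ᵥ x = 0 := by simp [z]
    exact key a _ _ c (Or.inr ⟨_, n⟩) (Or.inr ⟨_, n⟩) z' (h1 _ _ c n ⟨z', a, e⟩) e

end Cfsg.Agent.D5
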