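import Cfsg.Agent.DIM5.Calc
import Cfsg.Agent.H10.P3Two
import Cfsg.Agent.H8.Dihedral

set_option autoImplicit false

open Matrix
open scoped MatrixGroups

namespace Cfsg.Agent.D5

open H28 H10.P3

variable {K : Type*} [Field K] {Γ X : Type*} [Group Γ] [Group X] {ρ : Γ →* M5 K} {π : Γ →* X}
variable {u v w f g h φ ψ χ : V5 K}

namespace TD2

theorem half [Finite K] (h2 : (2 : K) ≠ 0) (h : T ρ v ((2 : K) • φ)) : T ρ v φ := by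
  obtain ⟨p, hp⟩ := CharP.exists K
  have hp' := CharP.char_is_prime K p
  obtain ⟨n, hn⟩ : Odd p := hp'.eq_two_or_odd'.resolve_left (by
    rintro rfl; exact h2 (CharP.cast_eq_zero K 2))
  have e : (((n + 1 : ℕ) : K)) * 2 = 1 := by
    have := CharP.cast_eq_zero K p
    rw [hn] at this
    push_cast at this ⊢
    linear_combination this
  have := h.nsmul (n + 1)
  rwa [smul_smul, e, one_smul] at this

/-- The matrix acting on the column space of `P` by `h`, with translation part `Y`. -/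
def bM (P : Matrix (Fin 5) (Fin 2) K) (Q : Matrix (Fin 2) (Fin 5) K) (h : Matrix (Fin 2) (Fin 2) K)
    (Y : Matrix (Fin 2) (Fin 5) K) : M5 K := 1 + P * ((h - 1) * Q + Y)

variable {P : Matrix (Fin 5) (Fin 2) K} {Q : Matrix (Fin 2) (Fin 5) K}

theorem bM_mul (hQ : Q * P = 1) (h h' : Matrix (Fin 2) (Fin 2) K) {Y : Matrix (Fin 2) (Fin 5) K} (hY : Y * P = 0)
    (Y' : Matrix (Fin 2) (Fin 5) K) : bM P Q h Y * bM P Q h' Y' = bM P Q (h * h') (Y + h * Y') := by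
  have e : ((h - 1) * Q + Y) * P = h - 1 := by
    rw [Matrix.add_mul, Matrix.mul_assoc, hQ, hY]; simp
  simp only [bM]
  rw [add_mul, mul_add, mul_add, one_mul, one_mul, mul_one, Matrix.mul_assoc P,
    ← Matrix.mul_assoc _ P, e, add_assoc, ← Matrix.mul_add, ← Matrix.mul_add]
  congr 2
  simp only [Matrix.sub_mul, Matrix.mul_add, Matrix.one_mul, Matrix.mul_sub, Matrix.mul_assoc]
  abel

theorem row_mem {S : Submodule K (V5 K)} (h : Matrix (Fin 2) (Fin 2) K) {Y : Matrix (Fin 2) (Fin 5) K}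
    (hY : ∀ i, Y i ∈ S) (i : Fin 2) : (h * Y) i ∈ S := by
  have : (h * Y) i = h i 0 • Y 0 + h i 1 • Y 1 := by ext j; simp [Matrix.mul_apply]
  rw [this]
  exact S.add_mem (S.smul_mem _ (hY 0)) (S.smul_mem _ (hY 1))

/-- The subgroup of `SL₂(K)` induced on the column space of `P`. -/
def bk (ρ : Γ →* M5 K) (hQ : Q * P = 1) (S : Submodule K (V5 K)) (hS : ∀ y ∈ S, y ᵥ* P = 0) :
    Subgroup SL(2, K) where
  carrier := {h | ∃ g Y, (∀ i, Y i ∈ S) ∧ ρ g = bM P Q h Y}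
  one_mem' := ⟨1, 0, fun _ => S.zero_mem, by simp [bM]⟩
  mul_mem' := by
    rintro a b ⟨g, Y, hY, hg⟩ ⟨g', Y', hY', hg'⟩
    exact ⟨g * g', _, fun i => S.add_mem (hY i) (row_mem _ hY' i), by
      rw [map_mul, hg, hg', bM_mul hQ _ _ (by ext i j; exact congrFun (hS _ (hY i)) j)]; rfl⟩
  inv_mem' := by
    rintro a ⟨g, Y, hY, hg⟩
    refine ⟨g⁻¹, -((a⁻¹ : SL(2, K)).1 * Y), fun i => S.neg_mem (row_mem _ hY i), rho_inv_eq ?_⟩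
    have e : (a : Matrix (Fin 2) (Fin 2) K) * (a⁻¹ : SL(2, K)) = 1 := congrArg Subtype.val (mul_inv_cancel a)
    rw [hg, bM_mul hQ _ _ (by ext i j; exact congrFun (hS _ (hY i)) j), Matrix.mul_neg, ← Matrix.mul_assoc, e]
    simp [bM]

/-- The matrix with columns `v`, `w`. -/
def cl (v w : V5 K) : Matrix (Fin 5) (Fin 2) K := of fun i j => ![v i, w i] j

/-- The matrix with rows `φ`, `ψ`. -/
def rw2 (φ ψ : V5 K) : Matrix (Fin 2) (Fin 5) K := of ![φ, ψ]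

theorem vecMul_cl (χ v w : V5 K) : χ ᵥ* cl v w = ![χ ⬝ᵥ v, χ ⬝ᵥ w] := by
  ext j
  fin_cases j <;> simp [cl, vecMul, dotProduct]

theorem bM_eq (v w φ ψ : V5 K) (a b c d : K) (Y : Matrix (Fin 2) (Fin 5) K) :
    bM (cl v w) (rw2 φ ψ) !![a, b; c, d] Y =
      1 + vecMulVec v ((a - 1) • φ + b • ψ + Y 0) + vecMulVec w (c • φ + (d - 1) • ψ + Y 1) := by
  rw [bM, add_assoc]
  congr 1
  ext i j
  simp only [rw2, cl, Matrix.mul_apply, Fin.sum_univ_two, vecMulVec_apply, Matrix.add_apply, Matrix.sub_apply,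
    of_apply, Pi.add_apply, Pi.smul_apply, smul_eq_mul, cons_val_zero, cons_val_one, cons_val',
    cons_val_fin_one, one_apply_eq, one_apply_ne (show (0 : Fin 2) ≠ 1 by decide),
    one_apply_ne (show (1 : Fin 2) ≠ 0 by decide)]
  ring

theorem z0 (i : Fin 2) : (0 : Matrix (Fin 2) (Fin 5) K) i = 0 := rfl

theorem r0 (φ ψ : V5 K) : rw2 φ ψ 0 = φ := rfl

theorem r1 (φ ψ : V5 K) : rw2 φ ψ 1 = ψ := rfl

theorem rc_one (h1 : φ ⬝ᵥ v = 0) (h2 : ψ ⬝ᵥ w = 0) (h3 : φ ⬝ᵥ w ≠ 0) (h4 : ψ ⬝ᵥ v ≠ 0) :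
    rw2 ((ψ ⬝ᵥ v)⁻¹ • ψ) ((φ ⬝ᵥ w)⁻¹ • φ) * cl v w = 1 := by
  have : ∀ φ ψ : V5 K, rw2 φ ψ * cl v w = !![φ ⬝ᵥ v, φ ⬝ᵥ w; ψ ⬝ᵥ v, ψ ⬝ᵥ w] := fun φ ψ => by
    ext i j
    fin_cases i <;> fin_cases j <;> simp [rw2, cl, Matrix.mul_apply, dotProduct]
  rw [this, one_fin_two]
  simp [h1, h2, h3, h4]

/-- The group induced on the plane by elements without translation part. -/
def b0 (h : T ρ v φ) (h' : T ρ w ψ) (h3 : φ ⬝ᵥ w ≠ 0) (h4 : ψ ⬝ᵥ v ≠ 0) : Subgroup SL(2, K) :=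
  bk ρ (rc_one h.1 h'.1 h3 h4) ⊥ (by simp)

theorem mem_b0 (h : T ρ v φ) (h' : T ρ w ψ) (h3 : φ ⬝ᵥ w ≠ 0) (h4 : ψ ⬝ᵥ v ≠ 0) {a : SL(2, K)} :
    a ∈ b0 h h' h3 h4 ↔ ∃ g, ρ g = bM (cl v w) (rw2 ((ψ ⬝ᵥ v)⁻¹ • ψ) ((φ ⬝ᵥ w)⁻¹ • φ)) a 0 :=
  ⟨fun ⟨g, Y, hY, e⟩ => ⟨g, by rwa [show Y = 0 from funext fun i => hY i] at e⟩,
    fun ⟨g, e⟩ => ⟨g, 0, fun _ => rfl, e⟩⟩

theorem b0_V (h : T ρ v φ) (h' : T ρ w ψ) (h3 : φ ⬝ᵥ w ≠ 0) (h4 : ψ ⬝ᵥ v ≠ 0) (a : K) :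
    slV (a * (φ ⬝ᵥ w)) ∈ b0 h h' h3 h4 ↔ T ρ v (a • φ) := by
  simp [mem_b0, slV_coe, bM_eq, T, h.1, smul_smul, h3, z0]

theorem b0_L (h : T ρ v φ) (h' : T ρ w ψ) (h3 : φ ⬝ᵥ w ≠ 0) (h4 : ψ ⬝ᵥ v ≠ 0) (a : K) :
    slL (a * (ψ ⬝ᵥ v)) ∈ b0 h h' h3 h4 ↔ T ρ w (a • ψ) := by
  simp [mem_b0, slL_coe, bM_eq, T, h'.1, smul_smul, h4, z0]

theorem na_mem (h2 : (2 : K) = 0) {f2 y0 y1 : V5 K} (hv : f2 ⬝ᵥ v = 0) (hw : f2 ⬝ᵥ w = 1)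
    (c1 : y0 ⬝ᵥ v = 0) (c2 : y0 ⬝ᵥ w = 0) (c3 : y1 ⬝ᵥ v = 0) (c4 : y1 ⬝ᵥ w = 0) (hn : NA ρ v w) {a : K} {g : Γ}
    (hg : ρ g = 1 + vecMulVec v (a • f2 + y0) + vecMulVec w y1) : ∃ φ', T ρ v φ' ∧ φ' ⬝ᵥ w = a := by
  by_cases ha : a = 0
  · exact ⟨0, T.zero _ _, by simp [ha]⟩
  have h1 : T ρ v (a • y1) := ⟨by simp [c3], g * g, by
    have e : ρ g * ρ g = 1 + vecMulVec v (a • y1) + (2 : K) • (vecMulVec v (a • f2 + y0) + vecMulVec w y1) := by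
      rw [hg]
      simp only [mul_add, add_mul, one_mul, mul_one, vv_mul, add_dotProduct, smul_dotProduct, hv,
        hw, c1, c2, c3, c4, vecMulVec_add, vecMulVec_smul, mul_smul_comm, smul_mul_assoc]
      module
    rw [map_mul, e, h2, zero_smul, add_zero]⟩
  have h3 : y1 = 0 := by simpa [ha] using hn _ h1 (by simp [c4])
  exact ⟨a • f2 + y0, ⟨by simp [hv, c1], g, by simp [hg, h3]⟩, by simp [hw, c2]⟩

end TD2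

open TD2

theorem d2T [Finite K] (h : T ρ v φ) (h' : T ρ w ψ) (h3 : φ ⬝ᵥ w ≠ 0) (h4 : ψ ⬝ᵥ v ≠ 0) :
    (∃ K0 : Subfield K, 2 < Nat.card K0 ∧ (φ ⬝ᵥ w) * (ψ ⬝ᵥ v) ∈ K0 ∧
      (∀ a, T ρ v (a • φ) ↔ a ∈ K0) ∧ (∀ b, T ρ w (b • ψ) ↔ b ∈ K0)) ∨
    ((3 : K) = 0 ∧ ((φ ⬝ᵥ w) * (ψ ⬝ᵥ v)) ^ 2 = -1 ∧
      (∀ a : K, T ρ v (a • φ) → a = 0 ∨ a = 1 ∨ a = -1) ∧
      (∀ b : K, T ρ w (b • ψ) → b = 0 ∨ b = 1 ∨ b = -1)) ∨
    ((2 : K) = 0 ∧ (∀ a : K, T ρ v (a • φ) → a = 0 ∨ a = 1) ∧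
      (∀ b : K, T ρ w (b • ψ) → b = 0 ∨ b = 1)) := by
  have hV := b0_V h h' h3 h4
  have hL := b0_L h h' h3 h4
  have ha : slV (φ ⬝ᵥ w) ∈ b0 h h' h3 h4 := by simpa using (hV 1).2 (by simpa using h)
  have hb : slL (ψ ⬝ᵥ v) ∈ b0 h h' h3 h4 := by simpa using (hL 1).2 (by simpa using h')
  have c1 : ∀ a c : K, c ≠ 0 → (a * c = 0 ∨ a * c = c ∨ a * c = -c) → a = 0 ∨ a = 1 ∨ a = -1 :=
    fun a c hc e => e.imp (fun e => mul_right_cancel₀ hc (by rw [e, zero_mul]))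
      (Or.imp (fun e => mul_right_cancel₀ hc (by rw [e, one_mul]))
        fun e => mul_right_cancel₀ hc (by rw [e, neg_one_mul]))
  have c2 : ∀ a c : K, c ≠ 0 → (a * c = 0 ∨ a * c = c) → a = 0 ∨ a = 1 :=
    fun a c hc e => e.imp (fun e => mul_right_cancel₀ hc (by rw [e, zero_mul]))
      (fun e => mul_right_cancel₀ hc (by rw [e, one_mul]))
  rcases d2 _ h3 h4 ha hb with ⟨K0, k, k1, k2⟩ | ⟨k, k0, k1, k2⟩ | ⟨k, k1, k2⟩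
  · have ht := (k1 _).1 ha
    have hc : ∀ a, a * (φ ⬝ᵥ w * ψ ⬝ᵥ v) ∈ K0 ↔ a ∈ K0 := fun a =>
      ⟨fun e => by simpa [h3, h4] using K0.div_mem e ht, fun e => K0.mul_mem e ht⟩
    refine Or.inl ⟨K0, k, ht, fun a => ?_, fun a => ?_⟩
    · rw [← hV, k1, mul_assoc, hc]
    · rw [← hL, k2, mul_left_comm, hc]
  · exact Or.inr (Or.inl ⟨k, k0, fun a e => c1 _ _ h3 (k1 _ ((hV _).2 e)),
      fun a e => c1 _ _ h4 (k2 _ ((hL _).2 e))⟩)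
  · exact Or.inr (Or.inr ⟨k, fun a e => c2 _ _ h3 (k1 _ ((hV _).2 e)),
      fun a e => c2 _ _ h4 (k2 _ ((hL _).2 e))⟩)

theorem negT [Finite K] (h2 : (2 : K) ≠ 0) (h : T ρ v φ) (h' : T ρ w ψ) (h3 : φ ⬝ᵥ w ≠ 0)
    (h4 : ψ ⬝ᵥ v ≠ 0) (hχ : T ρ v χ) : T ρ v (χ - (χ ⬝ᵥ w / φ ⬝ᵥ w) • φ) := by
  have ha : slV (φ ⬝ᵥ w) ∈ b0 h h' h3 h4 := by simpa using (b0_V h h' h3 h4 1).2 (by simpa using h)
  have hb : slL (ψ ⬝ᵥ v) ∈ b0 h h' h3 h4 := by simpa using (b0_L h h' h3 h4 1).2 (by simpa using h')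
  obtain ⟨g, hg⟩ := (mem_b0 h h' h3 h4).1 (d2_neg h2 _ h3 h4 ha hb)
  have hm : ((-1 : SL(2, K)) : Matrix (Fin 2) (Fin 2) K) = !![-1, 0; 0, -1] := by
    ext i j; fin_cases i <;> fin_cases j <;> simp
  have hg' : ρ g⁻¹ = ρ g := D5.rho_inv_eq (by
    have e : ((-1 : SL(2, K)) : Matrix (Fin 2) (Fin 2) K) * (-1 : SL(2, K)) = 1 :=
      congrArg Subtype.val (show (-1 : SL(2, K)) * -1 = 1 by simp)
    rw [hg, bM_mul (rc_one h.1 h'.1 h3 h4) _ _ (by simp), e]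
    simp [bM])
  have := hχ.conj g
  rw [hg', hg, hm, bM_eq] at this
  have z : ∀ i, (0 : Matrix (Fin 2) (Fin 5) K) i = 0 := fun _ => rfl
  simp only [z, add_mulVec, one_mulVec, D5.vv_mulVec, vecMul_add, vecMul_one, D5.vecMul_vv, smul_zero,
    add_zero, zero_smul, zero_add, smul_dotProduct, h.1, hχ.1, smul_eq_mul, inv_mul_cancel₀ h4,
    mul_zero] at this
  have e : v + ((-1 - 1 : K) * 1) • v = -v := by module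
  rw [e] at this
  refine half h2 ?_
  convert hχ.add this.neg_left using 1
  rw [div_eq_mul_inv]
  module

theorem na_symm (h : T ρ v φ) (h3 : φ ⬝ᵥ w ≠ 0) (hn : NA ρ v w) : NA ρ w v := fun χ t e =>
  (smul_eq_zero.1 (hn _ (t.comm h e) (by rw [smul_dotProduct, t.1, smul_zero]))).resolve_left h3

theorem conj_two [Finite K] (h2 : (2 : K) = 0) (h : T ρ v φ) (h' : T ρ w ψ) (h3 : φ ⬝ᵥ w ≠ 0)
    (h4 : ψ ⬝ᵥ v ≠ 0) : ∃ (k : Γ) (c : K), c ≠ 0 ∧ ρ k *ᵥ v = c • w ∧ φ ᵥ* ρ k⁻¹ = c⁻¹ • ψ := by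
  have ha : slV (φ ⬝ᵥ w) ∈ b0 h h' h3 h4 := by simpa using (b0_V h h' h3 h4 1).2 (by simpa using h)
  have hb : slL (ψ ⬝ᵥ v) ∈ b0 h h' h3 h4 := by simpa using (b0_L h h' h3 h4 1).2 (by simpa using h')
  have : CharP K 2 := (CharP.charP_iff_prime_eq_zero Nat.prime_two).2 (by exact_mod_cast h2)
  have s2 : slV (φ ⬝ᵥ w) * slV (φ ⬝ᵥ w) = 1 := by rw [← pow_two, slV_pow_char 2]
  have t2 : slL (ψ ⬝ᵥ v) * slL (ψ ⬝ᵥ v) = 1 := by rw [← pow_two, slL_pow_char 2]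
  have ho : Odd (orderOf (slV (φ ⬝ᵥ w) * slL (ψ ⬝ᵥ v))) := by
    by_contra he
    obtain ⟨z2, c1, c2⟩ := H8.central_involution s2 t2 (Nat.not_odd_iff_even.1 he)
    generalize (slV (φ ⬝ᵥ w) * slL (ψ ⬝ᵥ v)) ^ _ = z at z2 c1 c2
    refine H8.ne_one_of_orderOf_two z2 ?_
    have e1 := congrFun (congrFun (congrArg Subtype.val c1.eq) 0) 0
    have e2 := congrFun (congrFun (congrArg Subtype.val c1.eq) 0) 1
    have e3 := congrFun (congrFun (congrArg Subtype.val c2.eq) 0) 0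
    have e4 := z.2
    simp [slV_coe, slL_coe, Matrix.mul_apply, h3, h4] at e1 e2 e3
    rw [det_fin_two] at e4
    have e5 : z.1 0 0 = z.1 1 1 := mul_right_cancel₀ h3 (by linear_combination e2)
    rw [e1, ← e5] at e4
    have e6 : z.1 0 0 = 1 := sub_eq_zero.1 (pow_eq_zero_iff (n := 2) two_ne_zero |>.1 (by
      linear_combination e4 + (1 - z.1 0 0) * h2))
    ext i j
    fin_cases i <;> fin_cases j <;> simp [e1, e3, ← e5, e6]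
  obtain ⟨k, hk, e⟩ := H8.exists_conj_of_odd s2 t2 ho
  obtain ⟨g, hg⟩ := (mem_b0 h h' h3 h4).1 ((Subgroup.zpowers_le.2 (mul_mem ha hb)) hk)
  have rc := rc_one h.1 h'.1 h3 h4
  have hg' : ρ g⁻¹ = bM (cl v w) (rw2 ((ψ ⬝ᵥ v)⁻¹ • ψ) ((φ ⬝ᵥ w)⁻¹ • φ)) (k⁻¹ : SL(2, K)) 0 :=
    D5.rho_inv_eq (by
      have e : (k : Matrix (Fin 2) (Fin 2) K) * (k⁻¹ : SL(2, K)) = 1 := congrArg Subtype.val (mul_inv_cancel k)
      rw [hg, bM_mul rc _ _ (by simp), e]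
      simp [bM])
  have a1 : 1 + vecMulVec v φ =
      bM (cl v w) (rw2 ((ψ ⬝ᵥ v)⁻¹ • ψ) ((φ ⬝ᵥ w)⁻¹ • φ)) (slV (φ ⬝ᵥ w)) 0 := by
    simp [slV_coe, bM_eq, z0, smul_smul, h3]
  have a2 : 1 + vecMulVec w ψ =
      bM (cl v w) (rw2 ((ψ ⬝ᵥ v)⁻¹ • ψ) ((φ ⬝ᵥ w)⁻¹ • φ)) (slL (ψ ⬝ᵥ v)) 0 := by
    simp [slL_coe, bM_eq, z0, smul_smul, h4]
  have e1 : ρ g * (1 + vecMulVec v φ) * ρ g⁻¹ = 1 + vecMulVec w ψ := by
    rw [a1, a2, hg', hg, bM_mul rc _ _ (by simp), bM_mul rc _ _ (by simp), ← e]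
    simp only [Matrix.mul_zero, add_zero]
    rfl
  rw [mul_add, add_mul, mul_one, D5.mul_inv_rho, mul_vecMulVec, vecMulVec_mul, add_right_inj] at e1
  obtain ⟨t, t0, t1, t2⟩ := D5.vv_eq_vv (by rintro rfl; simp at h3) (by rintro rfl; simp at h4) e1.symm
  exact ⟨g, t, t0, t1, t2⟩

theorem na_struct [Finite K] (h2 : (2 : K) = 0) (h : T ρ v φ) (h' : T ρ w ψ) (h3 : φ ⬝ᵥ w ≠ 0)
    (h4 : ψ ⬝ᵥ v ≠ 0) (n : NA ρ v w) (m : Multi ρ v) (hs : ∀ χ (a : K), Fl ρ v χ → T ρ v (a • χ) →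
      a = 0 ∨ a = 1) : ∃ (K1 : Subfield K) (f ξ : V5 K), 2 < Nat.card K1 ∧ ξ ≠ 0 ∧ ξ ⬝ᵥ w = 0 ∧
      ξ ⬝ᵥ v = 0 ∧ f ⬝ᵥ v = 0 ∧ (f ⬝ᵥ w) * (ψ ⬝ᵥ v) = 1 ∧
      (∀ χ, T ρ v χ ↔ ∃ c ∈ K1, χ = c ^ 2 • f + c • ξ) ∧
      ∀ b, (∃ ψ', T ρ w ψ' ∧ ψ' ⬝ᵥ v = b) ↔ (f ⬝ᵥ w) * b ∈ K1 := by
  have n2 := na_symm h h3 n
  let S : Submodule K (V5 K) :=
    { carrier := {χ | χ ⬝ᵥ v = 0 ∧ χ ⬝ᵥ w = 0}
      add_mem' := fun a b => by simp [a.1, a.2, b.1, b.2]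
      zero_mem' := by simp
      smul_mem' := fun c _ a => by simp [a.1, a.2] }
  set H := bk ρ (rc_one h.1 h'.1 h3 h4) S (fun y hy => by simp [vecMul_cl, hy.1, hy.2]) with hH
  have hV : ∀ a, slV a ∈ H ↔ ∃ φ', T ρ v φ' ∧ φ' ⬝ᵥ w = a := fun a => by
    constructor
    · rintro ⟨g, Y, hY, hg⟩
      refine na_mem h2 (f2 := (φ ⬝ᵥ w)⁻¹ • φ) (by simp [h.1]) (by simp [h3]) (hY 0).1 (hY 0).2 (hY 1).1
        (hY 1).2 n (g := g) ?_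
      simp [hg, slV_coe, bM_eq]
    · rintro ⟨φ', ⟨k0, g, hg⟩, rfl⟩
      refine ⟨g, rw2 (φ' - (φ' ⬝ᵥ w) • (φ ⬝ᵥ w)⁻¹ • φ) 0, fun i => ?_, by simp [hg, slV_coe, bM_eq, r0, r1]⟩
      fin_cases i
      · exact ⟨by simp [r0, k0, h.1], by simp [r0, h3]⟩
      · exact S.zero_mem
  have hL : ∀ a, slL a ∈ H ↔ ∃ φ', T ρ w φ' ∧ φ' ⬝ᵥ v = a := fun a => by
    constructor
    · rintro ⟨g, Y, hY, hg⟩
      refine na_mem h2 (f2 := (ψ ⬝ᵥ v)⁻¹ • ψ) (by simp [h'.1]) (by simp [h4]) (hY 1).2 (hY 1).1 (hY 0).2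
        (hY 0).1 n2 (g := g) ?_
      simp [hg, slL_coe, bM_eq, add_right_comm]
    · rintro ⟨φ', ⟨k0, g, hg⟩, rfl⟩
      refine ⟨g, rw2 0 (φ' - (φ' ⬝ᵥ v) • (ψ ⬝ᵥ v)⁻¹ • ψ), fun i => ?_, by simp [hg, slL_coe, bM_eq, r0, r1]⟩
      fin_cases i
      · exact S.zero_mem
      · exact ⟨by simp [r1, k0, h4], by simp [r1, k0, h'.1]⟩
  have uq : ∀ a b, T ρ v a → T ρ v b → a ⬝ᵥ w = b ⬝ᵥ w → a = b := fun a b ta tb e =>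
    sub_eq_zero.1 (n _ (ta.sub tb) (by rw [sub_dotProduct, e, sub_self]))
  obtain ⟨-, φ1, ψ1, p1, q1, p0, pq⟩ := m
  rcases d2 H h3 h4 ((hV _).2 ⟨_, h, rfl⟩) ((hL _).2 ⟨_, h', rfl⟩) with
    ⟨K1, k, k1, k2⟩ | ⟨k, -⟩ | ⟨-, k1, -⟩
  rotate_left
  · exact absurd (by linear_combination k - h2 : (1 : K) = 0) one_ne_zero
  · have e1 : φ1 = φ := uq _ _ p1 h ((k1 _ ((hV _).2 ⟨_, p1, rfl⟩)).resolve_left fun e => p0 (n _ p1 e))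
    rcases k1 _ ((hV _).2 ⟨_, q1, rfl⟩) with e | e
    · exact absurd (by simpa using n _ q1 e) (pq 0)
    · exact absurd (by simpa [e1] using uq _ _ q1 h e) (pq 1)
  have hl : φ ⬝ᵥ w * ψ ⬝ᵥ v ∈ K1 := (k1 _).1 ((hV _).2 ⟨_, h, rfl⟩)
  have ex : ∀ c ∈ K1, ∃ χ, T ρ v χ ∧ χ ⬝ᵥ w * ψ ⬝ᵥ v = c ^ 2 := fun c hc => by
    obtain ⟨χ, a, b⟩ := (hV (c ^ 2 / ψ ⬝ᵥ v)).1 ((k1 _).2 (by simpa [h4] using pow_mem hc 2))
    exact ⟨χ, a, by rw [b, div_mul_cancel₀ _ h4]⟩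
  have sq : ∀ χ, T ρ v χ → ∃ c ∈ K1, χ ⬝ᵥ w * ψ ⬝ᵥ v = c ^ 2 := fun χ a => by
    obtain ⟨c, hc⟩ := Finite.surjective_of_injective (f := fun x : K1 => x ^ 2) (fun x y e => by
      have e' : (x : K) ^ 2 = (y : K) ^ 2 := congrArg Subtype.val e
      exact Subtype.ext (sub_eq_zero.1 (pow_eq_zero_iff (n := 2) two_ne_zero |>.1 (by
        linear_combination e' + (y ^ 2 - x * y : K) * h2)))) ⟨_, (k1 _).1 ((hV _).2 ⟨_, a, rfl⟩)⟩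
    exact ⟨c, c.2, (congrArg Subtype.val hc).symm⟩
  have tor : ∀ t ∈ K1, t ≠ 0 → ∃ Z : V5 K, Z ⬝ᵥ w = t - 1 ∧
      ∀ χ, T ρ v χ → T ρ v (t • (χ + (χ ⬝ᵥ w) • Z)) := fun t ht t0 => by
    have nn : ∀ s ∈ K1, s ≠ 0 → slV (s / ψ ⬝ᵥ v) * slL (-(ψ ⬝ᵥ v / s)) * slV (s / ψ ⬝ᵥ v) ∈ H :=
      fun s hs s0 => by
        have a := (k1 (s / ψ ⬝ᵥ v)).2 (by simpa [h4] using hs)
        exact mul_mem (mul_mem a ((k2 _).2 (by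
          rw [mul_neg, ← mul_div_assoc]; exact neg_mem (div_mem hl hs)))) a
    obtain ⟨g, Y, hY, hg⟩ := mul_mem (nn 1 K1.one_mem one_ne_zero) (nn (-t) (neg_mem ht) (neg_ne_zero.2 t0))
    have e : ((slV (1 / ψ ⬝ᵥ v) * slL (-(ψ ⬝ᵥ v / 1)) * slV (1 / ψ ⬝ᵥ v) * (slV (-t / ψ ⬝ᵥ v) *
        slL (-(ψ ⬝ᵥ v / -t)) * slV (-t / ψ ⬝ᵥ v)) : SL(2, K)) : Matrix (Fin 2) (Fin 2) K) = !![t⁻¹, 0; 0, t] := by
      change !![1, 1 / ψ ⬝ᵥ v; 0, 1] * !![1, 0; -(ψ ⬝ᵥ v / 1), 1] * !![1, 1 / ψ ⬝ᵥ v; 0, 1] *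
        (!![1, -t / ψ ⬝ᵥ v; 0, 1] * !![1, 0; -(ψ ⬝ᵥ v / -t), 1] * !![1, -t / ψ ⬝ᵥ v; 0, 1]) = _
      simp only [mul_fin_two]
      ext i j
      fin_cases i <;> fin_cases j <;> simp <;> field_simp <;> ring
    rw [e, bM_eq] at hg
    refine ⟨(t - 1) • (φ ⬝ᵥ w)⁻¹ • φ + Y 1, by simp [h3, (hY 1).2], fun χ a => ?_⟩
    have e1 : ρ g *ᵥ (t • v) = v := by
      simp only [hg, add_mulVec, D5.vv_mulVec, mulVec_smul, h.1, (hY 0).1, (hY 1).1, one_mulVec,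
        add_dotProduct, smul_dotProduct, smul_eq_mul, inv_mul_cancel₀ h4, mul_zero, zero_mul, add_zero,
        zero_smul, mul_one, zero_dotProduct]
      ext i
      simp only [Pi.add_apply, Pi.smul_apply, smul_eq_mul]
      field_simp
      ring
    have e2 : ρ g⁻¹ *ᵥ v = t • v := by
      conv_lhs => rw [← e1, mulVec_mulVec, D5.inv_mul_rho, one_mulVec]
    have := a.conj g⁻¹
    rw [inv_inv, e2, T.smul_iff, hg] at this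
    simpa [vecMul_add, D5.vecMul_vv, a.1] using this
  obtain ⟨α, a1, a2⟩ := ex 1 K1.one_mem
  have key : ∀ t ∈ K1, t ≠ 0 → ∀ τ, T ρ v τ → τ ⬝ᵥ w * ψ ⬝ᵥ v = t ^ 2 → ∀ χ, T ρ v χ →
      T ρ v (t • χ + (χ ⬝ᵥ w * ψ ⬝ᵥ v) • (τ - t • α)) := fun t ht t0 τ b1 b2 χ c1 => by
    obtain ⟨Z, z1, z2⟩ := tor t ht t0
    have e := uq _ _ b1 (z2 _ a1) (mul_right_cancel₀ h4 (by
      simp only [smul_dotProduct, add_dotProduct, z1, smul_eq_mul, b2]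
      linear_combination (-t ^ 2) * a2))
    convert z2 _ c1 using 1
    rw [e]
    ext i
    simp only [Pi.add_apply, Pi.smul_apply, Pi.sub_apply, smul_eq_mul]
    linear_combination (t * χ ⬝ᵥ w * Z i) * a2
  obtain ⟨ω, hω, ω0, ω1⟩ := exists_ne_zero_one k
  obtain ⟨β, b1, b2⟩ := ex ω hω
  have ω2 : ω - ω ^ 2 ≠ 0 := by
    rw [show ω - ω ^ 2 = ω * (1 - ω) by ring]
    exact mul_ne_zero ω0 (sub_ne_zero.2 ω1.symm)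
  have form : ∀ c ∈ K1, ∀ χ, T ρ v χ → χ ⬝ᵥ w * ψ ⬝ᵥ v = c ^ 2 →
      χ = c ^ 2 • (ω - ω ^ 2)⁻¹ • (ω • α - β) + c • (ω - ω ^ 2)⁻¹ • (β - ω ^ 2 • α) := fun c hc χ c1 c2 => by
    by_cases c0 : c = 0
    · simpa [c0] using n _ c1 (by simpa [c0, h4] using c2)
    have e := uq _ _ (key ω hω ω0 β b1 b2 χ c1) (key c hc c0 χ c1 c2 β b1) (mul_right_cancel₀ h4 (by
      simp only [smul_dotProduct, add_dotProduct, sub_dotProduct, smul_eq_mul, b2, c2]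
      linear_combination (ω - ω ^ 2) * c2 + (c ^ 2 - c) * b2 + (c * ω ^ 2 - c ^ 2 * ω) * a2))
    rw [b2, c2] at e
    ext i
    have e' := congrFun e i
    simp only [Pi.add_apply, Pi.smul_apply, Pi.sub_apply, smul_eq_mul] at e' ⊢
    field_simp
    linear_combination e'
  have fw : ((ω - ω ^ 2)⁻¹ • (ω • α - β)) ⬝ᵥ w * ψ ⬝ᵥ v = 1 := by
    simp only [smul_dotProduct, sub_dotProduct, smul_eq_mul]
    field_simp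
    linear_combination ω * a2 - b2
  refine ⟨K1, _, (ω - ω ^ 2)⁻¹ • (β - ω ^ 2 • α), k, fun e => ?_, mul_right_cancel₀ h4 ?_,
    by simp [a1.1, b1.1], by simp [a1.1, b1.1], fw, fun χ => ⟨fun c1 => ?_, ?_⟩, fun b => ?_⟩
  · obtain ⟨c, hc, c2⟩ := sq _ p1
    obtain ⟨d, hd, d2⟩ := sq _ q1
    have e1 := form c hc _ p1 c2
    have e2 := form d hd _ q1 d2
    rw [e, smul_zero, add_zero] at e1 e2
    have c0 : c ≠ 0 := by rintro rfl; exact p0 (by simpa using e1)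
    refine pq (d ^ 2 / c ^ 2) ?_
    rw [e1, e2, smul_smul (d ^ 2 / c ^ 2), div_mul_cancel₀ _ (pow_ne_zero 2 c0)]
  · simp only [smul_dotProduct, sub_dotProduct, smul_eq_mul]
    linear_combination (ω - ω ^ 2)⁻¹ * (b2 - ω ^ 2 * a2)
  · obtain ⟨c, hc, c2⟩ := sq _ c1
    exact ⟨c, hc, form c hc _ c1 c2⟩
  · rintro ⟨c, hc, rfl⟩
    obtain ⟨χ, c1, c2⟩ := ex c hc
    rwa [← form c hc _ c1 c2]
  · rw [← hL, k2]
    generalize ((ω - ω ^ 2)⁻¹ • (ω • α - β)) ⬝ᵥ w = x at fw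
    have e : φ ⬝ᵥ w * b = (φ ⬝ᵥ w * ψ ⬝ᵥ v) * (x * b) := by linear_combination (-(φ ⬝ᵥ w) * b) * fw
    rw [e]
    exact ⟨fun e => by simpa [h3, h4] using K1.div_mem e hl, fun e => K1.mul_mem hl e⟩

end Cfsg.Agent.D5
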