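import Cfsg.Agent.DIM5.TConn
import Cfsg.Agent.H90.ML1
import Cfsg.Agent.H9.SLBasic

/-!
Groups of transvections with a centre on several axes, opposite centres being adjacent: `SL₅`.
-/

set_option autoImplicit false

open Matrix
open scoped MatrixGroups

namespace Cfsg.Agent.D5

section
open H90

variable {F A C : Type*} [Field F] [AddCommGroup A] [Module F A] [AddCommGroup C] [Module F C]
variable {B : A →ₗ[F] C →ₗ[F] F} {G : A → C → Prop} {u w x : A} {φ : C}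
variable [FiniteDimensional F C] (h : TS B G) (hc : TConn B G)
  (hd : ∀ p q, ND G p → ND G q → ∃ z, Cen G z ∧ B z p.2 ≠ 0 ∧ B z q.2 ≠ 0)
  (h3 : ∀ u, Cen G u → ∀ z, ∃ χ, χ ≠ 0 ∧ G u χ ∧ B z χ = 0)
include h hc hd h3

theorem ts_ax_le (hu : Cen G u) (hw : Cen G w) (hn : ∀ φ, G u φ → B w φ = 0) (h1 : G u φ) :
    G w φ := by
  have key : ∀ {y χ ψ φ}, Cen G y → G u χ → B y χ ≠ 0 → G w ψ → B y ψ ≠ 0 → G u φ → B y φ = 0 →
      G w φ := fun hy a1 e1 a2 e2 a3 e3 => by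
    obtain ⟨ζ, a4, e4⟩ := h.np_symm hc a1 hu.choose_spec.2.1 e1 hy
    exact h.one_dir a2 (h.one_dir a4 a3 e4 e3) e2 (hn _ a3)
  obtain ⟨z, hz, e1, e2⟩ := hd _ _ hu.choose_spec hw.choose_spec
  obtain ⟨χ, e3, a1, e4⟩ := h3 u hu z
  have a2 := key hz hu.choose_spec.1 e1 hw.choose_spec.1 e2 a1 e4
  obtain ⟨y, η, a3, e5, e6⟩ := h.opp a1 hu.choose_spec.2.1 e3
  simpa using h.addr (key ⟨η, a3, ne_l e5, ne_r e6⟩ a1 e5 a2 e5 (h.subr h1 a1 (B y φ / B y χ)) (by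
    simp [div_mul_cancel₀ _ e5])) (h.smr (B y φ / B y χ) a2)

theorem ts_prop (hu : Cen G u) (hw : Cen G w) (hn : ∀ φ, G u φ → B w φ = 0) :
    ∃ c : F, w = c • u := by
  obtain ⟨χ, a1, hu0, e1⟩ := id hu
  obtain ⟨z, ζ, a2, e2, e3⟩ := h.opp a1 hu0 e1
  refine ⟨B w ζ / B u ζ, by_contra fun e => ?_⟩
  have a3 := h.addl (ts_ax_le h hc hd h3 hu hw hn a1) (h.sml (-(B w ζ / B u ζ)) a1)
  obtain ⟨ζ', a4, e4⟩ := h.np_symm hc a3 (by rwa [neg_smul, ← sub_eq_add_neg, sub_ne_zero]) e2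
    ⟨ζ, a2, ne_l e2, ne_r e3⟩
  have e5 := hn _ (h.one_dir a1 (h.subr a4 a2 (B u ζ' / B u ζ)) e2 (by simp [div_mul_cancel₀ _ e3]))
  apply e4
  simp only [map_sub, map_smul, map_add, LinearMap.add_apply, LinearMap.smul_apply,
    smul_eq_mul] at e5 ⊢
  dsimp only at e3
  field_simp at e5 ⊢
  linear_combination e5

theorem ts_cen (hx : x ∈ Submodule.span F {v | Cen G v}) : x = 0 ∨ Cen G x := by
  have sm : ∀ (c : F) {v}, Cen G v → c • v = 0 ∨ Cen G (c • v) := fun c v ⟨φ, h1⟩ =>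
    or_iff_not_imp_left.2 fun e => ⟨φ, h.sml c h1.1, e, h1.2.2⟩
  induction hx using Submodule.span_induction with
  | mem x hx => exact Or.inr hx
  | zero => exact Or.inl rfl
  | smul c x _ ih => exact ih.elim (fun e => Or.inl (by rw [e, smul_zero])) (sm c)
  | add u w _ _ hu hw =>
    rcases hu with rfl | hu
    · simpa using hw
    rcases hw with rfl | hw
    · simpa using Or.inr hu
    by_cases hn : ∀ φ, G u φ → B w φ = 0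
    · obtain ⟨c, rfl⟩ := ts_prop h hc hd h3 hu hw hn
      simpa [add_smul] using sm (1 + c) hu
    · push Not at hn
      obtain ⟨φ, h1, e⟩ := hn
      simpa [add_comm] using Or.inr (h.line h1 e hw 1)

end

variable {K : Type*} [Field K] {Γ X : Type*} [Group Γ] [Group X] {ρ : Γ →* M5 K} {π : Γ →* X}
variable {u v w f g h φ ψ χ : V5 K}

theorem Multi.indep (h : Multi ρ v) (hφ : φ ≠ 0) : ∃ ψ, T ρ v ψ ∧ ∀ c : K, ψ ≠ c • φ := by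
  obtain ⟨-, φ1, φ2, h1, h2, h3, h4⟩ := h
  by_contra hc
  push Not at hc
  obtain ⟨a, rfl⟩ := hc _ h1
  obtain ⟨b, rfl⟩ := hc _ h2
  have ha : a ≠ 0 := by rintro rfl; simp at h3
  exact h4 (b / a) (by rw [smul_smul, div_mul_cancel₀ _ ha])

theorem adj_of [Finite K] {K0 : Subfield K} (hl : ∀ v φ w ψ, T ρ v φ → T ρ w ψ →
    φ ⬝ᵥ w ≠ 0 → ψ ⬝ᵥ v ≠ 0 → (φ ⬝ᵥ w) * (ψ ⬝ᵥ v) ∈ K0 ∨ (3 : K) = 0) (hR : Rt ρ K0) :
    AdjA ρ := by
  intro v φ w ψ m a b e1 e2 n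
  have fa := Fl.of_dot a e2 e1
  obtain ⟨χ, c, hc⟩ := m.indep fa.2.2
  refine hc (χ ⬝ᵥ w / φ ⬝ᵥ w) (sub_eq_zero.1 (n _ ?_ (by simp [e1])))
  by_cases h3 : (3 : K) = 0
  · exact negT (fun e => one_ne_zero (α := K) (by linear_combination h3 - e)) a b e1 e2 c
  refine c.sub ((hR _ _ fa _).2 ?_)
  by_cases e3 : χ ⬝ᵥ w = 0
  · simp [e3]
  · simpa [mul_div_mul_right _ _ e2] using K0.div_mem ((hl _ _ _ _ c b e3 e2).resolve_right h3)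
      ((hl _ _ _ _ a b e1 e2).resolve_right h3)

theorem AdjA.ex (hA : AdjA ρ) (m : Multi ρ v) (a : T ρ v φ) (b : T ρ w ψ) (e1 : φ ⬝ᵥ w ≠ 0)
    (e2 : ψ ⬝ᵥ v ≠ 0) : ∃ χ, T ρ v χ ∧ χ ⬝ᵥ w = 0 ∧ χ ≠ 0 := by
  have := hA _ _ _ _ m a b e1 e2
  simp only [NA, not_forall] at this
  obtain ⟨χ, a, b, c⟩ := this
  exact ⟨χ, a, b, c⟩

theorem Hyp.multi_all (h : Hyp ρ π) (hv : Multi ρ v) (hA : AdjA ρ) (hw : Fl ρ w ψ) :
    Multi ρ w := by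
  obtain ⟨h0, φ, -, h1, -, h2, -⟩ := id hv
  refine h.conn (fun x _ => Multi ρ x) (fun x ξ y η a b e1 e2 m => ?_) ⟨h1, h0, h2⟩ hw hv
  obtain ⟨χ, c1, c2, c3⟩ := hA.ex m a b e1 e2
  exact ⟨(Fl.of_dot b e1 e2).2.1, _, η, c1.comm b c2, b, smul_ne_zero e2 c3, fun d e => e2 (by
    rw [e]; simp [c1.1])⟩

theorem Hyp.rt_top [Finite K] (h : Hyp ρ π) (tt : TrTop ρ) {K0 : Subfield K} (hR : Rt ρ K0)
    (hv : Multi ρ v) (hA : AdjA ρ) : K0 = ⊤ := by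
  have lm : ∀ x ξ y η, T ρ x ξ → T ρ y η → ξ ⬝ᵥ y ≠ 0 → η ⬝ᵥ x ≠ 0 → (ξ ⬝ᵥ y) * (η ⬝ᵥ x) ∈ K0 :=
    fun x ξ y η a b e1 e2 => by
    have fa := Fl.of_dot a e2 e1
    obtain ⟨χ, c1, c2, c3⟩ := hA.ex (h.multi_all hv hA fa) a b e1 e2
    have := (c1.comm b c2).comm a (by simp [c1.1])
    rwa [smul_smul, hR _ _ ⟨c1, fa.2.1, c3⟩] at this
  obtain ⟨h0, φ, -, h1, -, h2, -⟩ := id hv
  have fv : Fl ρ v φ := ⟨h1, h0, h2⟩
  have nb : ∀ x χ, Nb ρ v φ x χ → Fl ρ x χ := fun x χ ⟨a, b, c, c0, t⟩ => by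
    have e := lm _ _ _ _ h1 t (by simp [a]) (by simp [b, c0])
    have f : Fl ρ x (c • χ) := Fl.of_dot (ψ := φ) (w := v) t (by simp [a]) (by simp [b, c0])
    have := (hR _ _ f c⁻¹).2 (K0.inv_mem (by simpa [a, b] using e))
    rw [inv_smul_smul₀ c0] at this
    exact ⟨this, f.2.1, by rintro rfl; simp at b⟩
  refine tt K0 (h.nb_trace fv K0 (fun c t => (hR _ _ fv c).1 t)
    (fun x χ c n t => (hR _ _ (nb _ _ n) c).1 t) fun x χ x' χ' n n' => ?_)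
  have t := (nb _ _ n).1
  have z : ∀ η, T ρ x' η → η ⬝ᵥ v = -1 → η ⬝ᵥ x = 0 → χ ⬝ᵥ x' ∈ K0 := fun η a b c => by
    by_cases e : χ ⬝ᵥ x' = 1
    · exact e ▸ K0.one_mem
    have := lm _ _ _ _ t (h1.act a) (by simpa [n'.1, n.2.1, add_neg_eq_zero] using e)
      (by simp [b, c, n.1])
    simp only [dotProduct_add, dotProduct_smul, sub_dotProduct, smul_dotProduct, n'.1, n.2.1, n.1,
      b, c, smul_eq_mul] at this
    simpa using K0.add_mem this K0.one_mem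
  by_cases e1 : χ' ⬝ᵥ x = 0
  · exact z _ (nb _ _ n').1 n'.2.1 e1
  by_cases e2 : χ ⬝ᵥ x' = 0
  · exact e2 ▸ K0.zero_mem
  obtain ⟨η, c1, c2, c3⟩ := hA.ex (h.multi_all hv hA (nb _ _ n')) (nb _ _ n').1 t e1 e2
  by_cases e3 : η ⬝ᵥ v = 0
  · have a1 := (c1.comm h1 e3).comm t (by simp [c2])
    rw [n'.1, n.2.1, one_smul] at a1
    have a2 := hR _ _ ⟨a1, (nb _ _ n).2.1, by simpa using c3⟩ (-(χ ⬝ᵥ x'))
    simpa using a2.1 (by simpa using c1.comm t c2)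
  · have a1 := lm _ _ _ _ h1 c1 (by simp [n'.1]) e3
    rw [n'.1, one_mul] at a1
    exact z _ ((hR _ _ ⟨c1, (nb _ _ n').2.1, c3⟩ _).2 (K0.neg_mem (K0.inv_mem a1)))
      (by simp [e3]) (by simp [c2])

theorem Hyp.sl_of_adj [Finite K] (h : Hyp ρ π) (tt : TrTop ρ) {K0 : Subfield K} (hR : Rt ρ K0)
    (hv : Multi ρ v) (hA : AdjA ρ) : IsSL ρ := by
  obtain rfl := h.rt_top tt hR hv hA
  have sm : ∀ {v φ} (a : K), T ρ v φ → T ρ v (a • φ) := fun {v φ} a t => by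
    by_cases e1 : v = 0
    · exact e1 ▸ T.zero' ρ _
    by_cases e2 : φ = 0
    · simpa [e2] using T.zero ρ v
    exact (hR _ _ ⟨t, e1, e2⟩ a).2 trivial
  let B : V5 K →ₗ[K] V5 K →ₗ[K] K := (dotProductBilin K K).flip
  have ts : H90.TS B (T ρ) := ⟨fun t => t.1, T.zero' ρ, T.zero ρ,
    fun a t => (T.smul_iff a).2 (sm a t), sm, T.add', T.add, fun a b => b.act a,
    fun a b c => h.opp ⟨a, b, c⟩⟩
  have tc : H90.TConn B (T ρ) := fun p q hp hq =>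
    h.conn (fun w ψ => Relation.ReflTransGen (H90.Op B (T ρ)) p (w, ψ))
      (fun _ _ _ _ a b e1 e2 r => r.tail ⟨a, b, e1, e2⟩) hp hq .refl
  have hd : ∀ p q, H90.ND (T ρ) p → H90.ND (T ρ) q →
      ∃ z, H90.Cen (T ρ) z ∧ B z p.2 ≠ 0 ∧ B z q.2 ≠ 0 := fun p q hp hq =>
    let ⟨w, ξ, a, b⟩ := h.two_hyp hp hp.2.2 hq.2.2
    ⟨w, ⟨ξ, a⟩, b⟩
  have h3 : ∀ u, H90.Cen (T ρ) u → ∀ z, ∃ χ, χ ≠ 0 ∧ T ρ u χ ∧ B z χ = 0 := fun u ⟨ξ, a⟩ z => by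
    by_cases e : ξ ⬝ᵥ z = 0
    · exact ⟨ξ, a.2.2, a.1, e⟩
    obtain ⟨χ, c, hc⟩ := (h.multi_all hv hA a).indep a.2.2
    exact ⟨_, sub_ne_zero.2 (hc (χ ⬝ᵥ z / ξ ⬝ᵥ z)), c.sub (sm _ a.1),
      show (_ : V5 K) ⬝ᵥ z = 0 by simp [e]⟩
  obtain ⟨h0, φ, -, h1, -, h2, -⟩ := id hv
  have cen : ∀ x : V5 K, x ≠ 0 → H90.Cen (T ρ) x := fun x hx => by
    refine (ts_cen ts tc hd h3 (by_contra fun hc => ?_)).resolve_left hx
    obtain ⟨η, a, b⟩ := exists_ann hc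
    obtain ⟨w, ξ, c, d⟩ := h.one_hyp ⟨h1, h0, h2⟩ (ψ := η) (by rintro rfl; simp at a)
    exact d (b w (Submodule.subset_span ⟨ξ, c⟩))
  have all : ∀ x ξ : V5 K, x ≠ 0 → ξ ⬝ᵥ x = 0 → T ρ x ξ := fun x ξ hx e => by
    by_contra hc
    obtain ⟨y, a, b⟩ := exists_ann (W := ts.ax x) (v := ξ) hc
    obtain ⟨c, rfl⟩ := ts_prop ts tc hd h3 (cen x hx) (cen y (by rintro rfl; simp at a))
      fun η t => (dotProduct_comm _ _).trans (b η t)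
    exact a (by rw [dotProduct_comm]; simp [e])
  intro M hM
  refine H9.sl_transvection_induction (fun A : SL(5, K) => In ρ A) ⟨1, by simp⟩
    (fun i j hij c => ?_) (fun a b ⟨g, hg⟩ ⟨g', hg'⟩ => ⟨g * g', by rw [map_mul, hg, hg']; rfl⟩)
    ⟨M, hM⟩
  obtain ⟨-, g, hg⟩ := all (Pi.single i 1) (c • Pi.single j 1) (by simp) (by simp [hij.symm])
  exact ⟨g, by rw [hg, SpecialLinearGroup.transvection_coe, vecMulVec_smul,
    ← single_eq_single_vecMulVec_single, smul_single, smul_eq_mul, mul_one]⟩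

end Cfsg.Agent.D5
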