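import Cfsg.Agent.DIM5.L3
import Cfsg.Agent.H69.GenSU3
import Cfsg.Agent.H85.L3M
import Cfsg.Agent.S2089

/-! `U₃(r)` has no five-dimensional projective representation without reflections. -/

set_option autoImplicit false

open Matrix
open scoped MatrixGroups

namespace Cfsg.Agent.D5

open Cfsg.Agent.H10 Cfsg.Agent.H49.U3

variable {K : Type*} [Field K] {Γ X : Type*} [Group Γ] [Group X] {ρ : Γ →* M5 K} {π : Γ →* X}

section

variable {F : Type*} [Field F] [Fintype F] {q : ℕ} [hF : Fact (Fintype.card F = q ^ 2)]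

local notation "σ" => H10.cj F q
local notation "𝐡" => hermForm 3 F q

theorem cov_su3 (e : X ≃* PSU 3 F q) :
    Cov3 (IsIsom q) ((sl3m F).comp (SU 3 F q).subtype)
      (e.symm.toMonoidHom.comp (QuotientGroup.mk' _)) where
  inj _ _ h := sm_injective h
  surj := e.symm.surjective.comp (QuotientGroup.mk'_surjective _)
  ker s := by
    change e.symm _ = 1 ↔ _
    rw [e.symm.map_eq_one_iff, QuotientGroup.mk'_apply, QuotientGroup.eq_one_iff,
      mem_center_SU_iff (by norm_num)]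
    rfl
  mk' M h h' := ⟨mkSU M h' h, rfl⟩

theorem su3_gen (hq : 3 ≤ q) (H : Subgroup (SU 3 F q)) {w y : SU 3 F q} {a b : F}
    (hw : sm w = shift3 F) (hy : sm y = dg3 a a b) (h1 : w ∈ H)
    (h2 : ∀ x, x * y = y * x → x ∈ H) : H = ⊤ := by
  let W := Submodule.span F {(Pi.single 2 1 : Fin 3 → F)}
  have hW : ∀ v ∈ W, v 0 = 0 ∧ v 1 = 0 := fun v hv => by
    obtain ⟨t, rfl⟩ := Submodule.mem_span_singleton.1 hv
    simp
  have h0 : (Pi.single 2 1 : Fin 3 → F) ∈ W := Submodule.mem_span_singleton_self _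
  have hn : (Pi.single 2 1 : Fin 3 → F) ≠ 0 := by simp
  have mx := H85.L3.c1_nd (F := F) hq W (by simp [W]) (fun v hv v0 => by
    obtain ⟨t, rfl⟩ := Submodule.mem_span_singleton.1 hv
    have ht : t ≠ 0 := fun e => v0 (by simp [e])
    exact ⟨⟨_, h0, by simpa [herm_smul_right, herm_single_single, cj_eq_zero] using ht⟩,
      ⟨_, h0, by simpa [herm_smul_left, herm_single_single] using ht⟩⟩)
    (by rw [finrank_span_singleton hn]; norm_num)
  refine (mx.2 (H.map (suToGL 3 F q)) (fun g hg => ?_) (by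
    rintro _ ⟨x, -, rfl⟩; exact suToGL_mem x)).elim (fun e => ?_) fun e => ?_
  rotate_left
  · have : suToGL 3 F q w ∈ Geo.subspaceStabilizer W := (e ▸ Subgroup.mem_map_of_mem _ h1 :
      suToGL 3 F q w ∈ Geo.subspaceStabilizer W ⊓ SUG 3 F q).1
    have := (hW _ ((H98.mem_subspaceStabilizer.1 this _).1 h0)).2
    rw [coe_suToGL, hw] at this
    simp [shift3] at this
  · refine eq_top_iff.2 fun x _ => ?_
    obtain ⟨x', hx, e'⟩ : suToGL 3 F q x ∈ H.map (suToGL 3 F q) := e ▸ suToGL_mem x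
    exact suToGL_injective e' ▸ hx
  · obtain ⟨x, rfl⟩ : g ∈ (suToGL 3 F q).range := range_suToGL (n := 3) (F := F) (q := q) ▸ hg.2
    refine Subgroup.mem_map_of_mem _ (h2 x (sm_injective ?_))
    obtain ⟨e0, e1⟩ := hW _ ((H98.mem_subspaceStabilizer.1 hg.1 _).1 h0)
    rw [coe_suToGL] at e0 e1
    simp only [mulVec_single_one, col_apply] at e0 e1
    have k := fun j => congrFun (congrFun ((isIsom_iff _).1 (sm_isIsom x)) j) 2
    simp only [Matrix.mul_apply, Fin.sum_univ_three, transpose_apply, map_apply, e0, e1, map_zero,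
      mul_zero, zero_add] at k
    have k2 : σ (sm x 2 2) ≠ 0 := right_ne_zero_of_mul (by rw [k 2]; simp)
    have e2 : sm x 2 0 = 0 := by simpa [k2] using k 0
    have e3 : sm x 2 1 = 0 := by simpa [k2] using k 1
    rw [sm_mul, sm_mul, hy]
    ext i j
    fin_cases i <;> fin_cases j <;>
      simp [dg3, Matrix.mul_apply, Fin.sum_univ_three, e0, e1, e2, e3, mul_comm]

variable {e w f : Fin 3 → F}

theorem su3_heis (hfr : Frame q e w f) {c : F} (hc : σ c = -c) : ∃ x y : SU 3 F q,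
    x * y = utSU hfr.ee hc * (y * x) ∧ sm x *ᵥ e = e ∧ sm y *ᵥ e = e := by
  obtain ⟨a, ha⟩ := exists_sub_cj_eq hc
  have y1 : 𝐡 (a • w) e = 0 := by rw [herm_smul_left, hfr.we, mul_zero]
  obtain ⟨b1, hb1⟩ := exists_trace_eq (cj_herm (q := q) (a • w) (a • w))
  obtain ⟨b2, hb2⟩ := exists_trace_eq (cj_herm (q := q) w w)
  refine ⟨eichSU hfr.ee y1 hb1, eichSU hfr.ee hfr.we hb2, sm_injective ?_,
    eich_mulVec_self hfr.ee y1 _, eich_mulVec_self hfr.ee hfr.we _⟩
  rw [sm_mul, sm_mul, sm_mul, sm_utSU, sm_eichSU, sm_eichSU, eich_mul hfr.ee y1 hfr.we,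
    eich_mul hfr.ee hfr.we y1, ← neg_neg c, ← eich_zero, eich_mul hfr.ee (herm_zero_left e)
      (by rw [herm_add_left, hfr.we, y1, add_zero]), herm_zero_right, herm_smul_left,
      herm_smul_right, hfr.ww, zero_add, add_comm w]
  congr 1
  linear_combination -ha

theorem su3_comm (he : 𝐡 e e = 0) {c : F} (hc : σ c = -c) {g : SU 3 F q} (h : sm g *ᵥ e = e) :
    utSU he hc * g = g * utSU he hc :=
  (mul_inv_eq_iff_eq_mul.1 (H69.conj_utSU he he hc h)).symm

theorem su3_ne (hfr : Frame q e w f) {c t : F} (h : unitaryTransvection 3 q e c = t • 1) :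
    c = 0 := by
  have h1 := congrArg (fun M => 𝐡 (M *ᵥ f) f) h
  simpa [ut_mulVec, herm_add_left, herm_smul_left, hfr.fe, hfr.ef, hfr.ff, smul_mulVec] using h1

end

variable [IsAlgClosed K] [Finite Γ]

theorem Hyp.u3 (h : Hyp ρ π) (n : NoRf ρ) {r : ℕ} (e : IsU3 X r) (h3 : 3 ≤ r)
    (hp : ((2 : K) = 0 ↔ Even r) ∨ r = 4) : False := by
  classical
  obtain ⟨F, _, _, hF, ⟨e⟩⟩ := e
  haveI := Fact.mk hF
  have c := cov_su3 e
  have hπ : Function.Injective π := h.inj_of_cyc e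
    (S2089.result 3 r hF le_rfl (by omega) (by simp))
  obtain ⟨l, k, hlp, hl, k0, hk⟩ := exists_char_pow_of_card_sq hF
  have qb : IsIsom r (shift3 F) := (isIsom_iff _).2 (by
    ext i j
    fin_cases i <;> fin_cases j <;> simp [shift3, Matrix.mul_apply, Fin.sum_univ_three])
  have qd : ∀ a b d : F, a * cj F r a = 1 → b * cj F r b = 1 → d * cj F r d = 1 →
      IsIsom r (dg3 a b d) := fun a b d h1 h2 h3 => (isIsom_iff _).2 (by
    ext i j
    fin_cases i <;> fin_cases j <;> simp [dg3, Matrix.mul_apply, Fin.sum_univ_three, h1, h2, h3])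
  by_cases hK : (l : K) = 0
  · have hr : (r : K) = 0 := by rw [hk, Nat.cast_pow, hK, zero_pow k0.ne']
    by_cases h5 : r = 5
    · subst h5
      obtain ⟨ω, h1, h2⟩ := exists_omega (F := F) (by rw [hF]; norm_num)
      have h4 : cj F 5 ω = ω ^ 2 := by rw [cj_apply]; grind
      have h0 : ω - ω ^ 2 ≠ 0 := fun e => h2 (by grind)
      have h6 : (ω - ω ^ 2)⁻¹ * cj F 5 (ω - ω ^ 2)⁻¹ * 3 = 1 := by
        have : ω ^ 2 - (ω ^ 2) ^ 2 = -(ω - ω ^ 2) := by grind
        rw [map_inv₀, map_sub, map_pow, h4, this]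
        field_simp
        grind
      refine c.e9 h (fun e => one_ne_zero (α := K) (by
        push_cast at hr; linear_combination 2 * e - hr)) h1 h2
        (qd _ _ _ (by simp) (by rw [h4]; grind) (by rw [map_pow, h4]; grind)) qb ?_ ?_
      all_goals
        generalize (ω - ω ^ 2)⁻¹ = u at h6 ⊢
        rw [isIsom_iff]
        ext i j
        fin_cases i <;> fin_cases j <;> simp [Matrix.mul_apply, Fin.sum_univ_three, h4] <;> grind
    obtain ⟨s, hs⟩ := IsCyclic.exists_ofOrder_eq_natCard (α := Fˣ)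
    rw [Nat.card_units, Nat.card_eq_fintype_card, hF, show r ^ 2 - 1 = (r - 1) * (r + 1) by
      rw [mul_comm, ← Nat.sq_sub_sq]] at hs
    have hμ : ∀ t : rootsOfUnity (r + 1) F, ((t : Fˣ) : F) * cj F r (t : Fˣ) = 1 := fun t => by
      rw [mul_cj_eq_pow]; exact (mem_rootsOfUnity' _ _).1 t.2
    refine c.torus h hπ ((Units.coeHom F).comp (rootsOfUnity (r + 1) F).subtype)
      (Units.val_injective.comp Subtype.val_injective) (fun a b => qd _ _ _ (hμ a) (hμ b) (hμ (a * b)⁻¹)) qb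
      ((isIsom_iff _).2 (by
        ext i j
        fin_cases i <;> fin_cases j <;> simp [Matrix.mul_apply, Fin.sum_univ_three]))
      (n := r + 1) (by rw [Nat.cast_succ, hr]; simp) (fun s => Subtype.ext s.2)
      (s := ⟨s ^ (r - 1), by rw [mem_rootsOfUnity, ← pow_mul, ← hs, pow_orderOf_eq_one]⟩)
      (fun e => ?_) fun H w y a b hw hy h1 h2 => su3_gen h3 H hw hy h1 h2
    have : orderOf s ∣ (r - 1) * 6 := orderOf_dvd_of_pow_eq_one (by
      rw [pow_mul]; exact congrArg Subtype.val e)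
    rw [hs] at this
    have := Nat.dvd_of_mul_dvd_mul_left (by omega) this
    have h6 := Nat.le_of_dvd (by norm_num) this
    obtain rfl | rfl : r = 3 ∨ r = 4 := by omega
    all_goals simp at this
  obtain ⟨v, w, f, hfr⟩ := H69.exists_frame' (F := F) (q := r)
  have ne : ∀ {a : F} (ha : cj F r a = -a), a ≠ 0 →
      (e.symm.toMonoidHom.comp (QuotientGroup.mk' _)) (utSU hfr.ee ha) ≠ 1 := fun ha h0 e =>
    let ⟨_, ht⟩ := (c.ker _).1 e
    h0 (su3_ne hfr ht)
  by_cases h2 : l = 2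
  · subst h2
    have h2 : (2 : K) ≠ 0 := by exact_mod_cast hK
    obtain rfl : r = 4 := hp.resolve_left fun e =>
      h2 (e.2 (hk ▸ Nat.even_pow.2 ⟨even_two, k0.ne'⟩))
    obtain ⟨ω, h1, -⟩ := exists_omega (F := F) (by rw [hF]; norm_num)
    have t0 : (2 : F) = 0 := CharTwo.two_eq_zero
    have a1 : cj F 4 1 = -1 := by rw [map_one]; grind
    have a2 : cj F 4 ω = -ω := by rw [cj_apply]; grind
    have a3 : cj F 4 (1 + ω) = -(1 + ω) := by rw [map_add, a1, a2]; ring
    obtain ⟨x, y, e1, hx, hy⟩ := su3_heis hfr a1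
    have sq : ∀ {a : F} (ha : cj F 4 a = -a), utSU hfr.ee ha * utSU hfr.ee ha = 1 := fun {a} ha =>
      sm_injective (by
        rw [sm_mul, sm_utSU, ut_mul_ut, hfr.ee, sm_one, ← ut_zero (q := 4) v]; congr 1; grind)
    have e2 : utSU hfr.ee a1 * utSU hfr.ee a2 = utSU hfr.ee a3 := sm_injective (by
      rw [sm_mul, sm_utSU, sm_utSU, sm_utSU, ut_mul_ut, hfr.ee, mul_zero, add_zero])
    set g := e.symm.toMonoidHom.comp (QuotientGroup.mk' (Subgroup.center (SU 3 F 4)))
    have cm : ∀ {a : F} (ha : cj F 4 a = -a) {x : SU 3 F 4}, sm x *ᵥ v = v →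
        g x * g (utSU hfr.ee ha) = g (utSU hfr.ee ha) * g x := fun ha x hx => by
      rw [← map_mul, ← map_mul, su3_comm hfr.ee ha hx]
    refine h.v4_false n h2 (z := g (utSU hfr.ee a1)) (z' := g (utSU hfr.ee a2)) (a := g x)
      (b := g y) (ne a1 one_ne_zero) (ne a2 (by rintro rfl; simp at h1)) (fun e => ?_)
      (by rw [← map_mul, sq, map_one]) (by rw [← map_mul, sq, map_one])
      (cm a2 (ut_mulVec_of_orth _ hfr.ee)) (cm a1 hx) (cm a2 hx) (cm a1 hy) (cm a2 hy) ?_
    · exact ne a3 (fun e => one_ne_zero (α := F) (by grind))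
        (by rw [← e2, map_mul, e, ← map_mul, sq, map_one])
    · rw [← map_mul, e1, map_mul, map_mul]; group
  obtain ⟨a, a0, ha⟩ := exists_skew F r
  obtain ⟨x, y, e1, hx, hy⟩ := su3_heis hfr ha
  refine c.heis h hπ hlp h2 hK e1 (su3_comm _ ha hx) (su3_comm _ ha hy) (ne ha a0)
    (c.inj ?_) ?_
  · rw [map_pow, map_one]
    change unitaryTransvection 3 r v a ^ l = 1
    rw [ut_pow hfr.ee, CharP.cast_eq_zero, zero_mul, ut_zero]
  · obtain ⟨b, b0, hb⟩ := exists_norm_neg_one (F := F) (q := r)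
    have hv : hermForm 3 F r (b • v) (b • v) = 0 := by
      rw [herm_smul_left, herm_smul_right, hfr.ee, mul_zero, mul_zero]
    obtain ⟨g, hg⟩ := H69.exists_SU_move hfr hv (smul_ne_zero b0 hfr.e_ne)
    refine isConj_iff.2 ⟨g, (H69.conj_utSU hfr.ee hv ha hg).trans (eq_inv_of_mul_eq_one_left
      (sm_injective ?_))⟩
    rw [sm_mul, sm_utSU, sm_utSU, ut_smul, ut_mul_ut, hb, hfr.ee, sm_one, ← ut_zero (q := r) v]
    congr 1
    ring

end Cfsg.Agent.D5
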